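import Cfsg.Agent.LS.Defs
import Cfsg.Agent.H15.LXMore

set_option autoImplicit false

namespace Cfsg.Agent.LS

open Subgroup H29
open scoped commutatorElement

variable {G : Type*} [Group G] [Finite G] {Q : Subgroup G} {z : G}

omit [Finite G] in
theorem exl_card_le {X : Subgroup G} (l : List G) (h : ∀ q ∈ X, q ∈ l) :
    Nat.card X ≤ l.length := by
  classical
  have h1 : (X : Set G) ⊆ (l.toFinset : Set G) := fun q hq => by simpa using h q hq
  have h2 := Set.ncard_le_ncard h1 (Finset.finite_toSet _)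
  rw [Set.ncard_coe_finset] at h2
  have h3 : Nat.card X = (X : Set G).ncard := Nat.card_coe_set_eq (X : Set G)
  rw [h3]
  exact h2.trans (List.toFinset_card_le l)

omit [Finite G] in
theorem exl_nc (h : H15.EX Q z) {a b : G} (ha : a ∈ Q) (hb : b ∈ Q) (n : a * b ≠ b * a) :
    a * b = z * (b * a) := by
  rcases h.comm a ha b hb with e | e
  · exact absurd (mul_inv_eq_iff_eq_mul.1 e) n
  · rw [← mul_assoc, ← e]; group

omit [Finite G] in
theorem exl_zne (h : H15.EX Q z) (a : G) : z * a ≠ a := fun e => h.ne (by simpa using e)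

omit [Finite G] in
/-- the square of a product of two non-commuting elements -/
theorem exl_sq (h : H15.EX Q z) {a b : G} (ha : a ∈ Q) (hb : b ∈ Q) (n : a * b ≠ b * a) :
    (a * b) * (a * b) = z * ((a * a) * (b * b)) := by
  have e : b * a = z * (a * b) := exl_nc h hb ha (Ne.symm n)
  calc (a * b) * (a * b) = a * (b * a) * b := by group
    _ = (a * z) * (a * b) * b := by rw [e]; group
    _ = z * ((a * a) * (b * b)) := by rw [h.cen a ha]; group

omit [Finite G] in
theorem exl_sq' {a b : G} (n : a * b = b * a) : (a * b) * (a * b) = (a * a) * (b * b) := by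
  calc (a * b) * (a * b) = a * (b * a) * b := by group
    _ = (a * a) * (b * b) := by rw [← n]; group

omit [Finite G] in
/-- a product of two elements which do not commute with `a` commutes with `a` -/
theorem exl_two (h : H15.EX Q z) {a b c : G} (ha : a ∈ Q) (hb : b ∈ Q) (hc : c ∈ Q)
    (n1 : a * b ≠ b * a) (n2 : a * c ≠ c * a) : a * (b * c) = (b * c) * a := by
  have e1 := exl_nc h ha hb n1
  have e2 := exl_nc h ha hc n2
  calc a * (b * c) = (a * b) * c := by group
    _ = z * b * (a * c) := by rw [e1]; group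
    _ = z * (b * z) * (c * a) := by rw [e2]; group
    _ = (z * z) * (b * c * a) := by rw [h.cen b hb]; group
    _ = (b * c) * a := by rw [h.sq]; group

theorem EX_gen (h : H15.EX Q z) (c : 8 < Nat.card Q) {u : G} (hu : u ∈ Q) (u2 : u * u = 1)
    (u1 : u ≠ 1) (uz : u ≠ z) : Q ≤ closure {i | i ∈ Q ∧ i * i = 1 ∧ i * u * i⁻¹ = u * z} := by
  set H := closure {i | i ∈ Q ∧ i * i = 1 ∧ i * u * i⁻¹ = u * z} with hH
  have gen : ∀ x ∈ Q, x * x = 1 → x * u ≠ u * x → x ∈ H := fun x hx x2 n =>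
    subset_closure ⟨hx, x2, by rw [exl_nc h hx hu n, h.cen u hu]; group⟩
  have gen' : ∀ x ∈ Q, x * x = z → x * u ≠ u * x → x * u ∈ H := fun x hx x2 n =>
    gen _ (Q.mul_mem hx hu) (by rw [exl_sq h hx hu n, x2, u2, mul_one, h.sq])
      (fun e => n (by
        have : x * u * u = (u * x) * u := by rw [e]; group
        exact mul_right_cancel this))
  obtain ⟨x0, hx0, x2, n0⟩ : ∃ x0 ∈ Q, x0 * x0 = 1 ∧ x0 * u ≠ u * x0 := by
    obtain ⟨x, hx, n⟩ : ∃ x ∈ Q, u * x ≠ x * u := by
      by_contra hc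
      push Not at hc
      rcases h.center u hu hc with e | e
      · exact u1 e
      · exact uz e
    rcases h.sqr x hx with e | e
    · exact ⟨x, hx, e, n.symm⟩
    · refine ⟨x * u, Q.mul_mem hx hu, by rw [exl_sq h hx hu n.symm, e, u2, mul_one, h.sq],
        fun e' => n ?_⟩
      have : x * u * u = (u * x) * u := by rw [e']; group
      exact (mul_right_cancel this).symm
  have x0H := gen x0 hx0 x2 n0
  have uH : u ∈ H := by
    by_contra uH
    -- the common centraliser E of u and x0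
    have nE : ∀ y, y * u = u * y → (y * x0) * u ≠ u * (y * x0) := fun y yu e => n0 (by
      have : y * (x0 * u) = y * (u * x0) := by
        rw [← mul_assoc, e, ← mul_assoc, ← mul_assoc, yu]
      exact mul_left_cancel this)
    have E1 : ∀ y ∈ Q, y * u = u * y → y * x0 = x0 * y → y * y = 1 → y ∈ H := by
      intro y hy yu yx y2
      have := gen _ (Q.mul_mem hy hx0) (by rw [exl_sq' yx, y2, x2, one_mul]) (nE y yu)
      exact (H.mul_mem_cancel_right x0H).1 this
    have E2 : ∀ y ∈ Q, y * u = u * y → y * x0 = x0 * y → y * y = z → y * u ∈ H := by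
      intro y hy yu yx y2
      have := gen' _ (Q.mul_mem hy hx0) (by rw [exl_sq' yx, y2, x2, mul_one]) (nE y yu)
      rw [yx, mul_assoc] at this
      exact (H.mul_mem_cancel_left x0H).1 this
    have ab : ∀ y ∈ Q, y * u = u * y → y * x0 = x0 * y → ∀ y' ∈ Q, y' * u = u * y' →
        y' * x0 = x0 * y' → y * y' = y' * y := by
      intro y hy yu yx y' hy' yu' yx'
      by_contra n
      have s := exl_sq h hy hy' n
      have p1 : (y * y') * u = u * (y * y') := by
        rw [mul_assoc, yu', ← mul_assoc, yu, mul_assoc]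
      have p2 : (y * y') * x0 = x0 * (y * y') := by
        rw [mul_assoc, yx', ← mul_assoc, yx, mul_assoc]
      have hp := Q.mul_mem hy hy'
      rcases h.sqr y hy with e | e <;> rcases h.sqr y' hy' with e' | e'
      · rw [e, e', one_mul, mul_one] at s
        exact uH ((H.mul_mem_cancel_left (H.mul_mem (E1 y hy yu yx e) (E1 y' hy' yu' yx' e'))).1
          (E2 _ hp p1 p2 s))
      · rw [e, e', one_mul, h.sq] at s
        have := (H.mul_mem_cancel_left (E1 y hy yu yx e)).1 (E1 _ hp p1 p2 s)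
        exact uH ((H.mul_mem_cancel_left this).1 (E2 y' hy' yu' yx' e'))
      · rw [e, e', mul_one, h.sq] at s
        have := (H.mul_mem_cancel_right (E1 y' hy' yu' yx' e')).1 (E1 _ hp p1 p2 s)
        exact uH ((H.mul_mem_cancel_left this).1 (E2 y hy yu yx e))
      · rw [e, e', h.sq, mul_one] at s
        have m := H.mul_mem (E2 y hy yu yx e) (E2 y' hy' yu' yx' e')
        have : y * u * (y' * u) = y * y' := by
          rw [yu', mul_assoc, ← mul_assoc u u, u2, one_mul]
        rw [this] at m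
        exact uH ((H.mul_mem_cancel_left m).1 (E2 _ hp p1 p2 s))
    have dec : ∀ q ∈ Q, ∃ m, (m = 1 ∨ m = u ∨ m = x0 ∨ m = x0 * u) ∧
        (q * m) * u = u * (q * m) ∧ (q * m) * x0 = x0 * (q * m) := by
      intro q hq
      by_cases a1 : q * u = u * q <;> by_cases a2 : q * x0 = x0 * q
      · exact ⟨1, Or.inl rfl, by simpa using a1, by simpa using a2⟩
      · refine ⟨u, Or.inr (Or.inl rfl), by rw [← mul_assoc, ← a1], ?_⟩
        exact (exl_two h hx0 hq hu (Ne.symm a2) n0).symm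
      · refine ⟨x0, Or.inr (Or.inr (Or.inl rfl)), ?_, by rw [← mul_assoc, ← a2]⟩
        exact (exl_two h hu hq hx0 (Ne.symm a1) n0.symm).symm
      · refine ⟨x0 * u, Or.inr (Or.inr (Or.inr rfl)), ?_, ?_⟩
        · have := exl_two h hu hq hx0 (Ne.symm a1) n0.symm
          rw [← mul_assoc q, ← mul_assoc u, this]
        · have n3 : x0 * (x0 * u) ≠ (x0 * u) * x0 := fun e => n0 (by
            rw [mul_assoc] at e; exact mul_left_cancel e)
          exact (exl_two h hx0 hq (Q.mul_mem hx0 hu) (Ne.symm a2) n3).symm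
    have mQ : ∀ m, (m = 1 ∨ m = u ∨ m = x0 ∨ m = x0 * u) → m ∈ Q := by
      rintro m (rfl | rfl | rfl | rfl)
      exacts [Q.one_mem, hu, hx0, Q.mul_mem hx0 hu]
    have cenE : ∀ y ∈ Q, y * u = u * y → y * x0 = x0 * y → y = 1 ∨ y = z := by
      intro y hy yu yx
      refine h.center y hy fun q hq => ?_
      obtain ⟨m, hm, m1, m2⟩ := dec q hq
      have c1 := ab y hy yu yx _ (Q.mul_mem hq (mQ m hm)) m1 m2
      have c2 : y * m = m * y := by
        rcases hm with rfl | rfl | rfl | rfl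
        · simp
        · exact yu
        · exact yx
        · rw [← mul_assoc, yx, mul_assoc, yu, mul_assoc]
      have : (y * q) * m = (q * y) * m := by
        rw [mul_assoc, c1, mul_assoc, mul_assoc, c2]
      exact mul_right_cancel this
    have := exl_card_le (X := Q) [1, z, u⁻¹, z * u⁻¹, x0⁻¹, z * x0⁻¹, (x0 * u)⁻¹, z * (x0 * u)⁻¹]
      (fun q hq => by
        obtain ⟨m, hm, m1, m2⟩ := dec q hq
        have e := cenE _ (Q.mul_mem hq (mQ m hm)) m1 m2
        have e' : q = m⁻¹ ∨ q = z * m⁻¹ := by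
          rcases e with e | e
          · exact Or.inl (eq_inv_of_mul_eq_one_left e)
          · exact Or.inr (by rw [← e]; group)
        rcases hm with rfl | rfl | rfl | rfl <;> rcases e' with e' | e' <;> rw [e'] <;> simp)
    simp at this
    omega
  have all : ∀ x ∈ Q, x * u ≠ u * x → x ∈ H := by
    intro x hx n
    rcases h.sqr x hx with e | e
    · exact gen x hx e n
    · exact (H.mul_mem_cancel_right uH).1 (gen' x hx e n)
  intro y hy
  by_cases yu : y * u = u * y
  · refine (H.mul_mem_cancel_right x0H).1 (all _ (Q.mul_mem hy hx0) fun e => n0 ?_)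
    have : y * (x0 * u) = y * (u * x0) := by
      rw [← mul_assoc, e, ← mul_assoc, ← mul_assoc, yu]
    exact mul_left_cancel this
  · exact all y hy yu

omit [Finite G] in
/-- a subgroup with `z` as its only involution has order at most 8 -/
theorem exl_small (h : H15.EX Q z) {X : Subgroup G} (le : X ≤ Q)
    (an : ∀ s ∈ X, s * s = 1 → s = 1 ∨ s = z) : Nat.card X ≤ 8 := by
  have sz : ∀ s ∈ X, ¬ (s = 1 ∨ s = z) → s * s = z := fun s hs n =>
    (h.sqr s (le hs)).resolve_left fun e => n (an s hs e)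
  have nc : ∀ a ∈ X, ∀ b ∈ X, ¬ (a = 1 ∨ a = z) → ¬ (b = 1 ∨ b = z) →
      ¬ (a * b = 1 ∨ a * b = z) → a * b ≠ b * a := by
    intro a ha b hb na nb nab e
    have := sz _ (X.mul_mem ha hb) nab
    rw [exl_sq' e, sz a ha na, sz b hb nb, h.sq] at this
    exact h.ne this.symm
  have sol : ∀ m q : G, (m * q = 1 ∨ m * q = z) → q = m⁻¹ ∨ q = m⁻¹ * z := by
    rintro m q (e | e)
    · exact Or.inl (eq_inv_of_mul_eq_one_right e)
    · exact Or.inr (by rw [← e]; group)
  by_cases h1 : ∀ a ∈ X, a = 1 ∨ a = z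
  · refine (exl_card_le [1, z] fun q hq => ?_).trans (by simp)
    rcases h1 q hq with e | e <;> rw [e] <;> simp
  push Not at h1
  obtain ⟨a, ha, a1, az⟩ := h1
  have na : ¬ (a = 1 ∨ a = z) := by tauto
  by_cases h2 : ∀ b ∈ X, (b = 1 ∨ b = z) ∨ (a * b = 1 ∨ a * b = z)
  · refine (exl_card_le [1, z, a⁻¹, a⁻¹ * z] fun q hq => ?_).trans (by simp)
    rcases h2 q hq with e | e
    · rcases e with e | e <;> rw [e] <;> simp
    · rcases sol _ _ e with e | e <;> rw [e] <;> simp
  simp only [not_forall] at h2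
  obtain ⟨b, hb, h2⟩ := h2
  have nb : ¬ (b = 1 ∨ b = z) := fun e => h2 (Or.inl e)
  have nab : ¬ (a * b = 1 ∨ a * b = z) := fun e => h2 (Or.inr e)
  refine (exl_card_le [1, z, a⁻¹, a⁻¹ * z, b⁻¹, b⁻¹ * z, (a * b)⁻¹, (a * b)⁻¹ * z]
    fun q hq => ?_).trans (by simp)
  by_cases n1 : q = 1 ∨ q = z
  · rcases n1 with e | e <;> rw [e] <;> simp
  by_cases n2 : a * q = 1 ∨ a * q = z
  · rcases sol _ _ n2 with e | e <;> rw [e] <;> simp
  by_cases n3 : b * q = 1 ∨ b * q = z
  · rcases sol _ _ n3 with e | e <;> rw [e] <;> simp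
  by_cases n4 : (a * b) * q = 1 ∨ (a * b) * q = z
  · rcases sol _ _ n4 with e | e <;> rw [e] <;> simp
  exfalso
  rw [mul_assoc] at n4
  exact nc a ha _ (X.mul_mem hb hq) na n3 n4
    (exl_two h (le ha) (le hb) (le hq) (nc a ha b hb na nb nab) (nc a ha q hq na n1 n2))

theorem EX_fp (h : H15.EX Q z) (c : Nat.card Q = 128) {R : Subgroup G} (hz : z ∈ R) (le : R ≤ Q)
    (an : ∀ s ∈ R, s * s = 1 → s = 1 ∨ s = z)
    (tr : ∀ a ∈ Q, ∀ b ∈ Q, a ∉ R → b ∉ R → ∃ n, Commute n z ∧ (∀ q ∈ Q, n * q * n⁻¹ ∈ Q) ∧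
      (∀ ρ ∈ R, n * ρ * n⁻¹ ∈ R) ∧ n * a * n⁻¹ * b⁻¹ ∈ R) : False := by
  have r8 := exl_small h le an
  have cc := h.card_cent le hz
  set C : Subgroup G := Q ⊓ centralizer (R : Set G) with hC
  have mC : ∀ a, a ∈ C ↔ a ∈ Q ∧ ∀ ρ ∈ R, ρ * a = a * ρ := fun a => by
    rw [hC, mem_inf, mem_centralizer_iff]; rfl
  have c32 : 32 ≤ Nat.card C := by
    rw [c] at cc
    by_contra hlt
    have : Nat.card C * Nat.card R ≤ 31 * 8 := Nat.mul_le_mul (by omega) r8
    omega
  have cjC : ∀ n, (∀ q ∈ Q, n * q * n⁻¹ ∈ Q) → (∀ ρ ∈ R, n * ρ * n⁻¹ ∈ R) →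
      ∀ a ∈ C, n * a * n⁻¹ ∈ C := by
    intro n nQ nR a ha
    obtain ⟨aQ, aR⟩ := (mC a).1 ha
    refine (mC _).2 ⟨nQ a aQ, fun ρ hρ => ?_⟩
    have nN : n ∈ normalizer (R : Set G) := mem_normalizer_fintype (fun x hx => nR x hx)
    have : n⁻¹ * ρ * n⁻¹⁻¹ ∈ R := (mem_normalizer_iff.1 (inv_mem nN) ρ).1 hρ
    have e := aR _ this
    calc ρ * (n * a * n⁻¹) = n * (n⁻¹ * ρ * n⁻¹⁻¹ * a) * n⁻¹ := by group
      _ = n * a * n⁻¹ * ρ := by rw [e]; group
  obtain ⟨a0, ha0, na0⟩ : ∃ a ∈ C, a ∉ R := by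
    by_contra hc
    push Not at hc
    have := Subgroup.card_le_of_le (show C ≤ R from hc)
    omega
  have dec : ∀ q ∈ Q, ∃ ρ ∈ R, ∃ a ∈ C, q = ρ * a := by
    intro q hq
    by_cases qR : q ∈ R
    · exact ⟨q, qR, 1, C.one_mem, by simp⟩
    obtain ⟨n, -, nQ, nR, e⟩ := tr a0 ((mC a0).1 ha0).1 q hq na0 qR
    exact ⟨_, R.inv_mem e, _, cjC n nQ nR a0 ha0, by group⟩
  have cen : ∀ s ∈ C, (∀ a ∈ C, s * a = a * s) → s = 1 ∨ s = z := by
    intro s hs hc
    refine h.center s ((mC s).1 hs).1 fun q hq => ?_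
    obtain ⟨ρ, hρ, a, ha, rfl⟩ := dec q hq
    rw [← mul_assoc, ← ((mC s).1 hs).2 ρ hρ, mul_assoc, hc a ha, mul_assoc]
  have RC : ∀ s ∈ R, s ∈ C → s = 1 ∨ s = z := fun s hs hc =>
    cen s hc fun a ha => ((mC a).1 ha).2 s hs
  by_cases an' : ∀ s ∈ C, s * s = 1 → s = 1 ∨ s = z
  · have := exl_small h (show C ≤ Q from inf_le_left) an'
    omega
  push Not at an'
  obtain ⟨a, ha, a2, a1, az⟩ := an'
  have aR : a ∉ R := fun e => (RC a e ha).elim a1 az
  have sq : ∀ b ∈ C, b * b = 1 := by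
    intro b hb
    by_cases bR : b ∈ R
    · rcases RC b bR hb with e | e <;> rw [e]
      · simp
      · exact h.sq
    obtain ⟨n, -, nQ, nR, e⟩ := tr a ((mC a).1 ha).1 b ((mC b).1 hb).1 aR bR
    have m := cjC n nQ nR a ha
    have s2 : (n * a * n⁻¹) * (n * a * n⁻¹) = 1 := by
      rw [show (n * a * n⁻¹) * (n * a * n⁻¹) = n * (a * a) * n⁻¹ by group, a2]; group
    rcases RC _ e (C.mul_mem m (C.inv_mem hb)) with e' | e'
    · rw [mul_inv_eq_one.1 e'] at s2; exact s2
    · rw [mul_inv_eq_iff_eq_mul.1 e', exl_sq' (h.cen b ((mC b).1 hb).1).symm, h.sq, one_mul] at s2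
      exact s2
  refine (cen a ha fun b hb => ?_).elim a1 az
  have e1 := sq _ (C.mul_mem ha hb)
  have ia : a⁻¹ = a := inv_eq_of_mul_eq_one_right a2
  have ib : b⁻¹ = b := inv_eq_of_mul_eq_one_right (sq b hb)
  rw [eq_inv_of_mul_eq_one_left e1, mul_inv_rev, ia, ib]

end Cfsg.Agent.LS
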