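import Cfsg.Agent.LS.Defs

/-! Project LS (notes/LS.md): the unique fixed point argument. -/

set_option autoImplicit false

namespace Cfsg.Agent.LS

open Subgroup H29
open scoped commutatorElement

/-- parity: two elements acting as involutions, one with a unique fixed point -/
theorem fp_par {D : Type*} [Group D] [Finite D] (K : Subgroup D) {s s' : D} (hs : s ∈ K)
    (h1 : ∀ d, d * (s * s) * d⁻¹ ∈ K) (h2 : ∀ d, d * (s' * s') * d⁻¹ ∈ K)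
    (hu : ∀ d, d * s * d⁻¹ ∈ K → d ∈ K) : ∃ d, d * s' * d⁻¹ ∈ K := by
  classical
  have := Fintype.ofFinite (D ⧸ K)
  have key : ∀ x d : D, MulAction.toPerm x ((d⁻¹ : D) : D ⧸ K) = ((d⁻¹ : D) : D ⧸ K) ↔
      d * x * d⁻¹ ∈ K := by
    intro x d
    rw [MulAction.toPerm_apply, MulAction.Quotient.smul_coe, eq_comm, QuotientGroup.eq, inv_inv,
      smul_eq_mul, mul_assoc]
  have sq : ∀ x : D, (∀ d, d * (x * x) * d⁻¹ ∈ K) →
      (MulAction.toPerm x : Equiv.Perm (D ⧸ K)) ^ 2 ^ 1 = 1 := by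
    intro x hx
    ext q
    obtain ⟨d, rfl⟩ := QuotientGroup.mk_surjective q
    have := (key (x * x) d⁻¹).2 (hx _)
    rw [inv_inv, MulAction.toPerm_apply, mul_smul] at this
    rw [pow_one, pow_two, Equiv.Perm.mul_apply]
    exact this
  have hodd : ¬ 2 ∣ Fintype.card (D ⧸ K) := fun h => by
    obtain ⟨b, hb, hne⟩ := Equiv.Perm.exists_fixed_point_of_prime' h (sq s h1)
      ((key s 1).2 (by simpa using hs))
    obtain ⟨d, rfl⟩ := QuotientGroup.mk_surjective b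
    have := hu d⁻¹ ((key s d⁻¹).1 (by rw [inv_inv]; exact hb))
    exact hne (QuotientGroup.eq.2 (by simpa using this))
  obtain ⟨b, hb⟩ := Equiv.Perm.exists_fixed_point_of_prime hodd (sq s' h2)
  obtain ⟨d, rfl⟩ := QuotientGroup.mk_surjective b
  exact ⟨d⁻¹, (key s' d⁻¹).1 (by rw [inv_inv]; exact hb)⟩

theorem fp_dih0 {Q : Type*} [Group Q] {a c : Q} (ha : a * a = 1) (hc : c * c = 1) (k : ℕ) :
    a * (a * c) ^ k * a = ((a * c) ^ k)⁻¹ := by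
  have ia : a⁻¹ = a := inv_eq_of_mul_eq_one_right ha
  have ic : c⁻¹ = c := inv_eq_of_mul_eq_one_right hc
  have h : a * (a * c) * a⁻¹ = (a * c)⁻¹ := by
    rw [mul_inv_rev, ia, ic, ← mul_assoc, ha, one_mul]
  calc a * (a * c) ^ k * a = a * (a * c) ^ k * a⁻¹ := by rw [ia]
    _ = _ := by rw [← conj_pow, h, inv_pow]

theorem fp_dih1 {Q : Type*} [Group Q] {a c : Q} (ha : a * a = 1) (hc : c * c = 1) (j : ℕ) :
    ((a * c) ^ j)⁻¹ * ((a * c) ^ (2 * j) * a) * ((a * c) ^ j)⁻¹⁻¹ = a := by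
  have h := fp_dih0 ha hc j
  rw [two_mul, pow_add, inv_inv]
  generalize (a * c) ^ j = p at h
  calc p⁻¹ * (p * p * a) * p = p * (a * p * a) * a⁻¹ := by group
    _ = a := by rw [h, mul_inv_cancel, one_mul, inv_eq_of_mul_eq_one_right ha]

theorem fp_dih2 {Q : Type*} [Group Q] {a c : Q} (ha : a * a = 1) (hc : c * c = 1) (j : ℕ) :
    (a * ((a * c) ^ j)⁻¹) * ((a * c) ^ (2 * j + 1) * a) * (a * ((a * c) ^ j)⁻¹)⁻¹ = c := by
  have h := fp_dih0 ha hc j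
  have hp : (a * c) ^ j * (a * c) = (a * c) * (a * c) ^ j := (Commute.pow_self _ j).eq
  rw [pow_succ, two_mul, pow_add]
  generalize (a * c) ^ j = p at h hp
  have ia : a⁻¹ = a := inv_eq_of_mul_eq_one_right ha
  calc a * p⁻¹ * (p * p * (a * c) * a) * (a * p⁻¹)⁻¹
      = a * (p * (a * c)) * (a * p * a⁻¹) := by group
    _ = c := by rw [hp, ia, h]; simp only [← mul_assoc, ha, one_mul, mul_inv_cancel_right]

/-- the dihedral alternative -/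
theorem fp_dih {Q : Type*} [Group Q] [Finite Q] {a c : Q} (ha : a * a = 1) (hc : c * c = 1) :
    (∃ m, m * a * m⁻¹ = c) ∨ ∃ v, v ≠ 1 ∧ v * a * v⁻¹ = a ∧ v * c * v⁻¹ = c ∧
      ∃ m, m * (v * a) * m⁻¹ = a ∨ m * (v * a) * m⁻¹ = c := by
  rcases Nat.even_or_odd' (orderOf (a * c)) with ⟨k, hk | hk⟩
  · right
    have hpos := orderOf_pos (a * c)
    have h1 : (a * c) ^ k * (a * c) ^ k = 1 := by rw [← pow_add, ← two_mul, ← hk, pow_orderOf_eq_one]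
    have h0 := fp_dih0 ha hc k
    have hp : (a * c) ^ k * (a * c) = (a * c) * (a * c) ^ k := (Commute.pow_self _ k).eq
    have ia : a⁻¹ = a := inv_eq_of_mul_eq_one_right ha
    have hva : (a * c) ^ k * a * ((a * c) ^ k)⁻¹ = a := by
      rw [← h0]
      simp only [← mul_assoc]
      rw [inv_eq_of_mul_eq_one_right h1] at h0
      generalize (a * c) ^ k = p at h0 h1
      calc p * a * a * p * a = p * (a * a) * p * a := by group
        _ = a := by rw [ha, mul_one, h1, one_mul]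
    refine ⟨(a * c) ^ k, pow_ne_one_of_lt_orderOf (by omega) (by omega), hva, ?_, ?_⟩
    · generalize (a * c) ^ k = p at hva hp
      calc p * c * p⁻¹ = (p * a * p⁻¹)⁻¹ * (p * (a * c)) * p⁻¹ := by group
        _ = c := by rw [hva, hp]; group
    · rcases Nat.even_or_odd' k with ⟨j, rfl | rfl⟩
      · exact ⟨_, Or.inl (fp_dih1 ha hc j)⟩
      · exact ⟨_, Or.inr (fp_dih2 ha hc j)⟩
  · left
    have := fp_dih2 ha hc k
    rw [← hk, pow_orderOf_eq_one, one_mul] at this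
    exact ⟨_, this⟩

/-- the unique fixed point argument -/
theorem FP {G : Type*} [Group G] [Finite G] {Y H A Z : Subgroup G} (hZA : Z ≤ A) (hAH : A ≤ H)
    (hHY : H ≤ Y) (hZ : ∀ y ∈ Y, ∀ c ∈ Z, Commute y c) (hn : ∀ n ∈ H, ∀ a ∈ A, n * a * n⁻¹ ∈ A)
    (hsq : ∀ a ∈ A, a * a ∈ Z) (S : Set G) (hS : ∀ s ∈ S, s ∈ A)
    (fix : ∀ s ∈ S, ∀ y ∈ Y, y * s * y⁻¹ ∈ H → y ∈ H)
    (two : ∀ a ∈ A, ∀ y ∈ Y, y * a * y⁻¹ ∈ H →
      (∃ s ∈ S, ⁅s, y * a * y⁻¹⁆ ∈ Z) ∨ ∀ y' ∈ Y, y' * a * y'⁻¹ ∈ H → y' ∈ H)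
    (hne : ¬ Y ≤ H) :
    ∃ R : Subgroup G, Z ≤ R ∧ R ≤ A ∧ (∀ s ∈ S, s ∉ R) ∧ ∀ a ∈ A, ∀ b ∈ A, a ∉ R → b ∉ R →
      ∃ n ∈ H, (∀ ρ ∈ R, n * ρ * n⁻¹ ∈ R) ∧ n * a * n⁻¹ * b⁻¹ ∈ R := by
  have zc : ∀ y ∈ Y, ∀ c ∈ Z, y * c * y⁻¹ = c := fun y hy c hc => by
    rw [(hZ y hy c hc).eq, mul_inv_cancel_right]
  have hAY : A ≤ Y := hAH.trans hHY
  -- `A / Z` is abelian
  have ab : ∀ a ∈ A, ∀ b ∈ A, a * b * a⁻¹ * b⁻¹ ∈ Z := fun a ha b hb => by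
    have e : a * b * a⁻¹ * b⁻¹ = (a * b) * (a * b) * (b⁻¹ * (a * a)⁻¹ * b⁻¹⁻¹) * (b * b)⁻¹ := by group
    rw [e, zc _ (Y.inv_mem (hAY hb)) _ (Z.inv_mem (hsq a ha))]
    exact Z.mul_mem (Z.mul_mem (hsq _ (A.mul_mem ha hb)) (Z.inv_mem (hsq a ha))) (Z.inv_mem (hsq b hb))
  -- (1)
  have one : ∀ a ∈ A, ∀ y ∈ Y, y * a * y⁻¹ ∈ H → y * a * y⁻¹ ∈ A := by
    intro a ha y hy h
    by_cases hyH : y ∈ H
    · exact hn y hyH a ha
    obtain ⟨s, hs, hc⟩ := (two a ha y hy h).resolve_right fun h' => hyH (h' y hy h)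
    let D : Subgroup G :=
      { carrier := {d | d ∈ Y ∧ d * a * d⁻¹ * a⁻¹ ∈ Z}
        one_mem' := ⟨Y.one_mem, by simp⟩
        mul_mem' := by
          rintro d d' ⟨h1, h2⟩ ⟨h3, h4⟩
          refine ⟨Y.mul_mem h1 h3, ?_⟩
          have e : d * d' * a * (d * d')⁻¹ * a⁻¹ =
              (d * (d' * a * d'⁻¹ * a⁻¹) * d⁻¹) * (d * a * d⁻¹ * a⁻¹) := by group
          rw [e, zc d h1 _ h4]
          exact Z.mul_mem h4 h2
        inv_mem' := by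
          rintro d ⟨h1, h2⟩
          refine ⟨Y.inv_mem h1, ?_⟩
          have e : d⁻¹ * a * d⁻¹⁻¹ * a⁻¹ = d⁻¹ * (d * a * d⁻¹ * a⁻¹)⁻¹ * d⁻¹⁻¹ := by group
          rw [e, zc _ (Y.inv_mem h1) _ (Z.inv_mem h2)]
          exact Z.inv_mem h2 }
    have sD : s ∈ D := ⟨hAY (hS s hs), ab s (hS s hs) a ha⟩
    have sD' : y⁻¹ * s * y ∈ D := by
      refine ⟨Y.mul_mem (Y.mul_mem (Y.inv_mem hy) (hAY (hS s hs))) hy, ?_⟩
      have e : y⁻¹ * s * y * a * (y⁻¹ * s * y)⁻¹ * a⁻¹ = y⁻¹ * ⁅s, y * a * y⁻¹⁆ * y⁻¹⁻¹ := by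
        rw [commutatorElement_def]; group
      rw [e, zc _ (Y.inv_mem hy) _ hc]
      exact hc
    obtain ⟨d, hd⟩ := fp_par (H.subgroupOf D) (s := ⟨s, sD⟩) (s' := ⟨_, sD'⟩) (hAH (hS s hs))
      (fun d => by
        change (d : G) * (s * s) * (d : G)⁻¹ ∈ H
        rw [zc _ d.2.1 _ (hsq s (hS s hs))]
        exact hAH (hZA (hsq s (hS s hs))))
      (fun d => by
        change (d : G) * (y⁻¹ * s * y * (y⁻¹ * s * y)) * (d : G)⁻¹ ∈ H
        have e : y⁻¹ * s * y * (y⁻¹ * s * y) = y⁻¹ * (s * s) * y⁻¹⁻¹ := by group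
        rw [e, zc _ (Y.inv_mem hy) _ (hsq s (hS s hs)), zc _ d.2.1 _ (hsq s (hS s hs))]
        exact hAH (hZA (hsq s (hS s hs))))
      (fun d hd => fix s hs d d.2.1 hd)
    have hd' : (d : G) * (y⁻¹ * s * y) * (d : G)⁻¹ ∈ H := hd
    have h3 : (d : G) * y⁻¹ ∈ H := fix s hs _ (Y.mul_mem d.2.1 (Y.inv_mem hy)) (by
      convert hd' using 1; group)
    have := hn _ (H.inv_mem h3) _ (A.mul_mem (hZA d.2.2) ha)
    convert this using 1; group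
  obtain ⟨s, hs⟩ : ∃ s, s ∈ S := by
    rcases two 1 A.one_mem 1 Y.one_mem (by simp) with ⟨s, hs, -⟩ | h
    · exact ⟨s, hs⟩
    · exact (hne fun y hy => h y hy (by simp)).elim
  -- (2)
  obtain ⟨R, ⟨hZR, hRA, y0, hy0, hy0H, hg0⟩, hmax⟩ := Set.exists_max_image
    {R : Subgroup G | Z ≤ R ∧ R ≤ A ∧ ∃ y ∈ Y, y ∉ H ∧ ∀ ρ ∈ R, y * ρ * y⁻¹ ∈ H}
    (fun R => Nat.card R) (Set.toFinite _) (by
      obtain ⟨y, hy, hyH⟩ := SetLike.not_le_iff_exists.1 hne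
      exact ⟨Z, le_rfl, hZA, y, hy, hyH, fun ρ hρ => by rw [zc y hy ρ hρ]; exact hAH (hZA hρ)⟩)
  have uq : ∀ y ∈ Y, ∀ y' ∈ Y, (∀ ρ ∈ R, y * ρ * y⁻¹ ∈ H) → (∀ ρ ∈ R, y' * ρ * y'⁻¹ ∈ H) →
      ∀ x, y * x * y⁻¹ ∈ A → x ∉ R → y' * x * y'⁻¹ ∈ H → y' * y⁻¹ ∈ H := by
    intro y hy y' hy' g g' x hx hxR hx'
    by_contra hc
    have l1 : R ⊔ zpowers x ≤ A.comap (MulAut.conj y).toMonoidHom :=
      sup_le (fun ρ hρ => one ρ (hRA hρ) y hy (g ρ hρ)) (zpowers_le_of_mem hx)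
    have l2 : R ⊔ zpowers x ≤ H.comap (MulAut.conj y').toMonoidHom :=
      sup_le (fun ρ hρ => g' ρ hρ) (zpowers_le_of_mem hx')
    have h1 := hmax ((R ⊔ zpowers x).map (MulAut.conj y).toMonoidHom) ⟨fun c hc =>
      ⟨c, mem_sup_left (hZR hc), zc y hy c hc⟩, map_le_iff_le_comap.2 l1, y' * y⁻¹,
        Y.mul_mem hy' (Y.inv_mem hy), hc, by
          rintro _ ⟨ρ, hρ, rfl⟩
          have : y' * ρ * y'⁻¹ ∈ H := l2 hρ
          convert this using 1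
          change y' * y⁻¹ * (y * ρ * y⁻¹) * (y' * y⁻¹)⁻¹ = _
          group⟩
    rw [card_map_of_injective (f := (MulAut.conj y).toMonoidHom) (MulAut.conj y).injective] at h1
    have h2 := eq_of_le_of_card_ge (le_sup_left : R ≤ R ⊔ zpowers x) h1
    exact hxR (h2 ▸ mem_sup_right (mem_zpowers x))
  have hSR : ∀ s ∈ S, s ∉ R := fun s hs h => hy0H (fix s hs y0 hy0 (hg0 s h))
  refine ⟨R, hZR, hRA, hSR, ?_⟩
  -- (3)
  set N : Subgroup G := normalizer (R : Set G) ⊓ Y with hN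
  have : (R.subgroupOf N).Normal := normal_subgroupOf_of_le_normalizer inf_le_left
  have nR : ∀ n ∈ N, ∀ ρ ∈ R, n * ρ * n⁻¹ ∈ R := fun n h ρ hρ => (mem_normalizer_iff.1 h.1 ρ).1 hρ
  have g1 : ∀ ρ ∈ R, (1 : G) * ρ * 1⁻¹ ∈ H := fun ρ hρ => by simpa using hAH (hRA hρ)
  have gN : ∀ y, (∀ ρ ∈ R, y * ρ * y⁻¹ ∈ H) → ∀ n ∈ N, ∀ ρ ∈ R, y * n * ρ * (y * n)⁻¹ ∈ H :=
    fun y g n h ρ hρ => by convert g _ (nR n h ρ hρ) using 1; group
  have mN : ∀ y ∈ Y, (∀ ρ ∈ R, y * ρ * y⁻¹ ∈ H) → ∀ x, y * x * y⁻¹ ∈ A → x ∈ N := by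
    intro y hy g x hx
    refine ⟨mem_normalizer_fintype fun ρ hρ => ?_, ?_⟩
    · have h1 := ab _ hx _ (one ρ (hRA hρ) y hy (g ρ hρ))
      have h2 := zc _ (Y.inv_mem hy) _ h1
      have := R.mul_mem (hZR (h2.symm ▸ h1)) hρ
      change x * ρ * x⁻¹ ∈ R
      convert this using 1; group
    · have := Y.mul_mem (Y.mul_mem (Y.inv_mem hy) (hAY hx)) hy
      change x ∈ Y
      convert this using 1; group
  set c := y0⁻¹ * s * y0 with hcd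
  have cA : y0 * c * y0⁻¹ ∈ A := by convert hS s hs using 1; rw [hcd]; group
  have cN : c ∈ N := mN y0 hy0 hg0 c cA
  have cR : c ∉ R := fun h => hy0H (by
    simpa using H.inv_mem (fix s hs _ (Y.inv_mem hy0) (by rw [inv_inv]; exact hAH (hRA h))))
  have aN : ∀ a ∈ A, a ∈ N := fun a ha => mN 1 Y.one_mem g1 a (by simpa using ha)
  let π := QuotientGroup.mk' (R.subgroupOf N)
  have p0 : ∀ x : N, π x = 1 → (x : G) ∈ R := fun x h =>
    (QuotientGroup.eq_one_iff (N := R.subgroupOf N) x).1 h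
  have pe : ∀ x x' : N, π x = π x' → (x : G) * (x' : G)⁻¹ ∈ R := fun x x' h =>
    p0 (x * x'⁻¹) (by rw [map_mul, map_inv, h, mul_inv_cancel])
  have p1 : ∀ x : N, (x : G) ∈ R → π x = 1 := fun x h => (QuotientGroup.eq_one_iff _).2 h
  have c2 : π ⟨c, cN⟩ * π ⟨c, cN⟩ = 1 := by
    rw [← map_mul]
    refine p1 _ ?_
    change c * c ∈ R
    have e : c * c = y0⁻¹ * (s * s) * y0⁻¹⁻¹ := by rw [hcd]; group
    rw [e, zc _ (Y.inv_mem hy0) _ (hsq s (hS s hs))]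
    exact hZR (hsq s (hS s hs))
  have main : ∀ a (ha : a ∈ A), a ∉ R → ∃ m, m * π ⟨a, aN a ha⟩ * m⁻¹ = π ⟨c, cN⟩ := by
    intro a ha haR
    have a2 : π ⟨a, aN a ha⟩ * π ⟨a, aN a ha⟩ = 1 := by
      rw [← map_mul]
      exact p1 _ (hZR (hsq a ha))
    refine (fp_dih a2 c2).resolve_right ?_
    rintro ⟨v, v1, va, vc, m, hm⟩
    obtain ⟨v, rfl⟩ := QuotientGroup.mk'_surjective (R.subgroupOf N) v
    obtain ⟨m, rfl⟩ := QuotientGroup.mk'_surjective (R.subgroupOf N) m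
    have vR : (v : G) ∉ R := fun h => v1 (p1 v h)
    have e1 : (v : G) * a * (v : G)⁻¹ * a⁻¹ ∈ R :=
      pe (v * ⟨a, aN a ha⟩ * v⁻¹) ⟨a, aN a ha⟩ (by rw [map_mul, map_mul, map_inv]; exact va)
    have e2 : (v : G) * c * (v : G)⁻¹ * c⁻¹ ∈ R :=
      pe (v * ⟨c, cN⟩ * v⁻¹) ⟨c, cN⟩ (by rw [map_mul, map_mul, map_inv]; exact vc)
    have vH : (v : G) ∈ H := by
      have := uq 1 Y.one_mem v v.2.2 g1 (by simpa using gN 1 g1 v v.2) a (by simpa using ha) haR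
        (by simpa using H.mul_mem (hAH (hRA e1)) (hAH ha))
      simpa using this
    have vH' : y0 * v * y0⁻¹ ∈ H :=
      uq y0 hy0 (y0 * v) (Y.mul_mem hy0 v.2.2) hg0 (gN y0 hg0 v v.2) c cA cR
        (by convert H.mul_mem (hg0 _ e2) (hAH cA) using 1; group)
    have vaR : (v : G) * a ∉ R := fun h => by
      have h1 : π v * π ⟨a, aN a ha⟩ = 1 := by rw [← map_mul]; exact p1 _ h
      change π m * (π v * π ⟨a, aN a ha⟩) * (π m)⁻¹ = _ ∨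
        π m * (π v * π ⟨a, aN a ha⟩) * (π m)⁻¹ = _ at hm
      rw [h1, mul_one, mul_inv_cancel] at hm
      rcases hm with hm | hm
      · exact haR (p0 _ hm.symm)
      · exact cR (p0 _ hm.symm)
    have fin : ∀ y ∈ Y, (∀ ρ ∈ R, y * ρ * y⁻¹ ∈ H) → y * (v * a) * y⁻¹ ∈ A → False := by
      intro y hy g h
      have h1 := uq y hy 1 Y.one_mem g g1 _ h vaR (by simpa using H.mul_mem vH (hAH ha))
      have h2 : (v : G) ∈ A := by
        convert A.mul_mem (hn _ h1 _ h) (A.inv_mem ha) using 1; group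
      have h3 := uq 1 Y.one_mem y0 hy0 g1 hg0 v (by simpa using h2) vR vH'
      exact hy0H (by simpa using h3)
    rcases hm with hm | hm
    · have e3 : (m : G) * (v * a) * (m : G)⁻¹ * a⁻¹ ∈ R :=
        pe (m * (v * ⟨a, aN a ha⟩) * m⁻¹) ⟨a, aN a ha⟩
          (by rw [map_mul, map_mul, map_mul, map_inv]; exact hm)
      exact fin m m.2.2 (by simpa using gN 1 g1 m m.2) (by simpa using A.mul_mem (hRA e3) ha)
    · have e3 : (m : G) * (v * a) * (m : G)⁻¹ * c⁻¹ ∈ R :=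
        pe (m * (v * ⟨a, aN a ha⟩) * m⁻¹) ⟨c, cN⟩
          (by rw [map_mul, map_mul, map_mul, map_inv]; exact hm)
      refine fin (y0 * m) (Y.mul_mem hy0 m.2.2) (gN y0 hg0 m m.2) ?_
      convert A.mul_mem (one _ (hRA e3) y0 hy0 (hg0 _ e3)) cA using 1; group
  intro a ha b hb haR hbR
  obtain ⟨m, hm⟩ := main a ha haR
  obtain ⟨m', hm'⟩ := main b hb hbR
  obtain ⟨n, hn'⟩ := QuotientGroup.mk'_surjective (R.subgroupOf N) (m'⁻¹ * m)
  have e : (n : G) * a * (n : G)⁻¹ * b⁻¹ ∈ R :=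
    pe (n * ⟨a, aN a ha⟩ * n⁻¹) ⟨b, aN b hb⟩ (by
      rw [map_mul, map_mul, map_inv, show π n = m'⁻¹ * m from hn']
      calc _ = m'⁻¹ * (m * π ⟨a, aN a ha⟩ * m⁻¹) * m' := by group
        _ = _ := by rw [hm, ← hm']; group)
  refine ⟨n, ?_, nR n n.2, e⟩
  have := uq 1 Y.one_mem n n.2.2 g1 (by simpa using gN 1 g1 n n.2) a (by simpa using ha) haR
    (by simpa using H.mul_mem (hAH (hRA e)) (hAH hb))
  simpa using this

end Cfsg.Agent.LS
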