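import Cfsg.Agent.LS.Model
import Cfsg.Agent.S0813
import Cfsg.Agent.S0265

/-! Automorphisms of `L₃(4)`. -/

set_option autoImplicit false

namespace Cfsg.Agent.LS

open Subgroup H29 M49
open scoped commutatorElement

namespace A49

theorem ringAut_cases (σ : RingAut F) : σ = 1 ∨ σ = frob := by
  have h : σ ω * σ ω = σ ω + 1 := by rw [← map_mul, ← map_one σ, ← map_add]; rfl
  have k : ∀ x : F, x = 0 ∨ x = 1 ∨ x = ω ∨ x = ω + 1 := by decide
  refine ((by decide : ∀ x : F, x * x = x + 1 → x = ω ∨ x = ω + 1) _ h).imp (fun e => ?_) fun e => ?_ <;>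
    refine RingEquiv.ext fun x => ?_ <;> rcases k x with rfl | rfl | rfl | rfl <;>
    simp only [map_zero, map_one, map_add, e] <;> rfl

theorem frob_sq : frob * frob = 1 := RingEquiv.ext (by decide)

theorem fr_fr : fr * fr = 1 := by rw [fr, ← map_mul, frob_sq, map_one]

theorem fr_w0 : fr w0 = w0 :=
  mk_eq 1 (by decide +kernel : W0 = (1 : F) • W0.map fun x => x * x)

theorem fr_gr : fr * gr = gr * fr := by
  rw [gr, ← mul_assoc, mul_conj, fr_w0, mul_assoc, mul_assoc, fr, invT_mul_field]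

/-- the outer part -/
noncomputable def ph (j k : Bool) : MulAut P := cond j fr 1 * cond k gr 1

theorem ph_mul (j k j' k' : Bool) : ph j k * ph j' k' = ph (xor j j') (xor k k') := by
  have h1 : ∀ x, fr * (fr * x) = x := fun x => by rw [← mul_assoc, fr_fr, one_mul]
  have h2 : ∀ x, gr * (fr * x) = fr * (gr * x) := fun x => by rw [← mul_assoc, ← fr_gr, mul_assoc]
  cases j <;> cases k <;> cases j' <;> cases k' <;> simp [ph, mul_assoc, h1, h2, fr_fr, gr_gr, ← fr_gr]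

theorem ph_u (j k : Bool) (a b c : F) :
    ph j k (u a b c) = u (SA.ac j k a b c).1 (SA.ac j k a b c).2.1 (SA.ac j k a b c).2.2 := by
  cases j <;> cases k <;> simp [ph, SA.ac, SA.fz, fr_u, gr_u]

theorem aut_eq (x : SA) : x.aut = MulAut.conj (u x.a x.b x.c) * ph x.j x.k := mul_assoc _ _ _

theorem uu_mul (x y : SA) :
    u (x * y).a (x * y).b (x * y).c = u x.a x.b x.c * ph x.j x.k (u y.a y.b y.c) := by
  rw [ph_u, u_mul]; rfl

end A49

open A49

theorem aut_mul (x y : SA) : (x * y).aut = x.aut * y.aut := by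
  rw [aut_eq, aut_eq, aut_eq, uu_mul, map_mul, mul_assoc, mul_assoc, ← mul_assoc (ph _ _), mul_conj, mul_assoc, ph_mul]
  rfl

theorem aut_u (x : SA) (a b c : F) : x.aut (u a b c) = u (x * ⟨a, b, c, false, false⟩ * x⁻¹).a
    (x * ⟨a, b, c, false, false⟩ * x⁻¹).b (x * ⟨a, b, c, false, false⟩ * x⁻¹).c := by
  have h := uu_mul (x * ⟨a, b, c, false, false⟩ * x⁻¹) x
  rw [inv_mul_cancel_right, uu_mul, show (x * ⟨a, b, c, false, false⟩ * x⁻¹).j = false from by
      change xor (xor x.j false) x.j = false; simp,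
    show (x * ⟨a, b, c, false, false⟩ * x⁻¹).k = false from by change xor (xor x.k false) x.k = false; simp] at h
  rw [aut_eq, MulAut.mul_apply, MulAut.conj_apply, mul_inv_eq_iff_eq_mul]
  simpa [ph] using h

theorem aut_inj {x : SA} (h : x.aut = 1) : x = 1 := by
  have k := fun a b => u_inj ((show u a b 0 = x.aut (u a b 0) by rw [h]; rfl).trans (aut_u x a b 0))
  obtain ⟨h1, h2, h3, h4⟩ := (by decide +kernel : ∀ x : SA, (∀ a b : F, a = (x * ⟨a, b, 0, false, false⟩ * x⁻¹).a ∧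
    b = (x * ⟨a, b, 0, false, false⟩ * x⁻¹).b ∧ 0 = (x * ⟨a, b, 0, false, false⟩ * x⁻¹).c) → x.inZ) x k
  have e : x.aut w1 = w1 := by rw [h]; rfl
  rw [aut_eq, h1, h2, h3, h4, show ph false false = 1 from mul_one _, mul_one, MulAut.conj_apply,
    mul_inv_eq_iff_eq_mul, eq_comm, ← mul_inv_eq_iff_eq_mul, w1_u] at e
  exact SA.ext h1 h2 (u_inj e).1 h3 h4

namespace A49

theorem aut_cases (β : MulAut P) : ∃ g j k, β = pslConj (Fin 3) F g * ph j k := by
  have k : ∀ σ, ∃ j, pslField (Fin 3) F σ = cond j fr 1 := fun σ => by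
    rcases ringAut_cases σ with rfl | rfl
    exacts [⟨false, map_one _⟩, ⟨true, rfl⟩]
  obtain ⟨g, σ, h | ⟨-, h⟩⟩ := aut_psl_cases (by norm_num : 2 ≤ 3) β <;> obtain ⟨j, e⟩ := k σ
  · exact ⟨g, j, false, by rw [h, e, ph]; simp⟩
  · obtain ⟨s, hs⟩ := QuotientGroup.mk_surjective (pslField (Fin 3) F σ w0)
    refine ⟨g * Matrix.SpecialLinearGroup.toGL s, j, true, ?_⟩
    rw [h, map_mul, ← conj_mk_eq_pslConj, hs, ph, ← e, mul_assoc, mul_assoc, ← mul_assoc (MulAut.conj _), ← mul_conj,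
      cond_true, gr, mul_assoc, ← mul_assoc (MulAut.conj _), ← map_mul, w0_sq, map_one, one_mul]

theorem pc_smul {g g' : GL (Fin 3) F} (r : F) (h : (g : M3) = r • (g' : M3)) :
    pslConj (Fin 3) F g = pslConj (Fin 3) F g' := MulEquiv.ext fun x => by
  obtain ⟨s, rfl⟩ := QuotientGroup.mk_surjective x
  refine pc_eq (t := slConjElt g' s) 1 ?_
  rw [slConjElt_coe, h, Matrix.mul_smul, Matrix.mul_assoc, Units.inv_mul, Matrix.mul_one, one_smul, Matrix.smul_mul]

theorem tri {g : GL (Fin 3) F} (h : ∀ a b c, ∃ a' b' c', pslConj (Fin 3) F g (u a b c) = u a' b' c') :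
    (g : M3) 1 0 = 0 ∧ (g : M3) 2 0 = 0 ∧ (g : M3) 2 1 = 0 := by
  have k : ∀ a b : F, ∃ r a' b' c' : F, !![1, a', c'; 0, 1, b'; 0, 0, 1] * (g : M3) =
      r • ((g : M3) * !![1, a, 0; 0, 1, b; 0, 0, 1]) ∧ ((g⁻¹ : GL (Fin 3) F) : M3) * !![1, a', c'; 0, 1, b'; 0, 0, 1] =
      r • (!![1, a, 0; 0, 1, b; 0, 0, 1] * ((g⁻¹ : GL (Fin 3) F) : M3)) := fun a b => by
    obtain ⟨a', b', c', e⟩ := h a b 0
    obtain ⟨r, e⟩ := psl_mk_eq_iff.1 (show (QuotientGroup.mk (slConjElt g (uS a b 0)) : P) =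
      QuotientGroup.mk (uS a' b' c') from e)
    change !![1, a', c'; 0, 1, b'; 0, 0, 1] = r • ((g : M3) * !![1, a, 0; 0, 1, b; 0, 0, 1] * _) at e
    refine ⟨r, a', b', c', ?_, ?_⟩
    · rw [e, Matrix.smul_mul, Matrix.mul_assoc, Units.inv_mul, Matrix.mul_one]
    · rw [e, Matrix.mul_smul, Matrix.mul_assoc, ← Matrix.mul_assoc, Units.inv_mul, Matrix.one_mul]
  have z : ∀ r x y : F, x = r * x → y = r * (x + y) → x = 0 := by decide
  have i := g.mul_inv
  generalize (g : M3) = A, ((g⁻¹ : GL (Fin 3) F) : M3) = B at k i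
  obtain ⟨r, a, b, c, p1, p2⟩ := k 1 0
  obtain ⟨r', a', b', c', q1, q2⟩ := k 0 1
  have a1 := congrFun (congrFun p1 2) 0
  have a2 := congrFun (congrFun p1 2) 1
  have a3 := congrFun (congrFun q1 2) 1
  have a4 := congrFun (congrFun q1 2) 2
  have a5 := congrFun (congrFun p2 1) 0
  have a6 := congrFun (congrFun p2 0) 0
  have a7 := congrFun (congrFun q2 2) 0
  have a8 := congrFun (congrFun q2 1) 0
  have a9 := congrFun (congrFun i 0) 0
  have a0 := congrFun (congrFun i 1) 0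
  simp [Matrix.mul_apply, Fin.sum_univ_three, Matrix.vecMul, dotProduct, -mul_eq_zero] at a1 a2 a3 a4 a5 a6 a7 a8 a9 a0
  have b1 := z _ _ _ a5 (a6.trans (by rw [add_comm]))
  have b2 := z _ _ _ a7 (a8.trans (by rw [add_comm]))
  rw [b1, b2] at a9 a0
  exact ⟨by linear_combination A 0 0 * a0 - A 1 0 * a9, z _ _ _ a1 a2, z _ _ _ a3 a4⟩

theorem inner_of {γ : MulAut P} (h : γ ∈ (pslConj (Fin 3) F).range) {n : ℕ} (e : γ ^ 2 ^ n = 1) :
    ∃ p, γ = MulAut.conj p := by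
  obtain ⟨g, rfl⟩ := h
  have h1 : pslConj (Fin 3) F g ^ 3 ∈ (MulAut.conj : P →* MulAut P).range := by
    refine ⟨QuotientGroup.mk (s := center S3) ⟨(g ^ 3 : GL (Fin 3) F), ?_⟩, (conj_mk_eq_pslConj _).trans ?_⟩
    · rw [Units.val_pow_eq_pow_val, Matrix.det_pow]
      exact (by decide : ∀ x : F, x ≠ 0 → x ^ 3 = 1) _ (Matrix.GeneralLinearGroup.det_ne_zero g)
    · rw [← map_pow]
      exact congrArg _ (Units.ext rfl)
  obtain ⟨p, hp⟩ := zpowers_le.2 h1 (mem_zpowers_pow_iff.2 (Nat.Coprime.coprime_dvd_right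
    (orderOf_dvd_of_pow_eq_one e) (Nat.Coprime.pow_right n (by norm_num))))
  exact ⟨p, hp.symm⟩

theorem sq_mem (β : MulAut P) : β * β ∈ (pslConj (Fin 3) F).range := by
  have := pslConj_range_normal (F := F) (by norm_num : 2 ≤ 3)
  obtain ⟨g, j, k, rfl⟩ := aut_cases β
  have e : ph j k * ph j k = 1 := by rw [ph_mul]; simp [ph]
  have := mul_mem (⟨g, rfl⟩ : _ ∈ (pslConj (Fin 3) F).range) (this.conj_mem _ ⟨g, rfl⟩ (ph j k))
  rwa [inv_eq_of_mul_eq_one_right e, ← mul_assoc, ← mul_assoc, mul_assoc _ (pslConj (Fin 3) F g)] at this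

theorem card_aut : Nat.card (MulAut P) = 2 ^ 8 * 945 := by
  have : Fact (Nat.Prime 2) := ⟨Nat.prime_two⟩
  have h1 : 3 * Nat.card S3 = 181440 := (H9.card_sl_fin (F := F) 3 (by norm_num)).trans (by decide +kernel)
  have h2 := S0813.result (F := F) 2 2 (by norm_num) rfl 3 (by norm_num) (by norm_num)
  rw [S0265.result, show Nat.card S3 = 60480 by omega] at h2
  exact h2

end A49

theorem aut_T (β : MulAut P) (h : ∀ a b c, ∃ a' b' c', β (u a b c) = u a' b' c') :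
    ∃ (l m : Fˣ) (x : SA), β = dg l m * x.aut := by
  obtain ⟨g, j, k, rfl⟩ := aut_cases β
  obtain ⟨h1, h2, h3⟩ := tri (g := g) fun a b c => by
    have := h (SA.ac j k a b c).1 (SA.ac j k a b c).2.1 (SA.ac j k a b c).2.2
    rwa [← ph_u, ← MulAut.mul_apply, mul_assoc, ph_mul, Bool.xor_self, Bool.xor_self,
      show ph false false = 1 from mul_one _, mul_one] at this
  have d := Matrix.GeneralLinearGroup.det_ne_zero g
  rw [Matrix.det_fin_three, h1, h2, h3] at d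
  simp only [mul_zero, zero_mul, sub_zero, add_zero, ne_eq, mul_eq_zero, not_or] at d
  obtain ⟨⟨d0, d1⟩, d2⟩ := d
  refine ⟨Units.mk0 ((g : M3) 0 0 / (g : M3) 1 1) (div_ne_zero d0 d1), Units.mk0 ((g : M3) 1 1 / (g : M3) 2 2)
    (div_ne_zero d1 d2), ⟨(g : M3) 0 1 / (g : M3) 0 0, (g : M3) 1 2 / (g : M3) 1 1, (g : M3) 0 2 / (g : M3) 0 0, j, k⟩, ?_⟩
  have q : ∀ a b c, MulAut.conj (u a b c) = pslConj (Fin 3) F (Matrix.SpecialLinearGroup.toGL (uS a b c)) :=
    fun _ _ _ => conj_mk_eq_pslConj _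
  rw [aut_eq, ← mul_assoc, q, dg, ← map_mul]
  refine congrArg (· * ph j k) (pc_smul ((g : M3) 2 2) ?_)
  change _ = _ • (!![_, _, _; _, _, _; _, _, _] * !![_, _, _; _, _, _; _, _, _])
  rw [Matrix.mul_fin_three]
  ext a b
  fin_cases a <;> fin_cases b <;> simp [h1, h2, h3] <;> field_simp

theorem inner_comm {β : MulAut P} (h : β ∈ commutator (MulAut P)) {n : ℕ} (e : β ^ 2 ^ n = 1) :
    ∃ p, β = MulAut.conj p := by
  refine inner_of (commutator_le.2 (fun a _ b _ => ?_) h) e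
  rw [show ⁅a, b⁆ = a * b * (a * b) * (b⁻¹ * a⁻¹ * b * (b⁻¹ * a⁻¹ * b)) * (b⁻¹ * b⁻¹) by
    rw [commutatorElement_def]; group]
  exact mul_mem (mul_mem (sq_mem _) (sq_mem _)) (sq_mem _)

theorem inner_sq (β : MulAut P) {n : ℕ} (e : (β * β) ^ 2 ^ n = 1) :
    ∃ p, β * β = MulAut.conj p := inner_of (sq_mem β) e

theorem exists_sa (Y : Subgroup (MulAut P)) (hY : IsPGroup 2 Y) :
    ∃ β : MulAut P, ∀ y ∈ Y, ∃ x : SA, y = β * x.aut * β⁻¹ := by
  have : Finite (MulAut P) := Nat.finite_of_card_ne_zero (by rw [card_aut]; norm_num)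
  obtain ⟨g, hg⟩ := conj_into (H := (MonoidHom.mk' SA.aut aut_mul).range) (k := 8) (by
    rw [← Nat.card_congr (MonoidHom.ofInjective ((injective_iff_map_eq_one _).2 fun _ => aut_inj)).toEquiv,
      Nat.card_eq_fintype_card]
    decide +kernel) card_aut (by norm_num) hY
  refine ⟨g⁻¹, fun y hy => ?_⟩
  obtain ⟨x, e⟩ := hg y hy
  exact ⟨x, by rw [show x.aut = g * y * g⁻¹ from e]; group⟩

end Cfsg.Agent.LS
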