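import Cfsg.Agent.LS.Defs

/-! Standard subgroups isomorphic to `L₃(4)`: more vocabulary (notes/LS.md). -/

set_option autoImplicit false

namespace Cfsg.Agent.LS

open Subgroup H29

variable {G : Type*} [Group G]

namespace Dat

variable (δ : Dat G)

/-- `z` lies in the conjugate of `L` centralised by `i` -/
def ZL (i : G) : Prop := ∃ m, m * i * m⁻¹ ∈ Kc δ.ι ∧ m * δ.z * m⁻¹ ∈ δ.ι.range

/-- the elements of `N(Z) ∩ C(z)` -/
def MM (n : G) : Prop := δ.NZ n ∧ Commute n δ.z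

/-- a reflection: an involution inducing a graph automorphism on `L` and centralising `T₁` -/
structure Rf (γ : G) : Prop where
  sq : γ * γ = 1
  ac : δ.Ac γ swp
  gr : ∀ p, γ * δ.ι p * γ⁻¹ = δ.ι (gr p)
  cr : ∀ ρ, Commute γ (δ.r ρ)
  cw : ∀ y σ, δ.Wy y σ → Commute γ y

end Dat

/-- multiplication in `F[θ] / (θ² + θ + B)` -/
def ml (B : F) (α β : F × F) : F × F :=
  (α.1 * β.1 + B * (α.2 * β.2), α.1 * β.2 + α.2 * β.1 + α.2 * β.2)

/-- coordinates for the unitriangular group over `F[θ] / (θ² + θ + B)` -/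
structure Co (B : F) (X₁ X₂ Y : F × F → G) : Prop where
  x1 : ∀ α β, X₁ (α + β) = X₁ α * X₁ β
  x2 : ∀ α β, X₂ (α + β) = X₂ α * X₂ β
  y : ∀ α β, Y (α + β) = Y α * Y β
  cm : ∀ α β, X₁ α * X₂ β = X₂ β * X₁ α * Y (ml B α β)
  c1 : ∀ α γ, Commute (Y γ) (X₁ α)
  c2 : ∀ α γ, Commute (Y γ) (X₂ α)
  inj : ∀ α β γ, X₁ α * X₂ β * Y γ = 1 → α = 0 ∧ β = 0 ∧ γ = 0

def CoU (X₁ X₂ Y : F × F → G) : Subgroup G := closure (Set.range X₁ ∪ Set.range X₂ ∪ Set.range Y)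

def CoW (Y : F × F → G) : Subgroup G := closure (Set.range Y)

end Cfsg.Agent.LS
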