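import Cfsg.Agent.LS.LemA
import Cfsg.Agent.LS.Defs2

set_option autoImplicit false

namespace Cfsg.Agent.LS

open Subgroup H29
open scoped commutatorElement

namespace Dat

variable {G : Type*} [Group G] {δ : Dat G}

theorem eq_cj (m x y : G) : m * x * m⁻¹ = m * y * m⁻¹ ↔ x = y := by simp

theorem cm_cj (m x y : G) : Commute (m * x * m⁻¹) (m * y * m⁻¹) ↔ Commute x y := by
  simp only [Commute, SemiconjBy, conj_mul, eq_cj]

theorem sur_cj (m x : G) : ∃ y, x = m * y * m⁻¹ := ⟨m⁻¹ * x * m, by group⟩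

theorem all_cj (m : G) {p : G → Prop} : (∀ x, p x) ↔ ∀ x, p (m * x * m⁻¹) :=
  ⟨fun h _ => h _, fun h x => by obtain ⟨y, rfl⟩ := sur_cj m x; exact h y⟩

theorem ex_cj (m : G) {p : G → Prop} : (∃ x, p x) ↔ ∃ x, p (m * x * m⁻¹) :=
  ⟨fun ⟨x, h⟩ => by obtain ⟨y, rfl⟩ := sur_cj m x; exact ⟨y, h⟩, fun ⟨_, h⟩ => ⟨_, h⟩⟩

theorem ord_cj (m x : G) : orderOf (m * x * m⁻¹) = orderOf x :=
  orderOf_injective (MulAut.conj m).toMonoidHom (MulAut.conj m).injective x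

theorem dd_cj {ι : P →* G} (m x : G) : DD ι (m * x * m⁻¹) ↔ DD ι x :=
  ⟨fun h => by simpa [mul_assoc] using h.conj m⁻¹, fun h => h.conj m⟩

theorem U_mul (δ : Dat G) (a b c a' b' c' : F) :
    δ.U a b c * δ.U a' b' c' = δ.U (a + a') (b + b') (c + c' + a * b') := by
  simp only [U, ← map_mul, u_mul]

theorem U_zero (δ : Dat G) : δ.U 0 0 0 = 1 := by simp only [U, u_zero, map_one]

theorem U_inv (δ : Dat G) (a b c : F) : (δ.U a b c)⁻¹ = δ.U a b (c + a * b) := by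
  rw [inv_eq_iff_mul_eq_one, U_mul, ← δ.U_zero]
  congr 1 <;> revert a b c <;> decide

theorem U_conj (δ : Dat G) (a b c a' b' c' : F) : δ.U a b c * δ.U a' b' c' * (δ.U a b c)⁻¹ =
    δ.U a' b' (c' + a * b' + a' * b) := by
  rw [mul_inv_eq_iff_eq_mul, U_mul, U_mul]
  have t : (2 : F) = 0 := by decide
  congr 1
  · ring
  · ring
  · linear_combination (-(a' * b)) * t

theorem U_C (δ : Dat G) (a b c d : F) : δ.U a b c * δ.C d = δ.U a b (c + d) := by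
  simp only [C, U_mul, add_zero, mul_zero]

theorem C_U (δ : Dat G) (a b c d : F) : Commute (δ.C d) (δ.U a b c) := by
  simp only [Commute, SemiconjBy, C, U_mul, add_zero, mul_zero, zero_add, zero_mul, add_comm]

theorem C_add (δ : Dat G) (c d : F) : δ.C (c + d) = δ.C c * δ.C d := by
  simp only [C, U_mul, add_zero, mul_zero]

theorem C_zero (δ : Dat G) : δ.C 0 = 1 := δ.U_zero

theorem C_sq (δ : Dat G) (c : F) : δ.C c * δ.C c = 1 := by rw [← C_add, SA.two, C_zero]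

theorem C_inv (δ : Dat G) (c : F) : (δ.C c)⁻¹ = δ.C c := inv_eq_of_mul_eq_one_right (δ.C_sq c)

theorem h_U (δ : Dat G) (a b c : F) :
    δ.h * δ.U a b c * δ.h⁻¹ = δ.U (ω * a) (ω * b) (ω * ω * c) := by
  simp only [U, h, ← map_inv, ← map_mul, hh_u]

theorem h_C (δ : Dat G) (c : F) : δ.h * δ.C c * δ.h⁻¹ = δ.C (ω * ω * c) := by
  simp only [C, h_U, mul_zero]

theorem h_cube (δ : Dat G) : δ.h * δ.h * δ.h = 1 := by
  simp only [h, ← map_mul]; rw [← pow_three', hh_cube, map_one]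

theorem w_U (δ : Dat G) (a c : F) : δ.w * δ.U a 0 c * δ.w⁻¹ = δ.U c 0 a := by
  simp only [U, w, ← map_inv, ← map_mul, w1_u]

theorem w_h (δ : Dat G) : δ.w * δ.h * δ.w⁻¹ = δ.h⁻¹ := by simp only [h, w, ← map_inv, ← map_mul, w1_hh]

theorem OK.U_inj (ok : δ.OK) {a b c a' b' c' : F} (h : δ.U a b c = δ.U a' b' c') :
    a = a' ∧ b = b' ∧ c = c' := u_inj (ok.hy.inj h)

theorem OK.C_inj (ok : δ.OK) {c c' : F} (h : δ.C c = δ.C c') : c = c' := (ok.U_inj h).2.2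

theorem OK.z_ne (ok : δ.OK) : δ.z ≠ 1 := fun e => one_ne_zero (ok.C_inj (e.trans δ.C_zero.symm))

theorem lam_zero (e : Bool) : Lam e 0 := Or.inr (Or.inl rfl)

theorem lam_one (e : Bool) : Lam e 1 := Or.inr (Or.inr rfl)

theorem lam_add {e : Bool} {a b : F} (ha : Lam e a) (hb : Lam e b) : Lam e (a + b) := by
  revert e a b; decide

theorem OK.r_zero (ok : δ.OK) : δ.r 0 = 1 := by
  have := ok.radd 0 0 (lam_zero _) (lam_zero _)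
  rw [add_zero] at this
  exact (mul_eq_left.mp this.symm)

theorem OK.r_sq (ok : δ.OK) {ρ : F} (h : Lam δ.e ρ) : δ.r ρ * δ.r ρ = 1 := by
  rw [← ok.radd ρ ρ h h, SA.two, ok.r_zero]

theorem OK.r_comm (ok : δ.OK) {a b : F} (ha : Lam δ.e a) (hb : Lam δ.e b) :
    Commute (δ.r a) (δ.r b) := by
  rw [Commute, SemiconjBy, ← ok.radd a b ha hb, ← ok.radd b a hb ha, add_comm]

theorem OK.r_L (ok : δ.OK) (ρ : F) (p : P) : Commute (δ.r ρ) (δ.ι p) := mem_Kc.mp (ok.rK ρ) p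

theorem OK.t_sq (ok : δ.OK) : δ.t * δ.t = 1 := ok.r_sq (lam_one _)

theorem OK.t_ne (ok : δ.OK) : δ.t ≠ 1 := ok.rne 1 (lam_one _) one_ne_zero

theorem OK.cent_r (ok : δ.OK) {ρ : F} (h : Lam δ.e ρ) (h0 : ρ ≠ 0) {n : G} (c : Commute n (δ.r ρ)) :
    n ∈ Nn δ.ι := ok.hy.cent (ok.rK ρ) (ok.r_sq h) (ok.rne ρ h h0) c

theorem OK.U_K (ok : δ.OK) {a b c : F} (h : δ.U a b c ∈ Kc δ.ι) : a = 0 ∧ b = 0 ∧ c = 0 :=
  u_inj ((ok.hy.LK h).trans u_zero.symm)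

theorem DD_cj (δ : Dat G) (m d : G) : DD (δ.cj m).ι d ↔ DD δ.ι d :=
  ⟨fun h => h.fr (Fr.cj δ.ι m).symm, fun h => h.fr (Fr.cj δ.ι m)⟩

theorem DD_sw (δ : Dat G) (d : G) : DD δ.sw.ι d ↔ DD δ.ι d :=
  ⟨fun h => h.fr (Fr.tw δ.ι gr).symm, fun h => h.fr (Fr.tw δ.ι gr)⟩

theorem cj_ι (δ : Dat G) (m : G) (p : P) : (δ.cj m).ι p = m * δ.ι p * m⁻¹ := rfl

theorem cj_U (δ : Dat G) (m : G) (a b c : F) : (δ.cj m).U a b c = m * δ.U a b c * m⁻¹ := rfl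

theorem cj_C (δ : Dat G) (m : G) (c : F) : (δ.cj m).C c = m * δ.C c * m⁻¹ := rfl

theorem cj_r (δ : Dat G) (m : G) (ρ : F) : (δ.cj m).r ρ = m * δ.r ρ * m⁻¹ := rfl

theorem cj_h (δ : Dat G) (m : G) : (δ.cj m).h = m * δ.h * m⁻¹ := rfl

theorem cj_t (δ : Dat G) (m : G) : (δ.cj m).t = m * δ.t * m⁻¹ := rfl

theorem cj_z (δ : Dat G) (m : G) : (δ.cj m).z = m * δ.z * m⁻¹ := rfl

theorem cj_nm (m x : G) : (δ.cj m).nm (m * x * m⁻¹) = m * δ.nm x * m⁻¹ := by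
  simp only [nm, cj_h, conj_inv, conj_mul]

theorem cj_Kc (m x : G) : m * x * m⁻¹ ∈ Kc (δ.cj m).ι ↔ x ∈ Kc δ.ι := by
  show _ ∈ Kc (LS.cj m δ.ι) ↔ _
  rw [mem_Kc_cj]; simp only [mul_assoc, inv_mul_cancel_left, inv_mul_cancel, mul_one]

theorem OK.cj (ok : δ.OK) (m : G) : (δ.cj m).OK := by
  have kk : ∀ x, m * x * m⁻¹ ∈ Kc (LS.cj (δ.cj m).g (δ.cj m).ι) ↔ x ∈ Kc (LS.cj δ.g δ.ι) := fun x => by
    show _ ∈ Kc (LS.cj (m * δ.g * m⁻¹) (LS.cj m δ.ι)) ↔ _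
    rw [mem_Kc_cj, mem_Kc_cj, mem_Kc_cj]
    simp only [mul_assoc, mul_inv_rev, inv_inv, inv_mul_cancel_left, inv_mul_cancel, mul_one]
  refine ⟨ok.hy.fr (Fr.cj _ m), fun ρ => (cj_Kc m _).mpr (ok.rK ρ), fun a b ha hb => ?_,
    fun a ha h0 => ?_, fun a b c => ?_, fun ρ h => ?_, fun k hk c => ?_, fun k hk k2 => ?_⟩
  · rw [cj_r, cj_r, cj_r, conj_mul, ok.radd a b ha hb]
  · rw [cj_r, Ne, conj_eq_one_iff]; exact ok.rne a ha h0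
  · obtain ⟨a', b', c', e⟩ := ok.gT a b c
    exact ⟨a', b', c', by
      show m * δ.g * m⁻¹ * _ * (m * δ.g * m⁻¹)⁻¹ = _
      rw [cj_U, cj_U, conj_inv, conj_mul, conj_mul, e]⟩
  · rw [cj_r, cj_C, conj_mul, kk]; exact ok.gR ρ h
  · obtain ⟨k, rfl⟩ := sur_cj m k
    obtain ⟨ρ, h, e⟩ := ok.cen k ((cj_Kc m k).mp hk) ((cm_cj m _ _).mp c)
    exact ⟨ρ, h, by rw [cj_r, conj_mul, kk]; exact e⟩
  · obtain ⟨k, rfl⟩ := sur_cj m k
    rw [conj_mul, conj_eq_one_iff] at k2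
    obtain ⟨n, hn, ρ, h, e⟩ := ok.syl k ((cj_Kc m k).mp hk) k2
    exact ⟨_, (cj_Kc m n).mpr hn, ρ, h, by rw [cj_r, conj_inv, conj_mul, conj_mul, e]⟩

theorem cj_Od (m x : G) : (δ.cj m).Od (m * x * m⁻¹) ↔ δ.Od x := by
  simp only [Od, cj_Kc, cj_r, cm_cj, ord_cj]; rfl

theorem cj_CO (m x : G) : (δ.cj m).CO (m * x * m⁻¹) ↔ δ.CO x := by
  rw [CO, all_cj m]; simp only [cj_Od, cm_cj]; rfl

theorem cj_Qx (m x : G) (μ σ : F) : (δ.cj m).Qx (m * x * m⁻¹) μ σ ↔ δ.Qx x μ σ := by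
  simp only [Qx, Tr, cj_CO, cj_U, cj_r, cm_cj, conj_pow, conj_mul, conj_inv, eq_cj, conj_eq_one_iff]; rfl

theorem cj_Ty (m x : G) (σ : F) : (δ.cj m).Ty (m * x * m⁻¹) σ ↔ δ.Ty x σ := by
  simp only [Ty, cj_CO, cj_U, cj_C, cj_r, cm_cj, conj_pow, conj_mul, conj_inv, eq_cj, conj_eq_one_iff]; rfl

theorem cj_Wy (m x : G) (σ : F) : (δ.cj m).Wy (m * x * m⁻¹) σ ↔ δ.Wy x σ := by
  simp only [Wy, cj_Ty, cj_nm, cj_C, eq_cj]

theorem cj_Ex (m x : G) (μ σ : F) : (δ.cj m).Ex (m * x * m⁻¹) μ σ ↔ δ.Ex x μ σ := by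
  simp only [Ex, cj_Qx, cj_nm, cj_U, eq_cj]

theorem cj_InD (m x : G) (v : V4) : (δ.cj m).InD (m * x * m⁻¹) v ↔ δ.InD x v := by
  unfold InD
  refine and_congr Iff.rfl (exists_congr fun c => ?_)
  rw [ex_cj m]; simp only [cj_Wy, cj_U, cj_r, conj_mul, eq_cj]

theorem cj_Ac (m x : G) (f : V4 → V4) : (δ.cj m).Ac (m * x * m⁻¹) f ↔ δ.Ac x f := by
  rw [Ac, all_cj m]; simp only [conj_mul, conj_inv, cj_InD]; rfl

theorem cj_ND (m x : G) : (δ.cj m).ND (m * x * m⁻¹) ↔ δ.ND x := by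
  rw [ND, all_cj m]; simp only [conj_mul, conj_inv, cj_InD]; rfl

theorem cj_CZ (m x : G) : (δ.cj m).CZ (m * x * m⁻¹) ↔ δ.CZ x := by
  simp only [CZ, cj_C, cm_cj]

theorem cj_NZ (m x : G) : (δ.cj m).NZ (m * x * m⁻¹) ↔ δ.NZ x := by
  simp only [NZ, cj_C, conj_mul, conj_inv, eq_cj]

theorem cj_Qg (m x : G) : m * x * m⁻¹ ∈ (δ.cj m).Qg ↔ x ∈ δ.Qg := by
  have : (δ.cj m).Qg = δ.Qg.map (MulAut.conj m).toMonoidHom := by
    rw [Qg, Qg, MonoidHom.map_closure]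
    congr 1
    ext y
    obtain ⟨y, rfl⟩ := sur_cj m y
    have e : ∀ a : G, (MulAut.conj m).toMonoidHom a = m * a * m⁻¹ := fun _ => rfl
    simp only [Set.mem_setOf_eq, Set.mem_image, e, eq_cj, exists_eq_right, z, cj_C, conj_mul,
      conj_inv, conj_eq_one_iff, cm_cj, DD_cj, dd_cj]
  rw [this]
  exact mem_map_iff_mem (f := (MulAut.conj m).toMonoidHom) (MulAut.conj m).injective

theorem cj_sw (δ : Dat G) (m : G) : (δ.cj m).sw = δ.sw.cj m := rfl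

theorem Kk.cj {k₁ k₂ : F} (h : δ.Kk k₁ k₂) (m : G) : (δ.cj m).Kk k₁ k₂ := by
  refine ⟨h.ok.cj m, fun x μ σ hx => ?_, fun x μ σ hx => ?_⟩ <;> obtain ⟨x, rfl⟩ := sur_cj m x
  · exact (cj_Ac m x _).mpr (h.a1 x μ σ ((cj_Qx m x μ σ).mp hx))
  · exact (cj_Ac m x _).mpr (h.a2 x μ σ ((cj_Qx m x μ σ).mp hx))

theorem CI.cj (h : δ.CI) (m : G) : (δ.cj m).CI := ⟨h.1.cj m, h.2⟩

theorem H0.cj {g : G} (h : δ.H0 g) (m : G) : (δ.cj m).H0 (m * g * m⁻¹) := by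
  refine ⟨h.ci.cj m, (cj_CO m g).mpr h.co, (cm_cj m _ _).mpr h.gz, fun b c => ?_, fun ρ => ?_⟩
  · simpa only [cj_U, conj_mul, conj_inv, eq_cj] using h.gV b c
  · simpa only [cj_r, conj_mul, conj_inv, cj_Qx] using h.gr ρ

theorem Hp.cj {g τ : G} (h : δ.Hp g τ) (m : G) : (δ.cj m).Hp (m * g * m⁻¹) (m * τ * m⁻¹) := by
  refine ⟨h.toH0.cj m, ?_, fun c => ?_, (cj_Ac m τ _).mpr h.ac⟩
  · simpa only [cj_U, conj_mul, conj_inv, eq_cj] using h.tL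
  · simpa only [cj_C, conj_mul, conj_inv, eq_cj] using h.tC c

theorem Fn.cj {g τ : G} (h : δ.Fn g τ) (m : G) : (δ.cj m).Fn (m * g * m⁻¹) (m * τ * m⁻¹) := by
  refine ⟨h.toHp.cj m, fun n hn => ?_⟩
  obtain ⟨n, rfl⟩ := sur_cj m n
  simpa only [cj_Ac] using h.nr n ((cj_CZ m n).mp hn)

theorem sw_U (δ : Dat G) (a b c : F) : δ.sw.U a b c = δ.U b a (c + a * b) := by
  rw [U, U, ← gr_u]; rfl

theorem sw_C (δ : Dat G) (c : F) : δ.sw.C c = δ.C c := by rw [C, sw_U, mul_zero, add_zero, C]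

theorem sw_h (δ : Dat G) : δ.sw.h = δ.h := by
  show δ.ι (gr hh) = _
  rw [gr_hh, h]

theorem sw_sw (δ : Dat G) : δ.sw.sw = δ := by
  obtain ⟨ι, e, r, g⟩ := δ
  simp only [sw, mk.injEq, and_true]
  ext p
  show ι ((gr * gr) p) = ι p
  rw [gr_gr]; rfl

theorem sw_Kc (δ : Dat G) : Kc δ.sw.ι = Kc δ.ι := by
  show centralizer ((tw δ.ι gr).range : Set G) = _
  rw [range_tw]

theorem OK.sw (ok : δ.OK) : δ.sw.OK := by
  have kk : Kc (LS.cj δ.g δ.sw.ι) = Kc (LS.cj δ.g δ.ι) := by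
    ext x; rw [mem_Kc_cj, mem_Kc_cj, sw_Kc]
  refine ⟨ok.hy.fr (Fr.tw _ gr), fun ρ => δ.sw_Kc ▸ ok.rK ρ, ok.radd, ok.rne, fun a b c => ?_,
    fun ρ h => ?_, fun k hk c => ?_, fun k hk k2 => ?_⟩
  · obtain ⟨a', b', c', e⟩ := ok.gT b a (c + a * b)
    exact ⟨b', a', c' + b' * a', by rw [sw_U, sw_U, add_assoc c', SA.two, add_zero]; exact e⟩
  · rw [sw_C]; exact kk ▸ ok.gR ρ h
  · exact kk ▸ ok.cen k (δ.sw_Kc ▸ hk) c
  · rw [sw_Kc] at hk ⊢; exact ok.syl k hk k2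

theorem sw_Od (x : G) : δ.sw.Od x ↔ δ.Od x := by rw [Od, sw_Kc]; rfl

theorem sw_CO (x : G) : δ.sw.CO x ↔ δ.CO x := by simp only [CO, sw_Od]

theorem sw_CZ (x : G) : δ.sw.CZ x ↔ δ.CZ x := by simp only [CZ, sw_C]

theorem sw_Ty (x : G) (σ : F) : δ.sw.Ty x σ ↔ δ.Ty x σ := by
  simp only [Ty, sw_CO, sw_C, sw_U]
  refine and_congr ⟨fun h a b c => ?_, fun h a b c => h _ _ _⟩ Iff.rfl
  have := h b a (c + b * a)
  rwa [add_assoc, SA.two, add_zero] at this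

theorem sw_Wy (x : G) (σ : F) : δ.sw.Wy x σ ↔ δ.Wy x σ := by
  simp only [Wy, sw_Ty, nm, sw_h, sw_C]

theorem sw_InD (ok : δ.OK) (x : G) (v : V4) : δ.sw.InD x v ↔ δ.InD x (swp v) := by
  simp only [InD, sw_Wy, sw_U, swp]
  refine and_congr Iff.rfl ⟨fun ⟨c, y, h, e⟩ => ⟨_, y, h, e⟩, fun ⟨c, y, h, e⟩ => ⟨c + v.1 * v.2.1, y, h, ?_⟩⟩
  rw [add_assoc, SA.two, add_zero]; exact e

theorem sw_Ac (ok : δ.OK) (x : G) (f : V4 → V4) : δ.sw.Ac x f ↔ δ.Ac x (swp ∘ f ∘ swp) := by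
  simp only [Ac, sw_InD ok]
  exact ⟨fun h d v hd => h d (swp v) hd, fun h d v hd => h d (swp v) hd⟩

theorem sw_Ug (δ : Dat G) : δ.sw.Ug = δ.Ug := by
  rw [Ug, Ug, sw_sw]; simp only [or_comm]

theorem Kk.sw {k₁ k₂ : F} (h : δ.Kk k₁ k₂) : δ.sw.Kk k₂ k₁ := by
  refine ⟨h.ok.sw, fun x μ σ hx => (sw_Ac h.ok x _).mpr (h.a2 x μ σ hx), fun x μ σ hx => ?_⟩
  rw [sw_sw] at hx
  exact (sw_Ac h.ok x _).mpr (h.a1 x μ σ hx)

theorem CO.one : δ.CO 1 := fun o _ => Commute.one_left o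

theorem CO.mul {x y : G} (hx : δ.CO x) (hy : δ.CO y) : δ.CO (x * y) :=
  fun o h => (hx o h).mul_left (hy o h)

theorem CO.inv {x : G} (hx : δ.CO x) : δ.CO x⁻¹ := fun o h => (hx o h).inv_left

theorem CO_L (δ : Dat G) (p : P) : δ.CO (δ.ι p) := fun _ h => (mem_Kc.mp h.1 p).symm

theorem CO_r {ρ : F} (h : Lam δ.e ρ) : δ.CO (δ.r ρ) := fun _ ho => (ho.2.1 ρ h).symm

theorem CZ.mul {x y : G} (hx : δ.CZ x) (hy : δ.CZ y) : δ.CZ (x * y) :=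
  fun c => (hx c).mul_left (hy c)

theorem CZ.inv {x : G} (hx : δ.CZ x) : δ.CZ x⁻¹ := fun c => (hx c).inv_left

theorem CZ.nz {x : G} (hx : δ.CZ x) : δ.NZ x :=
  fun c => ⟨c, by rw [(hx c).eq, mul_inv_cancel_right]⟩

theorem CZ.mm {x : G} (hx : δ.CZ x) : δ.MM x := ⟨hx.nz, hx 1⟩

theorem CZ.cj_C {x : G} (hx : δ.CZ x) (c : F) : (δ.cj x).C c = δ.C c := by
  rw [Dat.cj_C, (hx c).eq, mul_inv_cancel_right]

theorem NZ.mul {x y : G} (hx : δ.NZ x) (hy : δ.NZ y) : δ.NZ (x * y) := fun c => by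
  obtain ⟨c', e⟩ := hy c
  obtain ⟨c'', e'⟩ := hx c'
  exact ⟨c'', by rw [← e', ← e]; group⟩

theorem OK.NZ_inv (ok : δ.OK) {x : G} (hx : δ.NZ x) : δ.NZ x⁻¹ := fun c => by
  choose f hf using hx
  have : Function.Injective f := fun a b e => ok.C_inj ((eq_cj x _ _).mp (by rw [hf, hf, e]))
  obtain ⟨a, rfl⟩ := Finite.surjective_of_injective this c
  exact ⟨a, by rw [← hf]; group⟩

theorem MM.mul {x y : G} (hx : δ.MM x) (hy : δ.MM y) : δ.MM (x * y) :=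
  ⟨hx.1.mul hy.1, hx.2.mul_left hy.2⟩

theorem OK.MM_inv (ok : δ.OK) {x : G} (hx : δ.MM x) : δ.MM x⁻¹ := ⟨ok.NZ_inv hx.1, hx.2.inv_left⟩

theorem OK.MM_cases (ok : δ.OK) {x : G} (hx : δ.MM x) :
    δ.CZ x ∨ ∀ c, x * δ.C c * x⁻¹ = δ.C (c * c) := by
  obtain ⟨c, e⟩ := hx.1 ω
  have e0 : x * δ.C 0 * x⁻¹ = δ.C 0 := by rw [C_zero, mul_one, mul_inv_cancel]
  have e1 : x * δ.C 1 * x⁻¹ = δ.C 1 := mul_inv_eq_of_eq_mul hx.2.eq
  have e2 : x * δ.C (ω + 1) * x⁻¹ = δ.C (c + 1) := by rw [C_add, C_add, ← conj_mul, e, e1]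
  have n0 : c ≠ 0 := fun h => absurd (ok.C_inj ((eq_cj x _ _).mp ((h ▸ e).trans e0.symm))) (by decide)
  have n1 : c ≠ 1 := fun h => absurd (ok.C_inj ((eq_cj x _ _).mp ((h ▸ e).trans e1.symm))) (by decide)
  have F4c : ∀ d : F, d = 0 ∨ d = 1 ∨ d = ω ∨ d = ω + 1 := by decide
  rcases F4c c with h | h | rfl | rfl
  · exact absurd h n0
  · exact absurd h n1
  · refine Or.inl fun d => ?_
    rw [Commute, SemiconjBy, ← mul_inv_eq_iff_eq_mul]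
    rcases F4c d with rfl | rfl | rfl | rfl <;> assumption
  · refine Or.inr fun d => ?_
    rcases F4c d with rfl | rfl | rfl | rfl <;> assumption

theorem Ac.mul {x y : G} {f f' : V4 → V4} (hx : δ.Ac x f) (hy : δ.Ac y f') :
    δ.Ac (x * y) (f ∘ f') := fun d v h => by
  have := hx _ _ (hy d v h)
  rwa [show x * (y * d * y⁻¹) * x⁻¹ = x * y * d * (x * y)⁻¹ by group] at this

theorem Ac.congr {x : G} {f f' : V4 → V4} (hx : δ.Ac x f) (e : ∀ v, f v = f' v) : δ.Ac x f' :=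
  fun d v h => e v ▸ hx d v h

theorem Ac.nd {x : G} {f : V4 → V4} (hx : δ.Ac x f) : δ.ND x := fun d v h => ⟨_, hx d v h⟩

theorem ND.mul {x y : G} (hx : δ.ND x) (hy : δ.ND y) : δ.ND (x * y) := fun d v h => by
  obtain ⟨v', h'⟩ := hy d v h
  obtain ⟨v'', h''⟩ := hx _ _ h'
  exact ⟨v'', by rwa [show x * (y * d * y⁻¹) * x⁻¹ = x * y * d * (x * y)⁻¹ by group] at h''⟩

variable [Finite G]

theorem ND.inv {x : G} (hx : δ.ND x) : δ.ND x⁻¹ := by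
  have p : ∀ n : ℕ, δ.ND (x ^ n) := fun n => by
    induction n with
    | zero => exact fun d v h => ⟨v, by simpa using h⟩
    | succ n ih => rw [pow_succ]; exact ih.mul hx
  have := p (orderOf x - 1)
  rwa [show x ^ (orderOf x - 1) = x⁻¹ from eq_inv_of_mul_eq_one_left (by
    rw [← pow_succ, Nat.sub_add_cancel (orderOf_pos x), pow_orderOf_eq_one])] at this

theorem CO.cj_Od {m : G} (h : δ.CO m) (o : G) : (δ.cj m).Od o ↔ δ.Od o := by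
  obtain ⟨o, rfl⟩ := sur_cj m o
  rw [Dat.cj_Od]
  refine ⟨fun a => by rwa [(h o a).eq, mul_inv_cancel_right], fun a => ?_⟩
  have := (h _ a).eq
  rw [inv_mul_cancel_right, mul_assoc m o, mul_right_inj] at this
  rwa [mul_assoc m o, this] at a

theorem CO.cj_CO {m : G} (h : δ.CO m) (x : G) : (δ.cj m).CO x ↔ δ.CO x := by
  simp only [CO, h.cj_Od]

theorem OK.nDD_L (ok : δ.OK) (m : G) (p : P) : ¬ DD δ.ι (m * δ.ι p * m⁻¹) :=
  ok.hy.not_DD (Fr.cj δ.ι m) p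

theorem OK.nDD_U (ok : δ.OK) (a b c : F) : ¬ DD δ.ι (δ.U a b c) := ok.hy.not_DD (Fr.refl δ.ι) _

theorem OK.DD_rl (ok : δ.OK) {ρ : F} (h : Lam δ.e ρ) (h0 : ρ ≠ 0) {p : P} (p2 : p * p = 1) :
    DD δ.ι (δ.r ρ * δ.ι p) := by
  by_cases p1 : p = 1
  · rw [p1, map_one, mul_one]
    exact DD.of_mem (Fr.refl _) (ok.rK ρ) (ok.r_sq h) (ok.rne ρ h h0)
  have c2 : u 0 0 ρ * u 0 0 ρ = 1 := by rw [u_mul, SA.two, SA.two, mul_zero, add_zero, u_zero]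
  have c1 : u 0 0 ρ ≠ 1 := fun e => h0 (u_inj (e.trans u_zero.symm)).2.2
  obtain ⟨a, ha⟩ := inv_conj p2 p1
  obtain ⟨b, hb⟩ := inv_conj c2 c1
  have d : DD δ.ι (δ.r ρ * δ.C ρ) := by
    refine DD.of_mem (Fr.cj δ.ι δ.g) (ok.gR ρ h) ?_ fun e => c1 (ok.hy.LK ?_)
    · rw [C, U, (ok.r_L ρ _).symm.mul_mul_mul_comm, ok.r_sq h, one_mul]; exact δ.C_sq ρ
    · rw [show δ.ι (u 0 0 ρ) = (δ.r ρ)⁻¹ from eq_inv_of_mul_eq_one_right e]
      exact inv_mem (ok.rK ρ)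
  have := d.conj (δ.ι (a⁻¹ * b))
  rw [← conj_mul, (ok.r_L ρ _).symm.eq, mul_inv_cancel_right, C, U, ← map_inv, ← map_mul,
    ← map_mul] at this
  rwa [show p = a⁻¹ * b * u 0 0 ρ * (a⁻¹ * b)⁻¹ by
    rw [show a⁻¹ * b * u 0 0 ρ * (a⁻¹ * b)⁻¹ = a⁻¹ * (b * u 0 0 ρ * b⁻¹) * a by group, hb, ← ha]; group]

theorem OK.not_comm (ok : δ.OK) : ¬ IsMulCommutative G := fun h => by
  have := (h.is_comm.comm (δ.U 1 0 0) (δ.U 0 1 0))
  rw [U_mul, U_mul] at this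
  exact absurd (ok.U_inj this).2.2 (by decide)

theorem OK.comm_top [IsSimpleGroup G] (ok : δ.OK) : commutator G = ⊤ := by
  rcases (inferInstance : (commutator G).Normal).eq_bot_or_eq_top with h | h
  · exact absurd ((commutator_eq_bot_iff G).mp h) ok.not_comm
  · exact h

/-- the odd part of an element of (2-group) × `O` -/
theorem Od.eq_one {x o : G} (h : δ.Od o) (c : Commute x o) {n : ℕ} (hx : x ^ 2 ^ n = 1)
    (e : (x * o) ^ 2 ^ n = 1) : o = 1 := by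
  rw [c.mul_pow, hx, one_mul] at e
  have := orderOf_dvd_of_pow_eq_one e
  rw [← orderOf_eq_one_iff]
  exact Nat.Coprime.eq_one_of_dvd ((Nat.coprime_two_right.mpr h.2.2).pow_right n) this

end Dat

end Cfsg.Agent.LS
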