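import Cfsg.Agent.LS.Z2

set_option autoImplicit false

namespace Cfsg.Agent.LS

open Subgroup H29
open scoped commutatorElement

/-- the maps `ev i` and `ev i ∘ swp` -/
def ClM (b : Bool) (f : V4 → V4) : Prop := ∃ i, ∀ v, f v = ev i (cond b (swp v) v)

theorem cl_swp_swp (v : V4) : swp (swp v) = v := rfl

theorem ClM.comp {b b' : Bool} {f f' : V4 → V4} (h : ClM b f) (h' : ClM b' f') :
    ClM (xor b b') (f ∘ f') := by
  obtain ⟨i, hi⟩ := h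
  obtain ⟨j, hj⟩ := h'
  cases b
  · obtain ⟨k, hk⟩ := ev_mul i j
    exact ⟨k, fun v => by rw [Function.comp, hi, hj, Bool.false_xor, cond_false, hk]⟩
  · obtain ⟨j', hj'⟩ := swp_ev j
    obtain ⟨k, hk⟩ := ev_mul i j'
    refine ⟨k, fun v => ?_⟩
    rw [Function.comp, hi, hj, cond_true, ← hk, ← hj']
    cases b' <;> rfl

theorem ClM.sg {b : Bool} {f : V4 → V4} (h : ClM b f) (v : V4) : sg (f (sg v)) = f v := by
  obtain ⟨i, hi⟩ := h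
  rw [hi, hi, sg_ev]
  cases b
  · rw [cond_false, cond_false, sg_sg]
  · rw [cond_true, cond_true, sg_swp, sg_sg]

theorem ClM.not_both {f : V4 → V4} (h : ClM false f) (h' : ClM true f) : False := by
  obtain ⟨i, hi⟩ := h
  obtain ⟨j, hj⟩ := h'
  obtain ⟨j', h1, -⟩ := ev_inv j
  obtain ⟨k, hk⟩ := ev_mul j' i
  refine swp_ne k fun v => ?_
  have e := (hi v).symm.trans (hj v)
  rw [cond_false, cond_true] at e
  rw [← hk, e, h1]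

namespace Dat

variable {G : Type*} [Group G] [Finite G] {δ : Dat G}

omit [Finite G] in
theorem H0.c_ok {g : G} (h : δ.H0 g) : δ.OK := h.ci.1.ok

omit [Finite G] in
theorem H0.c_lam {g : G} (h : δ.H0 g) (ρ : F) : Lam δ.e ρ := Or.inl h.ci.2

omit [Finite G] in
theorem c_ac_one (δ : Dat G) : δ.Ac 1 id := fun d v hd => by simpa using hd

theorem Hp.sq {g τ : G} (h : δ.Hp g τ) : τ * τ = 1 := by
  obtain ⟨a, rfl⟩ := h.tL
  rw [show g * δ.U a 0 0 * g⁻¹ * (g * δ.U a 0 0 * g⁻¹) = g * (δ.U a 0 0 * δ.U a 0 0) * g⁻¹ by group,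
    δ.U_mul, SA.two, mul_zero, add_zero, add_zero, δ.U_zero]
  group

theorem Hp.co' {g τ : G} (h : δ.Hp g τ) : δ.CO τ := by
  obtain ⟨a, rfl⟩ := h.tL
  exact (h.co.mul (δ.CO_L _)).mul h.co.inv

theorem Hp.mm {g τ : G} (h : δ.Hp g τ) : δ.MM τ :=
  ⟨fun c => ⟨_, h.tC c⟩, by
    have := h.tC 1
    rw [mul_one] at this
    exact mul_inv_eq_iff_eq_mul.1 this⟩

theorem Hp.ndd {g τ : G} (h : δ.Hp g τ) : ¬ DD δ.ι τ := by
  obtain ⟨a, rfl⟩ := h.tL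
  exact h.toH0.c_ok.nDD_L g _

theorem Hp.c_inv {g τ : G} (h : δ.Hp g τ) : τ⁻¹ = τ := inv_eq_of_mul_eq_one_right h.sq

omit [Finite G] in
theorem Hp.c_ncz {g τ : G} (h : δ.Hp g τ) : ¬ δ.CZ τ := fun c => by
  have e := h.tC ω
  rw [(c ω).eq, mul_inv_cancel_right] at e
  exact absurd (h.toH0.c_ok.C_inj e) (by decide)

omit [Finite G] in
theorem c_cz_of {x y : G} (hx : ∀ c, x * δ.C c * x⁻¹ = δ.C (c * c))
    (hy : ∀ c, y * δ.C c * y⁻¹ = δ.C (c * c)) : δ.CZ (x * y) := fun c => by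
  have : x * y * δ.C c * (x * y)⁻¹ = δ.C c := by
    rw [show x * y * δ.C c * (x * y)⁻¹ = x * (y * δ.C c * y⁻¹) * x⁻¹ by group, hy, hx,
      (by decide : ∀ c : F, c * c * (c * c) = c) c]
  exact mul_inv_eq_iff_eq_mul.1 this

theorem Hp.cz_or {g τ : G} (h : δ.Hp g τ) {n : G} (hn : δ.MM n) : δ.CZ n ∨ δ.CZ (τ * n) :=
  (h.toH0.c_ok.MM_cases hn).imp_right (c_cz_of h.tC)

theorem Hp.c_cjt {g τ : G} (h : δ.Hp g τ) {x : G} (hx : δ.CZ x) : δ.CZ (τ * x * τ) := by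
  rw [mul_assoc]
  refine c_cz_of h.tC fun c => ?_
  rw [show x * τ * δ.C c * (x * τ)⁻¹ = x * (τ * δ.C c * τ⁻¹) * x⁻¹ by group, h.tC, (hx _).eq,
    mul_inv_cancel_right]

/-- the parity of an element of `N(Z) ∩ C(z)` -/
def Par (δ : Dat G) (τ n : G) (b : Bool) : Prop :=
  ∃ f, ClM b f ∧ (δ.CZ n ∧ δ.Ac n f ∨ δ.CZ (τ * n) ∧ δ.Ac (τ * n) f)

omit [Finite G] in
theorem c_ev_iff {τ n : G} : δ.Ev τ n ↔ δ.Par τ n false :=
  ⟨fun ⟨i, h⟩ => ⟨ev i, ⟨i, fun _ => rfl⟩, h⟩, fun ⟨_, ⟨i, hi⟩, h⟩ =>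
    ⟨i, h.imp (fun a => ⟨a.1, a.2.congr hi⟩) fun a => ⟨a.1, a.2.congr hi⟩⟩⟩

theorem H0.c_cls {g : G} (h : δ.H0 g) {n : G} (hn : δ.CZ n) : ∃ b f, ClM b f ∧ δ.Ac n f := by
  obtain ⟨i, a | a⟩ := h.ci.cls hn (h.z2 hn.nz)
  · exact ⟨false, _, ⟨i, fun _ => rfl⟩, a⟩
  · exact ⟨true, _, ⟨i, fun _ => rfl⟩, a⟩

theorem Hp.c_par {g τ : G} (h : δ.Hp g τ) {n : G} (hn : δ.MM n) : ∃ b, δ.Par τ n b := by
  rcases h.cz_or hn with c | c <;> obtain ⟨b, f, a, a'⟩ := h.toH0.c_cls c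
  · exact ⟨b, f, a, Or.inl ⟨c, a'⟩⟩
  · exact ⟨b, f, a, Or.inr ⟨c, a'⟩⟩

theorem Hp.c_par_not {g τ : G} (h : δ.Hp g τ) {n : G} (a : δ.Par τ n false) (a' : δ.Par τ n true) :
    False := by
  have ok := h.toH0.c_ok
  obtain ⟨f, hf, a⟩ := a
  obtain ⟨f', ⟨j, hj⟩, a'⟩ := a'
  have nb : δ.CZ n → δ.CZ (τ * n) → False := fun c c' => h.c_ncz (by
    have := c'.mul c.inv
    rwa [mul_inv_cancel_right] at this)
  rcases a with a | a <;> rcases a' with a' | a'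
  · exact hf.not_both ⟨j, fun v => (ok.Ac_uniq a.2 a'.2 (h.toH0.c_lam _)).trans (hj v)⟩
  · exact nb a.1 a'.1
  · exact nb a'.1 a.1
  · exact hf.not_both ⟨j, fun v => (ok.Ac_uniq a.2 a'.2 (h.toH0.c_lam _)).trans (hj v)⟩

theorem Hp.c_par_mul {g τ : G} (h : δ.Hp g τ) {n n' : G} {b b' : Bool} (a : δ.Par τ n b)
    (a' : δ.Par τ n' b') : δ.Par τ (n * n') (xor b b') := by
  obtain ⟨f, hf, a⟩ := a
  obtain ⟨f', hf', a'⟩ := a'
  refine ⟨f ∘ f', hf.comp hf', ?_⟩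
  have cj : ∀ x, δ.Ac x f → δ.Ac (τ * x * τ) f := fun x hx =>
    ((h.ac.mul hx).mul h.ac).congr hf.sg
  rcases a with a | a <;> rcases a' with a' | a'
  · exact Or.inl ⟨a.1.mul a'.1, a.2.mul a'.2⟩
  · have e : τ * (n * n') = τ * n * τ * (τ * n') := by
      rw [mul_assoc (τ * n), ← mul_assoc τ τ, h.sq, one_mul, mul_assoc]
    exact Or.inr (e ▸ ⟨(h.c_cjt a.1).mul a'.1, (cj _ a.2).mul a'.2⟩)
  · exact Or.inr (mul_assoc τ n n' ▸ ⟨a.1.mul a'.1, a.2.mul a'.2⟩)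
  · have e : n * n' = τ * (τ * n) * τ * (τ * n') := by
      rw [← mul_assoc τ τ n, h.sq, one_mul, mul_assoc, ← mul_assoc τ τ, h.sq, one_mul]
    exact Or.inl (e ▸ ⟨(h.c_cjt a.1).mul a'.1, (cj _ a.2).mul a'.2⟩)

theorem Hp.ev_mul {g τ : G} (h : δ.Hp g τ) {n n' : G} (hn : δ.MM n) (hn' : δ.MM n') :
    δ.Ev τ (n * n') ↔ (δ.Ev τ n ↔ δ.Ev τ n') := by
  obtain ⟨b, a⟩ := h.c_par hn
  obtain ⟨b', a'⟩ := h.c_par hn'
  have m := h.c_par_mul a a'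
  simp only [c_ev_iff]
  cases b <;> cases b'
  · exact iff_of_true m (iff_of_true a a')
  · exact iff_of_false (fun x => h.c_par_not x m) fun x => h.c_par_not (x.1 a) a'
  · exact iff_of_false (fun x => h.c_par_not x m) fun x => h.c_par_not (x.2 a') a
  · exact iff_of_true m (iff_of_false (fun x => h.c_par_not x a) fun x => h.c_par_not x a')

theorem Hp.ev_swp {g τ : G} (h : δ.Hp g τ) {n : G} (hn : δ.CZ n) (ac : δ.Ac n swp) : ¬ δ.Ev τ n :=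
  fun e => h.c_par_not (c_ev_iff.1 e) ⟨swp, ⟨(false, 0, 0, 0), fun v => by
    rw [cond_true, ev_f1]; ext <;> simp [f1]⟩, Or.inl ⟨hn, ac⟩⟩

/-- involutions in the coset `j D`, `j` acting as `sg ∘ f1 1 μ` -/
theorem H0.c_conj_sg {g : G} (h : δ.H0 g) {j : G} {μ : F} (j2 : j * j = 1)
    (jC : ∀ c, j * δ.C c * j⁻¹ = δ.C (c * c)) (ac : δ.Ac j (sg ∘ f1 1 μ)) {d : G} {v : V4}
    (hd : δ.InD d v) (sq : j * d * (j * d) = 1) : ∃ m w, δ.InD m w ∧ j * d = m * j * m⁻¹ := by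
  have ok := h.c_ok
  have ji : j⁻¹ = j := inv_eq_of_mul_eq_one_right j2
  have e1 : j * d * j⁻¹ = d⁻¹ := by
    rw [ji]; exact eq_inv_of_mul_eq_one_left (by rw [← sq]; group)
  have fx : sg (f1 1 μ v) = v := ok.InD_uniq (ac d v hd) (e1 ▸ ok.InD_inv hd)
  obtain ⟨w, hw⟩ := free_sg μ fx
  obtain ⟨m, hm⟩ := ok.exists_InD (v := w) (h.c_lam _)
  have a := ok.InD_mul (ac m w hm) (ok.InD_inv hm)
  rw [Function.comp, add_comm, ← hw] at a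
  obtain ⟨c, hc⟩ := ok.InD_diff a hd
  have mC : ∀ c, m * δ.C c = δ.C c * m := fun c => (ok.InD_cz hm c).eq
  have e2 : j * d = m * (j * δ.C c) * m⁻¹ := by
    calc j * d = (j * j) * m * j⁻¹ * m⁻¹ * δ.C c * m * m⁻¹ := by rw [hc]; group
      _ = m * j⁻¹ * m⁻¹ * (δ.C c * m) * m⁻¹ := by rw [j2]; group
      _ = m * (j * δ.C c) * m⁻¹ := by rw [← mC, ji]; group
  have e3 : δ.C (c * c + c) = δ.C 0 := by
    rw [δ.C_add, ← jC, δ.C_zero, ji]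
    calc j * δ.C c * j * δ.C c = m⁻¹ * (m * (j * δ.C c) * m⁻¹ * (m * (j * δ.C c) * m⁻¹)) * m := by
          group
      _ = 1 := by rw [← e2, sq]; group
  rcases (by decide : ∀ c : F, c * c + c = 0 → c = 0 ∨ c = 1) c (ok.C_inj e3) with rfl | rfl
  · exact ⟨m, w, hm, by rw [e2, δ.C_zero, mul_one]⟩
  · refine ⟨m * δ.C (ω * ω), _, ok.InD_mul hm (ok.InD_C _), ?_⟩
    have e4 : δ.C (ω * ω) * j * (δ.C (ω * ω))⁻¹ = j * δ.C 1 := by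
      have t := jC (ω * ω)
      have t' := jC ω
      calc δ.C (ω * ω) * j * (δ.C (ω * ω))⁻¹ = (j * δ.C ω * j⁻¹) * j * δ.C (ω * ω) := by
            rw [δ.C_inv, t']
        _ = j * (δ.C ω * δ.C (ω * ω)) := by group
        _ = j * δ.C 1 := by rw [← δ.C_add, show ω + ω * ω = (1 : F) by decide]
    rw [e2, ← e4]; group

/-- involutions acting as `sg` -/
theorem Hp.conj_tau {g τ : G} (h : δ.Hp g τ) {d : G} {v : V4} (hd : δ.InD d v)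
    (sq : τ * d * (τ * d) = 1) : ∃ m w, δ.InD m w ∧ τ * d = m * τ * m⁻¹ :=
  h.toH0.c_conj_sg (μ := 0) h.sq h.tC (h.ac.congr fun v => by
    rw [Function.comp]; congr 1; ext <;> simp [f1]) hd sq

/-- an involution acting like `j` lies in `j D` -/
theorem H0.c_coset {g : G} (h : δ.H0 g) {i j : G} (i2 : i * i = 1) (j2 : j * j = 1) (co : δ.CO j)
    (nd : δ.ND j) (cz : δ.CZ (j * i)) (ac : δ.Ac (j * i) id) : ∃ d v, δ.InD d v ∧ i = j * d := by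
  have ok := h.c_ok
  have ji : j⁻¹ = j := inv_eq_of_mul_eq_one_right j2
  obtain ⟨d, v, o, hd, ho, e⟩ := ok.ker cz ac
  have e1 : i = j * d * o := by rw [mul_assoc, ← e, ← mul_assoc, j2, one_mul]
  obtain ⟨v', hv'⟩ := nd d v hd
  have p8 : (j * d) ^ 2 ^ 3 = 1 := by
    rw [show 2 ^ 3 = 2 * 4 from rfl, pow_mul, pow_two,
      show j * d * (j * d) = j * d * j⁻¹ * d by rw [ji]; group]
    exact ok.InD_four (ok.InD_mul hv' hd)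
  have o1 : o = 1 := ho.eq_one ((co.mul hd.co) o ho) p8 (by
    rw [← e1, show 2 ^ 3 = 2 * 4 from rfl, pow_mul, pow_two, i2, one_pow])
  exact ⟨d, v, hd, by rw [e1, o1, mul_one]⟩

omit [Finite G] in
theorem c_dd_zl (ok : δ.OK) {i n : G} {μ : F} (i2 : i * i = 1) (i1 : i ≠ 1) (c : Commute n δ.z)
    (e : i = n * δ.r μ * n⁻¹) : DD δ.ι i ∧ δ.ZL i := by
  have k : n⁻¹ * i * n⁻¹⁻¹ ∈ Kc δ.ι := by
    rw [e, show n⁻¹ * (n * δ.r μ * n⁻¹) * n⁻¹⁻¹ = δ.r μ by group]; exact ok.rK μ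
  exact ⟨⟨i2, i1, _, k⟩, _, k, by
    rw [c.inv_left.eq, mul_inv_cancel_right]; exact ⟨_, rfl⟩⟩

theorem Hp.cl {g τ : G} (h : δ.Hp g τ) {i : G} (i2 : i * i = 1) (i1 : i ≠ 1) (hi : δ.MM i)
    (ev : δ.Ev τ i) : (DD δ.ι i ∧ δ.ZL i) ∨
      (¬ DD δ.ι i ∧ ((∃ v, δ.InD i v) ∨ ∃ m v, δ.InD m v ∧ i = m * τ * m⁻¹)) := by
  have ok := h.toH0.c_ok
  have lam := h.toH0.c_lam
  obtain ⟨k, ⟨cz, ac⟩ | ⟨cz, ac⟩⟩ := ev
  · rcases h.toH0.inv_ev cz ac (c := 0) (by rw [i2, δ.C_zero]) with ⟨v, hv⟩ | a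
    · by_cases dd : DD δ.ι i
      · obtain ⟨m, -, mz, -, e⟩ := h.ci.G2 hv ((h.ci.DV_iff hv).1 dd)
        exact Or.inl (c_dd_zl ok i2 i1 (mz 1) e)
      · exact Or.inr ⟨dd, Or.inl ⟨v, hv⟩⟩
    · exact Or.inl a
  have ei : i = τ * (τ * i) := by rw [← mul_assoc, h.sq, one_mul]
  have ai : δ.Ac i (sg ∘ LS.ev k) := ei ▸ h.ac.mul ac
  have kk : ∀ v, LS.ev k (LS.ev k v) = v := fun v => by
    have := ok.Ac_uniq (ai.mul ai) (i2 ▸ δ.c_ac_one) (lam v.2.2.1)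
    simp only [Function.comp, id] at this
    rwa [sg_ev, sg_sg] at this
  rcases ev_invol kk with e | ⟨j, μ, μ0, e⟩
  · obtain ⟨d, v, hd, e'⟩ := h.toH0.c_coset i2 h.sq h.co' h.ac.nd cz (ac.congr e)
    obtain ⟨m, w, hm, e''⟩ := h.conj_tau hd (e' ▸ i2)
    refine Or.inr ⟨fun dd => h.ndd ?_, Or.inr ⟨m, w, hm, e'.trans e''⟩⟩
    have := dd.conj m⁻¹
    rwa [e', e'', show m⁻¹ * (m * τ * m⁻¹) * m⁻¹⁻¹ = τ by group] at this
  obtain ⟨m, -, mz, am⟩ := h.ci.G1 j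
  obtain ⟨j', hj, hj'⟩ := ev_inv j
  have am' := ok.Ac_inv am hj
  have iC : ∀ c, i * δ.C c * i⁻¹ = δ.C (c * c) := fun c => by
    rw [ei, show τ * (τ * i) * δ.C c * (τ * (τ * i))⁻¹ = τ * (τ * i * δ.C c * (τ * i)⁻¹) * τ⁻¹ by
      group, (cz c).eq, mul_inv_cancel_right, h.tC]
  have i'C : ∀ c, m * i * m⁻¹ * δ.C c * (m * i * m⁻¹)⁻¹ = δ.C (c * c) := fun c => by
    rw [show m * i * m⁻¹ * δ.C c * (m * i * m⁻¹)⁻¹ = m * (i * (m⁻¹ * δ.C c * m⁻¹⁻¹) * i⁻¹) * m⁻¹ by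
      group, (mz.inv c).eq, mul_inv_cancel_right, iC, (mz _).eq, mul_inv_cancel_right]
  have ai' : δ.Ac (m * i * m⁻¹) (sg ∘ f1 1 μ) := ((am.mul ai).mul am').congr fun v => by
    simp only [Function.comp]
    rw [← sg_ev, e, hj']
  have i'2 : m * i * m⁻¹ * (m * i * m⁻¹) = 1 := by
    rw [show m * i * m⁻¹ * (m * i * m⁻¹) = m * (i * i) * m⁻¹ by group, i2]; group
  -- the standard involution acting as `sg ∘ f1 1 μ`
  obtain ⟨a, ha⟩ := h.tL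
  have qx := h.gr μ
  have qz : δ.CZ (g * δ.r μ * g⁻¹) := fun c => qx.1.1 0 c
  have a0 : δ.Ac (τ * (g * δ.r μ * g⁻¹)) (sg ∘ f1 1 μ) := h.ac.mul (h.ci.1.a1 _ _ _ qx)
  have jC : ∀ c, τ * (g * δ.r μ * g⁻¹) * δ.C c * (τ * (g * δ.r μ * g⁻¹))⁻¹ = δ.C (c * c) := fun c => by
    rw [show τ * (g * δ.r μ * g⁻¹) * δ.C c * (τ * (g * δ.r μ * g⁻¹))⁻¹ =
      τ * (g * δ.r μ * g⁻¹ * δ.C c * (g * δ.r μ * g⁻¹)⁻¹) * τ⁻¹ by group, (qz c).eq,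
      mul_inv_cancel_right, h.tC]
  obtain ⟨x, hx⟩ := ok.exists_Qx (a * (μ * μ)) 0
  have ex : τ * (g * δ.r μ * g⁻¹) = g * x * δ.r μ * (g * x)⁻¹ := by
    have := hx.1.2 μ (lam μ)
    rw [mul_zero, (by decide : ∀ a μ : F, μ ≠ 0 → μ * (a * (μ * μ)) = a) a μ μ0,
      show δ.r μ * δ.U a 0 0 = δ.U a 0 0 * δ.r μ from (ok.r_L μ _).eq] at this
    rw [ha, show g * x * δ.r μ * (g * x)⁻¹ = g * (x * δ.r μ * x⁻¹) * g⁻¹ by group, this]; group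
  have j2 : τ * (g * δ.r μ * g⁻¹) * (τ * (g * δ.r μ * g⁻¹)) = 1 := by
    rw [ex, show g * x * δ.r μ * (g * x)⁻¹ * (g * x * δ.r μ * (g * x)⁻¹) =
      g * x * (δ.r μ * δ.r μ) * (g * x)⁻¹ by group, ok.r_sq (lam μ)]; group
  generalize τ * (g * δ.r μ * g⁻¹) = j0 at a0 jC ex j2
  have co : δ.CO j0 := ex ▸ ((h.co.mul hx.2.1).mul (CO_r (lam μ))).mul (h.co.mul hx.2.1).inv
  obtain ⟨d, v, hd, e1⟩ := h.toH0.c_coset i'2 j2 co a0.nd (c_cz_of jC i'C)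
    ((a0.mul ai').congr fun v => by
      simp only [Function.comp, id]
      rw [← ev_f1, ← ev_f1, sg_ev, sg_sg, ev_f1, ev_f1, f1_f1, SA.two]
      ext <;> simp [f1])
  obtain ⟨m', w, hm', e2⟩ := h.toH0.c_conj_sg j2 jC a0 hd (e1 ▸ i'2)
  refine Or.inl (c_dd_zl ok i2 i1 (n := m⁻¹ * m' * (g * x)) (μ := μ)
    (((mz.inv 1).mul_left (ok.InD_cz hm' 1)).mul_left (h.gz.mul_left (hx.1.1 0 1))) ?_)
  calc i = m⁻¹ * (m * i * m⁻¹) * m := by group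
    _ = _ := by rw [e1, e2, ex]; group

theorem Hp.tau_z {g τ : G} (h : δ.Hp g τ) : ∃ m, δ.CO m ∧ τ = m * δ.z * m⁻¹ := by
  have ok := h.toH0.c_ok
  obtain ⟨a, ha⟩ := h.tL
  obtain ⟨m, co, e⟩ := h.ci.conj_z (ok.InD_U a 0 0)
    (by rw [δ.U_mul, SA.two, mul_zero, add_zero, add_zero, δ.U_zero])
    (fun e => h.c_ncz (by
      rw [ha, e, mul_one, mul_inv_cancel]; exact fun c => Commute.one_left _))
    (ok.nDD_U a 0 0)
  exact ⟨g * m, h.co.mul co, by rw [ha, e]; group⟩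

end Dat

end Cfsg.Agent.LS
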