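import Cfsg.Agent.H29.PslDict
import Cfsg.Agent.H29.F4

/-! Standard subgroups isomorphic to `L₃(4)`: vocabulary (notes/LS.md). -/

set_option autoImplicit false

namespace Cfsg.Agent.LS

open Subgroup H29

abbrev F : Type := F4

/-- a primitive cube root of unity -/
abbrev ω : F := F4.w

abbrev P : Type := Matrix.ProjectiveSpecialLinearGroup (Fin 3) F

/-- the upper unitriangular matrices -/
def u (a b c : F) : P :=
  QuotientGroup.mk (⟨!![1, a, c; 0, 1, b; 0, 0, 1], by simp [Matrix.det_fin_three]⟩ :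
    Matrix.SpecialLinearGroup (Fin 3) F)

/-- the Cartan element: `u a b c ↦ u (ω a) (ω b) (ω² c)` -/
def hh : P :=
  QuotientGroup.mk (⟨!![ω, 0, 0; 0, 1, 0; 0, 0, ω * ω], by
    simp only [Matrix.det_fin_three]; decide⟩ : Matrix.SpecialLinearGroup (Fin 3) F)

/-- `u a 0 c ↦ u c 0 a` -/
def w1 : P :=
  QuotientGroup.mk (⟨!![1, 0, 0; 0, 0, 1; 0, 1, 0], by
    simp only [Matrix.det_fin_three]; decide⟩ : Matrix.SpecialLinearGroup (Fin 3) F)

/-- the antidiagonal matrix -/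
def w0 : P :=
  QuotientGroup.mk (⟨!![0, 0, 1; 0, 1, 0; 1, 0, 0], by
    simp only [Matrix.det_fin_three]; decide⟩ : Matrix.SpecialLinearGroup (Fin 3) F)

/-- diagonal automorphisms: `u a b c ↦ u (l a) (m b) (l m c)` -/
noncomputable def dg (l m : Fˣ) : MulAut P :=
  pslConj (Fin 3) F (Matrix.GeneralLinearGroup.mkOfDetNeZero
    !![(l : F) * m, 0, 0; 0, m, 0; 0, 0, 1] (by simp [Matrix.det_fin_three]))

/-- the Frobenius automorphism of `F` -/
def frob : RingAut F where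
  toFun x := x * x
  invFun x := x * x
  left_inv := by intro x; revert x; decide
  right_inv := by intro x; revert x; decide
  map_mul' := by decide
  map_add' := by decide

/-- the field automorphism: `u a b c ↦ u a² b² c²` -/
noncomputable def fr : MulAut P := pslField (Fin 3) F frob

/-- the graph automorphism: `u a b c ↦ u b a (c + a b)` -/
noncomputable def gr : MulAut P := MulAut.conj w0 * invT (Fin 3) F

/-! ### the Sylow 2-subgroup `T ⋊ ⟨φ, γ⟩` of `Aut L₃(4)` -/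

/-- `⟨a, b, c, j, k⟩` stands for `u a b c · φ^j · γ^k` -/
@[ext] structure SA where
  a : F
  b : F
  c : F
  j : Bool
  k : Bool
  deriving DecidableEq

namespace SA

instance : Fintype SA := Fintype.ofEquiv (F × F × F × Bool × Bool)
  ⟨fun p => ⟨p.1, p.2.1, p.2.2.1, p.2.2.2.1, p.2.2.2.2⟩, fun x => (x.a, x.b, x.c, x.j, x.k),
    fun _ => rfl, fun _ => rfl⟩

def fz (j : Bool) (x : F) : F := cond j (x * x) x

/-- the action of `φ^j γ^k` on coordinates -/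
def ac (j k : Bool) (a b c : F) : F × F × F :=
  (fz j (cond k b a), fz j (cond k a b), fz j (cond k (c + a * b) c))

instance : Mul SA := ⟨fun x y =>
  ⟨x.a + (ac x.j x.k y.a y.b y.c).1, x.b + (ac x.j x.k y.a y.b y.c).2.1,
    x.c + (ac x.j x.k y.a y.b y.c).2.2 + x.a * (ac x.j x.k y.a y.b y.c).2.1, xor x.j y.j, xor x.k y.k⟩⟩

instance : One SA := ⟨⟨0, 0, 0, false, false⟩⟩

instance : Inv SA := ⟨fun x =>
  ⟨(ac x.j x.k x.a x.b (x.c + x.a * x.b)).1, (ac x.j x.k x.a x.b (x.c + x.a * x.b)).2.1,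
    (ac x.j x.k x.a x.b (x.c + x.a * x.b)).2.2, x.j, x.k⟩⟩

theorem mul_def (x y : SA) : x * y =
    ⟨x.a + (ac x.j x.k y.a y.b y.c).1, x.b + (ac x.j x.k y.a y.b y.c).2.1,
      x.c + (ac x.j x.k y.a y.b y.c).2.2 + x.a * (ac x.j x.k y.a y.b y.c).2.1, xor x.j y.j,
      xor x.k y.k⟩ := rfl

theorem fz_add (j : Bool) (x y : F) : fz j (x + y) = fz j x + fz j y := by revert j x y; decide

theorem fz_mul (j : Bool) (x y : F) : fz j (x * y) = fz j x * fz j y := by revert j x y; decide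

theorem fz_fz (i j : Bool) (x : F) : fz i (fz j x) = fz (xor i j) x := by revert i j x; decide

theorem two (x : F) : x + x = 0 := by revert x; decide

instance : Group SA := Group.ofLeftAxioms
  (fun x y z => by
    obtain ⟨a, b, c, j, k⟩ := x
    obtain ⟨a', b', c', j', k'⟩ := y
    obtain ⟨a'', b'', c'', j'', k''⟩ := z
    have t : (2 : F) = 0 := by decide
    cases k <;> cases k' <;> simp only [mul_def, ac, cond_true, cond_false, fz_add, fz_mul, fz_fz,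
      Bool.xor_assoc, Bool.true_xor, Bool.false_xor, Bool.not_true, Bool.not_false, mk.injEq,
      Bool.not_not, and_true] <;> refine ⟨by ring, by ring, ?_⟩ <;>
      first | ring1 | linear_combination (-(fz (j ^^ j') b'' * fz (j ^^ j') a'')) * t |
        linear_combination (-(fz j a' * fz (j ^^ j') b'')) * t |
        linear_combination (-(fz (j ^^ j') b'' * fz (j ^^ j') a'') - fz j a' * fz (j ^^ j') a'') * t)
  (by decide +kernel) (by decide +kernel)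

/-- the elements of `T` -/
def inT (x : SA) : Prop := x.j = false ∧ x.k = false

/-- the elements of `Z(T)` -/
def inZ (x : SA) : Prop := x.a = 0 ∧ x.b = 0 ∧ x.j = false ∧ x.k = false

instance (x : SA) : Decidable x.inT := inferInstanceAs (Decidable (_ ∧ _))

instance (x : SA) : Decidable x.inZ := inferInstanceAs (Decidable (_ ∧ _))

/-- the automorphism of `L₃(4)` that `x` stands for -/
noncomputable def aut (x : SA) : MulAut P :=
  MulAut.conj (u x.a x.b x.c) * cond x.j fr 1 * cond x.k gr 1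

end SA

/-! ### coordinates on `D / Z` -/

/-- `(a, b, ρ, σ)` -/
abbrev V4 : Type := F × F × F × F

def q4 (v : V4) : F := v.1 * v.2.1 + v.2.2.1 * v.2.2.2

def b4 (v w : V4) : F := v.1 * w.2.1 + w.1 * v.2.1 + v.2.2.1 * w.2.2.2 + w.2.2.1 * v.2.2.2

def swp (v : V4) : V4 := (v.2.1, v.1, v.2.2.1, v.2.2.2)

/-- the Siegel transformations fixing the first basis vector -/
def f1 (k μ : F) (v : V4) : V4 :=
  (v.1 + k * (μ * μ * μ) * v.2.1 + μ * v.2.2.1 + k * (μ * μ) * v.2.2.2, v.2.1,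
    v.2.2.1 + k * (μ * μ) * v.2.1, v.2.2.2 + μ * v.2.1)

def f2 (k μ : F) (v : V4) : V4 := swp (f1 k μ (swp v))

/-- replace `0` by `1` -/
def nz : F → F
  | .o => .i
  | x => x

def rot (n : F) (v : V4) : V4 := (v.1, v.2.1, nz n * v.2.2.1, nz n * nz n * v.2.2.2)

def sw0 (v : V4) : V4 := (v.2.1, v.1, v.2.2.2, v.2.2.1)

/-- the semilinear involution fixing the five special points -/
def sg (v : V4) : V4 := (v.1 * v.1, v.2.1 * v.2.1, v.2.2.2 * v.2.2.2, v.2.2.1 * v.2.2.1)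

/-- indices of the 60 elements of `Ω₄⁻(2) ≅ A₅` (with repetitions) -/
abbrev Ix : Type := Bool × F × F × F

def ev (i : Ix) (v : V4) : V4 := f1 1 i.2.1 (rot i.2.2.1 (cond i.1 (sw0 (f1 1 i.2.2.2 v)) v))

/-- the 15 vectors on the five special points -/
def NV (v : V4) : Prop := v ≠ 0 ∧ q4 v = 0 ∧ ∃ l : F, sg v = l • v

instance (v : V4) : Decidable (NV v) := inferInstanceAs (Decidable (_ ∧ _))

/-- the other 60 singular vectors -/
def DV (v : V4) : Prop := v ≠ 0 ∧ q4 v = 0 ∧ ¬ NV v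

instance (v : V4) : Decidable (DV v) := inferInstanceAs (Decidable (_ ∧ _))

/-- the parameters of a Sylow 2-subgroup of `C(L)`: all of `F`, or the prime field -/
def Lam (e : Bool) (ρ : F) : Prop := e = true ∨ ρ = 0 ∨ ρ = 1

instance (e : Bool) (ρ : F) : Decidable (Lam e ρ) := inferInstanceAs (Decidable (_ ∨ _))

/-! ### frames -/

variable {G : Type*} [Group G]

/-- `C(L)` -/
abbrev Kc (ι : P →* G) : Subgroup G := centralizer (ι.range : Set G)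

/-- `N(L)` -/
abbrev Nn (ι : P →* G) : Subgroup G := normalizer (ι.range : Set G)

def cj (g : G) (ι : P →* G) : P →* G := (MulAut.conj g).toMonoidHom.comp ι

def tw (ι : P →* G) (β : MulAut P) : P →* G := ι.comp β.toMonoidHom

/-- `L = ι.range` is standard -/
structure Hy (ι : P →* G) : Prop where
  inj : Function.Injective ι
  ti : ∀ g, ∀ k ∈ Kc ι, k * k = 1 → k ≠ 1 → g * k * g⁻¹ ∈ Kc ι → g ∈ Nn ι
  std : ∀ g, ¬ ∀ p p', Commute (ι p) (g * ι p' * g⁻¹)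
  ev : ∃ k ∈ Kc ι, k * k = 1 ∧ k ≠ 1

/-- `ι'` is a frame of a conjugate of `L` -/
def Fr (ι ι' : P →* G) : Prop := ∃ g β, ι' = cj g (tw ι β)

/-- the involutions in the conjugates of `C(L)` -/
def DD (ι : P →* G) (d : G) : Prop := d * d = 1 ∧ d ≠ 1 ∧ ∃ g, g * d * g⁻¹ ∈ Kc ι

/-- a frame, a parametrisation of a Sylow 2-subgroup `R` of `K = C(L)`, and `g` with `R^g ≤ R Z` -/
structure Dat (G : Type*) [Group G] where
  ι : P →* G
  e : Bool
  r : F → G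
  g : G

namespace Dat

variable (δ : Dat G)

def U (a b c : F) : G := δ.ι (u a b c)

def C (c : F) : G := δ.U 0 0 c

def z : G := δ.C 1

def h : G := δ.ι hh

def w : G := δ.ι w1

def t : G := δ.r 1

def cj (m : G) : Dat G := ⟨LS.cj m δ.ι, δ.e, fun ρ => m * δ.r ρ * m⁻¹, m * δ.g * m⁻¹⟩

/-- exchange `V₁` and `V₂` -/
noncomputable def sw : Dat G := ⟨tw δ.ι gr, δ.e, δ.r, δ.g⟩

structure OK : Prop where
  hy : Hy δ.ι
  rK : ∀ ρ, δ.r ρ ∈ Kc δ.ι
  radd : ∀ a b, Lam δ.e a → Lam δ.e b → δ.r (a + b) = δ.r a * δ.r b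
  rne : ∀ a, Lam δ.e a → a ≠ 0 → δ.r a ≠ 1
  gT : ∀ a b c, ∃ a' b' c', δ.g * δ.U a b c * δ.g⁻¹ = δ.U a' b' c'
  gR : ∀ ρ, Lam δ.e ρ → δ.r ρ * δ.C ρ ∈ Kc (LS.cj δ.g δ.ι)
  cen : ∀ k ∈ Kc δ.ι, Commute k δ.t → ∃ ρ, Lam δ.e ρ ∧ k * δ.r ρ ∈ Kc (LS.cj δ.g δ.ι)
  syl : ∀ k ∈ Kc δ.ι, k * k = 1 → ∃ m ∈ Kc δ.ι, ∃ ρ, Lam δ.e ρ ∧ m * k * m⁻¹ = δ.r ρ

/-- the elements of odd order in `C_K(R)` -/
def Od (o : G) : Prop := o ∈ Kc δ.ι ∧ (∀ ρ, Lam δ.e ρ → Commute o (δ.r ρ)) ∧ Odd (orderOf o)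

def CO (x : G) : Prop := ∀ o, δ.Od o → Commute x o

/-- translations on the conjugates of `R` in `R V₁` -/
def Tr (x : G) (μ σ : F) : Prop := (∀ a c, Commute x (δ.U a 0 c)) ∧
  ∀ ρ, Lam δ.e ρ → x * δ.r ρ * x⁻¹ = δ.r ρ * δ.U (ρ * μ) 0 (ρ * σ)

/-- the elements of `Q₁` -/
def Qx (x : G) (μ σ : F) : Prop := δ.Tr x μ σ ∧ δ.CO x ∧ x ^ 4 = 1

/-- the elements of `T₁` -/
def Ty (y : G) (σ : F) : Prop := (∀ a b c, Commute y (δ.U a b c)) ∧
  (∀ ρ, Lam δ.e ρ → y * δ.r ρ * y⁻¹ = δ.r ρ * δ.C (ρ * σ)) ∧ δ.CO y ∧ y ^ 4 = 1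

/-- the norm map of `h` -/
def nm (x : G) : G := x * (δ.h * x * δ.h⁻¹) * (δ.h⁻¹ * x * δ.h)

/-- the elements of `W = [T₁, h]` -/
def Wy (y : G) (σ : F) : Prop := δ.Ty y σ ∧ ∃ c, δ.nm y = δ.C c

/-- the elements of `D = T T₁` with their coordinates modulo `Z` -/
def InD (d : G) (v : V4) : Prop := Lam δ.e v.2.2.1 ∧
  ∃ c y, δ.Wy y v.2.2.2 ∧ d = δ.U v.1 v.2.1 c * δ.r v.2.2.1 * y

/-- `n` normalises `D` and acts as `f` on `D / Z` -/
def Ac (n : G) (f : V4 → V4) : Prop := ∀ d v, δ.InD d v → δ.InD (n * d * n⁻¹) (f v)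

def ND (n : G) : Prop := ∀ d v, δ.InD d v → ∃ v', δ.InD (n * d * n⁻¹) v'

def CZ (n : G) : Prop := ∀ c, Commute n (δ.C c)

def NZ (n : G) : Prop := ∀ c, ∃ c', n * δ.C c * n⁻¹ = δ.C c'

/-- the elements of `E₁ = [Q₁, h] V₁` -/
def Ex (x : G) (μ σ : F) : Prop := δ.Qx x μ σ ∧ ∃ a c, δ.nm x = δ.U a 0 c

/-- the action of `Q₁` and `Q₂` on `D / Z` -/
structure Kk (k₁ k₂ : F) : Prop where
  ok : δ.OK
  a1 : ∀ x μ σ, δ.Qx x μ σ → δ.Ac x (f1 k₁ μ)
  a2 : ∀ x μ σ, δ.sw.Qx x μ σ → δ.Ac x (f2 k₂ μ)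

/-- the Suzuki configuration -/
def CI : Prop := δ.Kk 1 1 ∧ δ.e = true

def Dg : Subgroup G := closure {d | ∃ v, δ.InD d v}

def Wg : Subgroup G := closure {y | ∃ σ, δ.Wy y σ}

def Ug : Subgroup G := closure {x | ∃ μ σ, δ.Ex x μ σ ∨ δ.sw.Ex x μ σ}

/-- the candidate for `O₂(C(z))` -/
def Qg : Subgroup G :=
  closure {τ | τ * τ = 1 ∧ Commute τ δ.z ∧ τ * δ.C ω * τ⁻¹ = δ.C ω * δ.z ∧ ¬ DD δ.ι τ}

/-- `g` moves `(R, V₂, z)` to `(R'', V₁, z)` with `R'' ≤ Q₁`, `R'' ∩ D = 1` -/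
structure H0 (g : G) : Prop where
  ci : δ.CI
  co : δ.CO g
  gz : Commute g δ.z
  gV : ∀ b c, ∃ a c', g * δ.U 0 b c * g⁻¹ = δ.U a 0 c'
  gr : ∀ ρ, δ.Qx (g * δ.r ρ * g⁻¹) ρ 0

/-- `τ` is an involution of `L^g` acting as `sg` -/
structure Hp (g τ : G) : Prop extends δ.H0 g where
  tL : ∃ a, τ = g * δ.U a 0 0 * g⁻¹
  tC : ∀ c, τ * δ.C c * τ⁻¹ = δ.C (c * c)
  ac : δ.Ac τ sg

/-- `n` induces an even permutation of the five special points -/
def Ev (τ n : G) : Prop := ∃ i, δ.CZ n ∧ δ.Ac n (ev i) ∨ δ.CZ (τ * n) ∧ δ.Ac (τ * n) (ev i)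

/-- `C(Z) / D O ≅ A₅` -/
structure Fn (g τ : G) : Prop extends δ.Hp g τ where
  nr : ∀ n, δ.CZ n → ∃ i, δ.Ac n (ev i)

end Dat

/-- the shape of a Sylow 2-subgroup of `L₃(16)` or `L₃(4) × L₃(4)` -/
structure UW (U W : Subgroup G) : Prop where
  le : W ≤ U
  cU : Nat.card U = 4096
  cW : Nat.card W = 16
  cen : ∀ w ∈ W, ∀ x ∈ U, Commute w x
  el : ∀ w ∈ W, w * w = 1
  sq : ∀ x ∈ U, x * x ∈ W

end Cfsg.Agent.LS
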