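import Cfsg.Agent.LS.Maps

/-! More finite facts on the coordinate maps (notes/LS.md, sections Maps, Z2). -/

set_option autoImplicit false
set_option maxRecDepth 100000
set_option synthInstance.maxSize 4096

namespace Cfsg.Agent.LS

open Subgroup H29 Mp
open scoped commutatorElement

theorem ev_f1 (μ : F) (v : V4) : ev (false, μ, 0, 0) v = f1 1 μ v := by revert μ v; decide +kernel

theorem ev_rot (ν : F) (v : V4) : ev (false, 0, ν, 0) v = rot ν v := by revert ν v; decide +kernel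

theorem sw0_word (v : V4) : sw0 v = f1 1 1 (f2 1 1 (f1 1 1 v)) := by revert v; decide +kernel

theorem Mp.lin_f2 (k μ : F) : Lin (f2 k μ) := lin_swp.comp ((lin_f1 k μ).comp lin_swp)

theorem rot_word (ν : F) : ∃ a b c d, ∀ v, rot ν v = f1 1 a (f2 1 b (f1 1 c (f2 1 d v))) := by
  obtain ⟨a, b, c, d, h⟩ := (by decide +kernel : ∀ ν : F, ∃ a b c d : F,
    Ag (rot ν) fun v => f1 1 a (f2 1 b (f1 1 c (f2 1 d v)))) ν
  exact ⟨a, b, c, d, h.ext (lin_rot ν)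
    ((lin_f1 1 a).comp ((lin_f2 1 b).comp ((lin_f1 1 c).comp (lin_f2 1 d))))⟩

theorem b4_ev (i : Ix) (v w : V4) : b4 (ev i v) (ev i w) = b4 v w := Mp.b4_ev i v w

theorem sg_swp (v : V4) : sg (swp v) = swp (sg v) := rfl

theorem ev_reg {i : Ix} {v : V4} (hv : DV v) (h : ev i v = v) (w : V4) : ev i w = w := by
  obtain ⟨j, rfl⟩ := DV_orb hv
  obtain ⟨j', h1, h2⟩ := ev_inv j
  obtain ⟨k, hk⟩ := ev_mul i j
  obtain ⟨k', hk'⟩ := ev_mul j' k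
  have := ((by decide +kernel : ∀ i : Ix, ev i (0, 0, 1, 0) = (0, 0, 1, 0) → Ag (ev i) fun v => v) k'
    (by rw [← hk', ← hk, h, h1])).ext (lin_ev _) lin_id (ev j' w)
  rw [← hk', ← hk, h2] at this
  rw [← h2 (ev i w), this, h2]

theorem NV_pt {v w : V4} (hv : NV v) (hw : NV w) (h : b4 v w = 0) : ∃ l : F, w = l • v :=
  (by decide +kernel : ∀ v : V4, NV v → ∀ w : V4, NV w → b4 v w = 0 → ∃ l : F, w = l • v) v hv w hw h

theorem NV5_orb {v : V4} (h : NV v) (e : sg v = v) : ∃ i, ev i v = (1, 0, 0, 0) := by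
  revert v; decide +kernel

theorem cent_V4 {f : V4 → V4} {i : Ix} (h : (∀ v, f v = ev i v) ∨ ∀ v, f v = ev i (swp v))
    (c : ∀ ρ v, f (f1 1 ρ v) = f1 1 ρ (f v)) : ∃ μ, ∀ v, f v = f1 1 μ v := by
  rcases h with h | h <;> simp only [h] at c ⊢
  · obtain ⟨μ, e⟩ := (by decide +kernel : ∀ i : Ix, (∀ ρ : F, ev i (f1 1 ρ (0, 0, 1, 0)) =
      f1 1 ρ (ev i (0, 0, 1, 0))) → ∃ μ, Ag (ev i) (f1 1 μ)) i fun ρ => c ρ _
    exact ⟨μ, e.ext (lin_ev _) (lin_f1 _ _)⟩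
  · exact absurd (fun ρ => ag_of (c ρ)) ((by decide +kernel : ∀ i : Ix, ¬ ∀ ρ : F,
      Ag (fun v => ev i (swp (f1 1 ρ v))) fun v => f1 1 ρ (ev i (swp v))) i)

theorem ev_five {i : Ix} (h : ∀ v, NV v → sg v = v → ev i v = v) (w : V4) : ev i w = w :=
  ((by decide +kernel : ∀ i : Ix, ev i (1, 0, 0, 0) = (1, 0, 0, 0) → ev i (0, 1, 0, 0) = (0, 1, 0, 0) →
    ev i (1, 1, 1, 1) = (1, 1, 1, 1) → Ag (ev i) fun v => v) i (h _ (by decide) (by decide))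
    (h _ (by decide) (by decide)) (h _ (by decide) (by decide))).ext (lin_ev _) lin_id w

theorem b4_fix {v : V4} (h : ∀ w, sg w = w → b4 v w = 0) : v = 0 :=
  (by decide +kernel : ∀ v : V4, b4 v (1, 0, 0, 0) = 0 → b4 v (0, 1, 0, 0) = 0 → b4 v (0, 0, 1, 1) = 0 →
    b4 v (0, 0, ω, ω * ω) = 0 → v = 0) v (h _ (by decide)) (h _ (by decide)) (h _ (by decide))
    (h _ (by decide))

theorem fix_q4 {v : V4} (h : sg v = v) : q4 v = 0 ∨ q4 v = 1 := by revert v; decide +kernel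

theorem fix_b4 {v w : V4} (h : sg v = v) (h' : sg w = w) : b4 v w = 0 ∨ b4 v w = 1 :=
  (by decide +kernel : ∀ v : V4, sg v = v → ∀ w : V4, sg w = w → b4 v w = 0 ∨ b4 v w = 1) v h w h'

theorem f1_rot_four {μ ν : F} (h : ∀ v, f1 1 μ (rot ν (f1 1 μ (rot ν (f1 1 μ (rot ν (f1 1 μ
    (rot ν v))))))) = v) (v : V4) : rot ν v = v :=
  ((by decide +kernel : ∀ μ ν : F, Ag (fun v => f1 1 μ (rot ν (f1 1 μ (rot ν (f1 1 μ (rot ν (f1 1 μ
    (rot ν v)))))))) (fun v => v) → Ag (rot ν) fun v => v) μ ν (ag_of h)).ext (lin_rot _) lin_id v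

theorem norm_word (k₁ k₂ : F) : (k₁ = 0 ∧ k₂ = 0) ∨ k₁ * k₂ = 1 ∨ ∃ μ μ' x ρ, ρ ≠ 0 ∧
    (f2 k₂ μ (f1 k₁ μ' (0, 1, 0, 0)) = (x, 0, ρ, 0) ∨
      f1 k₁ μ (f2 k₂ μ' (1, 0, 0, 0)) = (0, x, ρ, 0)) := by revert k₁ k₂; decide +kernel

theorem cover (M : AddSubgroup V4) (hM : ∀ v ∈ M, ¬ DV v)
    (tr : ∀ v w, v ∉ M → w ∉ M → ∃ i, ev i v + w ∈ M ∨ ev i (swp v) + w ∈ M) : False := by
  by_cases hN : ∀ v, NV v → v ∈ M
  · exact hM _ (M.add_mem (M.add_mem (hN (1, 1, 1, 1) (by decide)) (hN (ω * ω, ω * ω, 1, ω) (by decide)))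
      (M.add_mem (hN (ω, 0, 0, 0) (by decide)) (hN (0, ω, 0, 0) (by decide)))) (by decide)
  push Not at hN
  obtain ⟨v0, ⟨n0, q0, l, hl⟩, h0⟩ := hN
  have key : ∀ v : V4, ∃ ρ : F, v + (0, 0, ρ, 0) ∈ M := fun v => by
    have k : ∀ x : Bool × F, ∃ u ∈ insert 0 (Finset.univ.filter fun u : V4 => NV u ∧ sg u = l • u),
        u + (cond x.1 v 0 + (0, 0, x.2, 0)) ∈ M := fun x => by
      by_cases hx : cond x.1 v 0 + (0, 0, x.2, 0) ∈ M
      · exact ⟨0, Finset.mem_insert_self _ _, by rwa [zero_add]⟩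
      · obtain ⟨i, e | e⟩ := tr v0 _ h0 hx
        · exact ⟨_, Finset.mem_insert_of_mem (Finset.mem_filter.2 ⟨Finset.mem_univ _,
            (NV_ev i _).2 ⟨n0, q0, l, hl⟩, by rw [sg_ev, hl, ev_smul]⟩), e⟩
        · have hs : sg (swp v0) = l • swp v0 := by rw [sg_swp, hl]; rfl
          exact ⟨_, Finset.mem_insert_of_mem (Finset.mem_filter.2 ⟨Finset.mem_univ _,
            (NV_ev i _).2 ⟨fun c => n0 (show swp (swp v0) = swp 0 from congrArg swp c), by rw [← q0, q4, q4, mul_comm]; rfl, l, hs⟩,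
              by rw [sg_ev, hs, ev_smul]⟩), e⟩
    choose u hu hu' using k
    obtain ⟨⟨a, ρ⟩, -, ⟨b, σ⟩, -, ne, e⟩ := Finset.exists_ne_map_eq_of_card_lt_of_maps_to
      (s := Finset.univ) ((by decide +kernel : ∀ l : F, (insert 0 (Finset.univ.filter fun u : V4 =>
        NV u ∧ sg u = l • u)).card < (Finset.univ : Finset (Bool × F)).card) l) fun x _ => hu x
    have := M.sub_mem (hu' (a, ρ)) (hu' (b, σ))
    rw [e, add_sub_add_left_eq_sub] at this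
    have d : ∀ ρ σ : F, ρ ≠ σ → DV ((0, 0, ρ, 0) - (0, 0, σ, 0)) := by decide +kernel
    cases a <;> cases b <;> simp only [cond_true, cond_false, zero_add, add_sub_add_left_eq_sub] at this
    · exact absurd (d ρ σ fun c => ne (by rw [c])) (hM _ this)
    · exact ⟨σ - ρ, by simpa [add_sub_assoc] using M.neg_mem this⟩
    · exact ⟨ρ - σ, by simpa [add_sub_assoc] using this⟩
    · exact absurd (d ρ σ fun c => ne (by rw [c])) (hM _ this)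
  have k1 : ∀ a : F, ((a, 0, 0, 0) : V4) ∈ M := fun a => by
    obtain ⟨ρ, h⟩ := key (a, 0, 0, 0)
    rwa [(by decide +kernel : ∀ a ρ : F, ¬ DV ((a, 0, 0, 0) + (0, 0, ρ, 0)) →
      ((a, 0, 0, 0) : V4) + (0, 0, ρ, 0) = (a, 0, 0, 0)) a ρ (hM _ h)] at h
  have k2 : ∀ a : F, ((0, a, 0, 0) : V4) ∈ M := fun a => by
    obtain ⟨ρ, h⟩ := key (0, a, 0, 0)
    rwa [(by decide +kernel : ∀ a ρ : F, ¬ DV ((0, a, 0, 0) + (0, 0, ρ, 0)) →
      ((0, a, 0, 0) : V4) + (0, 0, ρ, 0) = (0, a, 0, 0)) a ρ (hM _ h)] at h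
  obtain ⟨ρ, h⟩ := key (0, 0, 0, 1)
  obtain ⟨a, b, e⟩ := (by decide +kernel : ∀ ρ : F, ∃ a b : F,
    DV ((a, 0, 0, 0) + (0, b, 0, 0) + ((0, 0, 0, 1) + (0, 0, ρ, 0)))) ρ
  exact hM _ (M.add_mem (M.add_mem (k1 a) (k2 b)) h) e

end Cfsg.Agent.LS
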