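import Cfsg.Agent.LS.Tr4
import Cfsg.Agent.LS.Maps2

/-! The Suzuki configuration: `⟨Q₁, Q₂⟩` acts on `D / Z` as `Ω₄⁻(2)` (notes/LS.md). -/

set_option autoImplicit false

namespace Cfsg.Agent.LS

open Subgroup H29
open scoped commutatorElement

namespace Dat

variable {G : Type*} [Group G] [Finite G] {δ : Dat G}

theorem CI.ok (h : δ.CI) : δ.OK := h.1.ok

theorem CI.lam (h : δ.CI) (ρ : F) : Lam δ.e ρ := Or.inl h.2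

theorem OK.InD_Wy (ok : δ.OK) {d : G} {σ : F} (h : δ.InD d (0, 0, 0, σ)) : δ.Wy d σ := by
  obtain ⟨y, hy⟩ := ok.exists_Wy σ
  obtain ⟨c, rfl⟩ := ok.InD_diff (ok.InD_W hy) h
  simpa only [add_zero] using ok.Wy_mul hy (ok.Wy_C c)

theorem OK.DD_r (ok : δ.OK) {ρ : F} (l : Lam δ.e ρ) (h0 : ρ ≠ 0) : DD δ.ι (δ.r ρ) :=
  DD.of_mem (Fr.refl _) (ok.rK ρ) (ok.r_sq l) (ok.rne ρ l h0)

theorem OK.DD_t (ok : δ.OK) : DD δ.ι δ.t := ok.DD_r (lam_one _) one_ne_zero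

theorem OK.W_t (ok : δ.OK) {y : G} {c : F} (hy : δ.Wy y c) {ρ : F} (l : Lam δ.e ρ) :
    y * δ.r ρ * y⁻¹ = δ.r ρ * δ.C (ρ * c) := hy.1.2.1 ρ l

theorem OK.L_z (ok : δ.OK) {p : P} (h2 : δ.ι p * δ.ι p = 1) (h1 : δ.ι p ≠ 1) :
    ∃ q, δ.ι p = δ.ι q * δ.z * (δ.ι q)⁻¹ := by
  obtain ⟨g, e⟩ := inv_conj (p := p) (ok.hy.inj (by rw [map_mul, h2, map_one]))
    fun e => h1 (by rw [e, map_one])
  exact ⟨g⁻¹, by rw [z, C, U, ← e, ← map_inv, ← map_mul, ← map_mul]; congr 1; group⟩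

theorem CI.G1 (h : δ.CI) (i : Ix) : ∃ m, δ.CO m ∧ δ.CZ m ∧ δ.Ac m (ev i) := by
  let R : (V4 → V4) → Prop := fun f => ∃ m, δ.CO m ∧ δ.CZ m ∧ δ.Ac m f
  have r1 : ∀ μ {f}, R f → R fun v => f1 1 μ (f v) := fun μ f ⟨m, a, b, c⟩ => by
    obtain ⟨x, hx⟩ := h.ok.exists_Qx μ 0
    exact ⟨x * m, hx.2.1.mul a, hx.cz.mul b, (h.1.a1 x μ 0 hx).mul c⟩
  have r2 : ∀ μ {f}, R f → R fun v => f2 1 μ (f v) := fun μ f ⟨m, a, b, c⟩ => by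
    obtain ⟨x, hx⟩ := h.ok.sw.exists_Qx μ 0
    exact ⟨x * m, ((sw_CO x).mp hx.2.1).mul a, ((sw_CZ x).mp hx.cz).mul b, (h.1.a2 x μ 0 hx).mul c⟩
  have r0 : R fun v => v := ⟨1, CO.one, fun _ => Commute.one_left _, fun d v hd => by simpa using hd⟩
  have r3 : ∀ ν {f}, R f → R fun v => rot ν (f v) := fun ν f hf => by
    obtain ⟨a, b, c, d, e⟩ := rot_word ν
    simpa only [e] using r1 a (r2 b (r1 c (r2 d hf)))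
  obtain ⟨_ | _, a, b, c⟩ := i
  · exact r1 a (r3 b r0)
  · have := r1 1 (r2 1 (r1 1 (r1 c r0)))
    simp only [← sw0_word] at this
    exact r1 a (r3 b this)

theorem CI.G2 (h : δ.CI) {d : G} {v : V4} (hd : δ.InD d v) (hv : DV v) :
    ∃ m, δ.CO m ∧ δ.CZ m ∧ δ.ND m ∧ d = m * δ.t * m⁻¹ := by
  obtain ⟨i, rfl⟩ := DV_orb hv
  obtain ⟨m, a, b, c⟩ := h.G1 i
  obtain ⟨x, e⟩ := h.ok.InD_diff (c _ _ h.ok.InD_t) hd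
  obtain ⟨y, hy⟩ := h.ok.exists_Wy x
  refine ⟨m * y, a.mul hy.1.2.2.1, b.mul hy.1.cz, c.nd.mul (h.ok.InD_ac (h.ok.InD_W hy)).nd, ?_⟩
  rw [cj_mul, t, h.ok.W_t hy (lam_one _), one_mul, cj_dist, cj_of (b _), e, t]

theorem CI.G3 (h : δ.CI) {d : G} {v : V4} (hd : δ.InD d v) (hv : NV v) :
    ∃ m a c, δ.CO m ∧ δ.CZ m ∧ δ.ND m ∧ a ≠ 0 ∧ m * d * m⁻¹ = δ.U a 0 c := by
  obtain ⟨i, x, hx, e⟩ := NV_orb hv
  obtain ⟨m, a, b, c⟩ := h.G1 i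
  obtain ⟨y, e'⟩ := h.ok.InD_T (e ▸ c _ _ hd)
  exact ⟨m, x, y, a, b, c.nd, hx, e'⟩

theorem OK.q4_zero (ok : δ.OK) {d : G} {v : V4} (hd : δ.InD d v) : d * d = 1 ↔ q4 v = 0 := by
  rw [ok.InD_sq hd, ← δ.C_zero]
  exact ⟨ok.C_inj, fun e => by rw [e]⟩

theorem CI.DV_iff (h : δ.CI) {d : G} {v : V4} (hd : δ.InD d v) : DD δ.ι d ↔ DV v := by
  refine ⟨fun a => ⟨?_, (h.ok.q4_zero hd).mp a.1, fun n => ?_⟩, fun a => ?_⟩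
  · rintro rfl
    obtain ⟨c, rfl⟩ := h.ok.InD_zero hd
    exact h.ok.nDD_U _ _ _ a
  · obtain ⟨m, x, y, -, -, -, -, e⟩ := h.G3 hd n
    exact h.ok.nDD_U _ _ _ (e ▸ a.conj m)
  · obtain ⟨m, -, -, -, rfl⟩ := h.G2 hd a
    exact h.ok.DD_t.conj m

theorem CI.NV_or (h : δ.CI) {d : G} {v : V4} (hd : δ.InD d v) (d2 : d * d = 1) (n : ¬ DD δ.ι d) :
    v = 0 ∨ NV v := by
  by_contra k
  exact n ((h.DV_iff hd).mpr ⟨fun e => k (Or.inl e), (h.ok.q4_zero hd).mp d2, fun e => k (Or.inr e)⟩)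

theorem CI.conj_z (h : δ.CI) {d : G} {v : V4} (hd : δ.InD d v) (d2 : d * d = 1) (d1 : d ≠ 1)
    (n : ¬ DD δ.ι d) : ∃ m, δ.CO m ∧ d = m * δ.z * m⁻¹ := by
  rcases h.NV_or hd d2 n with rfl | k
  · obtain ⟨c, rfl⟩ := h.ok.InD_zero hd
    obtain ⟨q, e⟩ := h.ok.L_z d2 d1
    exact ⟨_, δ.CO_L q, e⟩
  · obtain ⟨m, x, y, a, -, -, -, e⟩ := h.G3 hd k
    obtain ⟨q, e'⟩ := h.ok.L_z (p := u x 0 y) (δ.V_sq _ _) fun k => d1 (conj_eq_one_iff.mp (e.trans k))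
    exact ⟨m⁻¹ * δ.ι q, a.inv.mul (δ.CO_L q), by rw [cj_mul, ← e', ← U, ← e]; group⟩

theorem CI.Ac_NV (h : δ.CI) {n : G} {f : V4 → V4} (hn : δ.Ac n f) (hZ : δ.NZ n) {v : V4} (hv : NV v) :
    NV (f v) := by
  obtain ⟨d, hd⟩ := h.ok.exists_InD (h.lam v.2.2.1)
  refine (h.NV_or (hn _ _ hd) ?_ fun k => ((h.DV_iff hd).mp ((dd_cj n d).mp k)).2.2 hv).resolve_left
    fun e => hv.1 ?_
  · rw [conj_mul, (h.ok.q4_zero hd).mpr hv.2.1, mul_one, mul_inv_cancel]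
  · obtain ⟨c, e'⟩ := h.ok.InD_zero (e ▸ hn _ _ hd)
    obtain ⟨c', e''⟩ := h.ok.NZ_inv hZ c
    rw [← e', ← cj_mul, inv_mul_cancel, one_mul, inv_one, mul_one] at e''
    exact h.ok.InD_uniq hd (e'' ▸ h.ok.InD_C c')

theorem CI.cls (h : δ.CI) {n : G} (hZ : δ.CZ n) (hD : δ.ND n) :
    ∃ i, δ.Ac n (ev i) ∨ δ.Ac n (ev i ∘ swp) := by
  obtain ⟨f, hf⟩ := h.ok.exists_ac hD
  obtain ⟨i, e⟩ := lin_cls f (h.ok.Ac_add h.2 hf) (h.ok.Ac_b4 h.2 hf (φ := id) fun c => cj_of (hZ c))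
    (h.ok.Ac_q4 h.2 hf (φ := id) fun c => cj_of (hZ c)) fun v => h.Ac_NV hf hZ.nz
  exact ⟨i, e.imp hf.congr hf.congr⟩

theorem CI.x3 (h : δ.CI) : ∃ x ∈ Kc δ.ι, δ.CO x ∧ δ.Ac x (rot ω) ∧
    ∀ ρ, x * δ.r ρ * x⁻¹ = δ.r (ω * ρ) := by
  have ok := h.ok
  obtain ⟨m, a, b, c⟩ := h.G1 (false, 0, ω, 0)
  replace c := c.congr (ev_rot ω)
  obtain ⟨x, e⟩ := ok.InD_diff (ok.InD_r (h.lam ω)) (c _ _ ok.InD_t)
  obtain ⟨y, hy⟩ := ok.exists_Wy (ω * ω * x)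
  have e' : y * m * δ.t * (y * m)⁻¹ = δ.r ω := by
    rw [cj_mul, e, cj_dist, ok.W_t hy (h.lam ω), cj_of (hy.1.cz _), mul_assoc, ← C_add,
      (by decide : ∀ x : F, ω * (ω * ω * x) + x = 0), C_zero, mul_one]
  have a1 := (ok.InD_ac (ok.InD_W hy)).mul c
  obtain ⟨p, q, s, k, hk, e''⟩ := ok.hy.cT (ok.hy.ti _ _ (ok.rK 1) ok.t_sq ok.t_ne (e' ▸ ok.rK ω))
    fun p q => ok.InD_T (by simpa only [rot, Function.comp, id, mul_zero, U] using a1 _ _ (ok.InD_U p q 0))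
  have a2 := (ok.InD_ac (ok.InD_inv (ok.InD_U p q s))).mul a1
  have a3 := (δ.CO_L (u p q s)).inv.mul (hy.1.2.2.1.mul a)
  rw [e'', U, inv_mul_cancel_left] at a2
  rw [e'', inv_mul_cancel_left] at a3
  exact ⟨k, hk, a3, a2, fun ρ =>
    (ok.InD_K (a2 _ _ (ok.InD_r (h.lam ρ))) (Kc_conj (Kc_le_Nn hk) (ok.rK ρ))).1⟩

theorem CI.r_t (h : δ.CI) {ρ : F} (h0 : ρ ≠ 0) : ∃ x ∈ Kc δ.ι, δ.CO x ∧ δ.r ρ = x * δ.t * x⁻¹ ∧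
    ∀ σ, x * δ.r σ * x⁻¹ = δ.r (ρ * σ) := by
  obtain ⟨x, hx, a, -, e⟩ := h.x3
  have : ∃ x ∈ Kc δ.ι, δ.CO x ∧ ∀ σ, x * δ.r σ * x⁻¹ = δ.r (ρ * σ) := by
    rcases F4c ρ with rfl | rfl | rfl | rfl
    · exact absurd rfl h0
    · exact ⟨1, one_mem _, CO.one, fun σ => by simp⟩
    · exact ⟨x, hx, a, e⟩
    · exact ⟨x * x, mul_mem hx hx, a.mul a, fun σ => by rw [cj_mul, e, e, ← mul_assoc]; rfl⟩
  obtain ⟨x, hx, a, e⟩ := this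
  exact ⟨x, hx, a, by rw [t, e, mul_one], e⟩

theorem CI.conj_t (h : δ.CI) {d : G} (hd : DD δ.ι d) : ∃ m, d = m * δ.t * m⁻¹ := by
  obtain ⟨d2, d1, g, hg⟩ := hd
  obtain ⟨m, -, ρ, -, e⟩ := h.ok.syl _ hg (by rw [conj_mul, d2, mul_one, mul_inv_cancel])
  obtain ⟨x, -, -, e', -⟩ := h.r_t (ρ := ρ) fun k => d1 (by
    rwa [k, h.ok.r_zero, conj_eq_one_iff, conj_eq_one_iff] at e)
  exact ⟨(m * g)⁻¹ * x, by rw [cj_mul, ← e', ← e]; group⟩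

omit [Finite G] in
theorem ww_U (δ : Dat G) (b c : F) : δ.sw.w * δ.U 0 b c * δ.sw.w⁻¹ = δ.U 0 c b := by
  simpa only [sw_U, mul_zero, add_zero] using δ.sw.w_U b c

theorem CI.exists_H0 (h : δ.CI) : ∃ g, δ.H0 g := by
  have ok := h.ok
  obtain ⟨y, a, b, c⟩ := h.G1 (true, 0, 0, 0)
  replace c := c.congr (f' := sw0) (by decide +kernel)
  obtain ⟨x, e⟩ := ok.InD_T (ok.Ac_inv c (f' := sw0) (fun _ => rfl) _ _ (ok.InD_U 1 0 0))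
  refine ⟨δ.w * (y * (δ.U x 0 0 * δ.sw.w)), h,
    (δ.CO_L _).mul (a.mul ((δ.CO_L _).mul (δ.CO_L _))), of_cj ?_, fun p q => ?_, fun ρ => ?_⟩
  · rw [cj_mul, cj_mul, cj_mul, z, C, ww_U, U_conj, mul_one, mul_zero, add_zero, zero_add, ← e,
      ← cj_mul y, mul_inv_cancel, one_mul, inv_one, mul_one, w_U]
  · rw [cj_mul, cj_mul, cj_mul, ww_U, U_conj]
    obtain ⟨s, e⟩ := ok.InD_T (c _ _ (ok.InD_U 0 q (p + x * q + 0 * 0)))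
    exact ⟨_, _, by rw [e, w_U]⟩
  · rw [cj_mul, cj_mul, cj_of ((ok.r_U ρ _ _ _).symm.mul_left (ok.sw.r_w ρ).symm)]
    exact ok.Qx_w (ok.InD_Wy (c _ _ (ok.InD_r (h.lam ρ)))).1.qx

end Dat

end Cfsg.Agent.LS
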