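import Cfsg.Agent.LS.Defs

/-! Finite facts on the group `SA` of order 256 (notes/LS.md, section Sa). -/

set_option autoImplicit false

namespace Cfsg.Agent.LS

open Subgroup H29
open scoped commutatorElement

namespace SA

theorem card_eq' (W : Subgroup SA) [DecidablePred (· ∈ W)] :
    Nat.card W = (Finset.univ.filter (· ∈ W)).card := by
  rw [Nat.card_eq_fintype_card, Fintype.card_subtype]

theorem card_le' {W : Subgroup SA} (p : SA → Prop) [DecidablePred p] (h : ∀ w ∈ W, p w) :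
    Nat.card W ≤ (Finset.univ.filter p).card := by
  classical
  rw [card_eq']
  exact Finset.card_le_card fun w hw => by
    rw [Finset.mem_filter] at hw ⊢
    exact ⟨hw.1, h w hw.2⟩

theorem eq_of' {W : Subgroup SA} (p : SA → Prop) [DecidablePred p] (h : ∀ w ∈ W, p w)
    (c : (Finset.univ.filter p).card ≤ Nat.card W) (w : SA) : w ∈ W ↔ p w := by
  classical
  rw [card_eq'] at c
  have := Finset.eq_of_subset_of_card_le (s := Finset.univ.filter (· ∈ W)) (fun w hw => by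
    rw [Finset.mem_filter] at hw ⊢
    exact ⟨hw.1, h w hw.2⟩) c
  simpa using congrArg (w ∈ ·) this

theorem c32 : ∀ x : SA, x * x = 1 → ¬ x.inZ →
    (Finset.univ.filter fun y => y * x = x * y).card ≤ 32 := by decide +kernel

theorem C64 {x : SA} (h : x * x = 1) (c : 32 < Nat.card (centralizer ({x} : Set SA))) : x.inZ := by
  by_contra hz
  exact absurd ((card_le' _ fun w hw => mem_centralizer_singleton_iff.1 hw).trans (c32 x h hz)) (not_le.2 c)

theorem j_of_comm {y : SA} (h : Commute y ⟨0, 0, ω, false, false⟩) : y.j = false :=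
  (by decide +kernel : ∀ y : SA, y * ⟨0, 0, ω, false, false⟩ = ⟨0, 0, ω, false, false⟩ * y →
    y.j = false) y h

theorem Cg {x y : SA} (h : x * x = 1) (j : x.j = false) (k : x.k = true) (hy : y.inT)
    (c : Commute x y) : y.inZ :=
  (by decide +kernel : ∀ x : SA, x.j = false → x.k = true → x * x = 1 → ∀ y : SA, y.inT →
    x * y = y * x → y.inZ) x j k h y hy c

theorem O1 {x : SA} (h : x * x = 1) (o : ¬ x.inT) :
    ∃ y : SA, y.inT ∧ y * x * y⁻¹ = ⟨0, 0, 0, x.j, x.k⟩ :=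
  (by decide +kernel : ∀ x : SA, ¬ x.inT → x * x = 1 →
    ∃ y : SA, y.inT ∧ y * x * y⁻¹ = ⟨0, 0, 0, x.j, x.k⟩) x o h

theorem zc : ∀ x : SA, x * ⟨0, 0, 1, false, false⟩ = ⟨0, 0, 1, false, false⟩ * x := by decide +kernel

theorem C4 {x : SA} (h : x * x = 1) : ∃ y y' : SA, y.inT ∧ y'.inT ∧ y ≠ 1 ∧ y' ≠ 1 ∧ y ≠ y' ∧
    Commute x y ∧ Commute x y' := by
  obtain ⟨y, h1, h2, h3, h4⟩ := (by decide +kernel : ∀ x : SA, x * x = 1 → ∃ y : SA, y.inT ∧ y ≠ 1 ∧
    ⟨0, 0, 1, false, false⟩ ≠ y ∧ x * y = y * x) x h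
  exact ⟨_, y, ⟨rfl, rfl⟩, h1, by decide, h2, h3, zc x, h4⟩

set_option synthInstance.maxSize 1024 in
theorem c8 : ∀ w : SA, w * w = 1 → ¬ w.inZ →
    (Finset.univ.filter fun y => y * w = w * y).card < 32 ∨ ∀ y : SA, y * y = 1 → y * w = w * y →
      y ∈ ({1, ⟨0, 0, 1, false, false⟩, w, w * ⟨0, 0, 1, false, false⟩} : Finset SA) ∨
        ∃ x : SA, x * w = w * x ∧ y * x ≠ x * y := by decide +kernel

theorem C8 {X W : Subgroup SA} (le : W ≤ X) (cX : 32 ≤ Nat.card X) (cW : 8 ≤ Nat.card W)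
    (el : ∀ w ∈ W, w * w = 1) (cen : ∀ w ∈ W, ∀ x ∈ X, Commute w x) : False := by
  obtain ⟨w, hw, hz⟩ : ∃ w ∈ W, ¬ w.inZ := by
    by_contra hc
    push Not at hc
    exact absurd (cW.trans (card_le' _ hc)) (by decide +kernel)
  have h1 : ∀ x ∈ X, x * w = w * x := fun x hx => (cen w hw x hx).symm
  rcases c8 w (el w hw) hz with h | h
  · exact absurd (cX.trans (card_le' _ h1)) (not_le.2 h)
  · have h2 := eq_of' _ h1 ((c32 w (el w hw) hz).trans cX)
    have h3 := card_le' (W := W) _ fun y hy => (h y (el y hy) (h1 y (le hy))).resolve_right (by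
      rintro ⟨x, e, n⟩
      exact n (cen y hy x ((h2 x).2 e)))
    rw [Finset.filter_univ_mem] at h3
    have := Finset.card_le_four (a := (1 : SA)) (b := ⟨0, 0, 1, false, false⟩) (c := w)
      (d := w * ⟨0, 0, 1, false, false⟩)
    omega

theorem C16 {W : Subgroup SA} (cW : 16 ≤ Nat.card W) (el : ∀ w ∈ W, w * w = 1) :
    (∀ w, w ∈ W ↔ w.inT ∧ w.b = 0) ∨ ∀ w, w ∈ W ↔ w.inT ∧ w.a = 0 := by
  have cm : ∀ w ∈ W, ∀ y ∈ W, y * w = w * y := fun w hw y hy => by
    have := el _ (W.mul_mem hy hw)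
    rw [← inv_eq_of_mul_eq_one_right this, mul_inv_rev, inv_eq_of_mul_eq_one_right (el w hw),
      inv_eq_of_mul_eq_one_right (el y hy)]
  have k := (by decide +kernel : ∀ w : SA, ¬ w.inT → w * w = 1 → (Finset.univ.filter fun y : SA =>
    (w.k = false → y.k = false) ∧ y * y = 1 ∧ y * w = w * y).card < 16)
  have hk : ∀ w ∈ W, w.k = false := fun w hw => by
    by_contra hc
    exact absurd (cW.trans (card_le' _ fun y hy => ⟨fun e => absurd e hc, el y hy, cm w hw y hy⟩))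
      (not_le.2 (k w (fun e => hc e.2) (el w hw)))
  have hT : ∀ w ∈ W, w.inT := fun w hw => by
    by_contra hc
    exact absurd (cW.trans (card_le' _ fun y hy => ⟨fun _ => hk y hy, el y hy, cm w hw y hy⟩))
      (not_le.2 (k w hc (el w hw)))
  by_cases hb : ∀ w ∈ W, w.b = 0
  · exact Or.inl (eq_of' _ (fun w hw => ⟨hT w hw, hb w hw⟩) (le_trans (by decide +kernel) cW))
  · push Not at hb
    obtain ⟨w, hw, hb⟩ := hb
    exact Or.inr (eq_of' _ (fun y hy => ⟨hT y hy, (by decide +kernel : ∀ w : SA, w.inT → w.b ≠ 0 →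
      w * w = 1 → ∀ y : SA, y.inT → y * w = w * y → y.a = 0) w (hT w hw) hb (el w hw) y (hT y hy)
        (cm w hw y hy)⟩) (le_trans (by decide +kernel) cW))

theorem CT {X : Subgroup SA} (cX : 64 ≤ Nat.card X) (sq : ∀ x ∈ X, (x * x).inZ)
    (j : ∀ x ∈ X, x.j = false) : ∀ x, x ∈ X ↔ x.inT := by
  refine eq_of' _ (fun x hx => ⟨j x hx, ?_⟩) (le_trans (by decide +kernel) cX)
  by_contra hc
  exact absurd (cX.trans (card_le' _ fun y hy => (⟨j y hy, sq y hy, sq _ (X.mul_mem hx hy)⟩ :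
    y.j = false ∧ (y * y).inZ ∧ (x * y * (x * y)).inZ))) (not_le.2 ((by decide +kernel :
      ∀ x : SA, x.j = false → ¬ x.k = false → (x * x).inZ → (Finset.univ.filter fun y : SA =>
        y.j = false ∧ (y * y).inZ ∧ (x * y * (x * y)).inZ).card < 64) x (j x hx) hc (sq x hx)))

end SA

end Cfsg.Agent.LS
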