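import Cfsg.Agent.LS.Base
import Cfsg.Agent.LS.Sa

set_option autoImplicit false
set_option linter.unusedVariables false
set_option linter.unusedSectionVars false

namespace Cfsg.Agent.LS

open Subgroup H29
open scoped commutatorElement

variable {G : Type*} [Group G] [Finite G] {ι : P →* G}

namespace LA

theorem u_conj (a b c a' b' c' : F) :
    u a b c * u a' b' c' * (u a b c)⁻¹ = u a' b' (c' + a * b' + a' * b) := by
  rw [M49.u_inv, u_mul, u_mul]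
  congr 1 <;> revert a b c a' b' c' <;> decide +kernel

theorem u_comm (a b c a' b' c' : F) :
    u a b c * u a' b' c' * (u a b c)⁻¹ * (u a' b' c')⁻¹ = u 0 0 (a * b' + a' * b) := by
  rw [u_conj, M49.u_inv, u_mul]
  congr 1 <;> revert a b c a' b' c' <;> decide +kernel

theorem u_cen (a b c d : F) : Commute (u a b c) (u 0 0 d) :=
  mul_inv_eq_iff_eq_mul.1 (by rw [u_conj]; simp)

theorem u_sq (a b c : F) : u a b c * u a b c = u 0 0 (a * b) := by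
  rw [u_mul, SA.two, SA.two, SA.two, zero_add]

theorem u_one {a b c : F} (h : u a b c = 1) : a = 0 ∧ b = 0 ∧ c = 0 := u_inj (h.trans u_zero.symm)

theorem c_sq (c : F) : u 0 0 c * u 0 0 c = 1 := by rw [u_sq, mul_zero, u_zero]

theorem z_ne : u 0 0 1 ≠ 1 := fun e => one_ne_zero (u_one e).2.2

theorem Kc_tw (ι : P →* G) (β : MulAut P) : Kc (tw ι β) = Kc ι := by rw [Kc, range_tw]

theorem sq_of (h : Hy ι) {p : P} {k : G} (hk : k ∈ Kc ι) (e : ι p * k * (ι p * k) = 1) : p * p = 1 ∧ k * k = 1 := by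
  rw [← pow_two, (mem_Kc.1 hk p).symm.mul_pow, pow_two, pow_two, ← map_mul] at e
  have := h.LK (eq_inv_of_mul_eq_one_left e ▸ inv_mem (mul_mem hk hk))
  exact ⟨this, by rwa [this, map_one, one_mul] at e⟩

theorem eq_of (h : Hy ι) {p q : P} {k : G} (hk : k ∈ Kc ι) (e : ι p = ι q * k) : p = q :=
  (inv_mul_eq_one.1 (h.LK (by rwa [map_mul, map_inv, e, inv_mul_cancel_left]))).symm

theorem comm_of (h : Hy ι) {p q : P} {k : G} (hk : k ∈ Kc ι) : Commute (ι q) (ι p * k) ↔ Commute q p :=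
  ⟨fun c => h.inj (by simpa using (c.mul_right (mem_Kc.1 hk q).symm.inv_right).eq),
    fun c => (c.map ι).mul_right (mem_Kc.1 hk q).symm⟩

variable {ι' : P →* G} (h : Hy ι) (f : Fr ι ι') (hz : ι (u 0 0 1) ∈ Kc ι')
include h f hz

theorem memN {g : G} (c : Commute g (ι (u 0 0 1))) : g ∈ Nn ι' :=
  (h.fr f).cent hz (by rw [← map_mul, c_sq, map_one]) (fun e => z_ne (h.inj (e.trans (map_one ι).symm))) c

theorem s0 {k : G} (hk : k ∈ Kc ι) (k2 : k * k = 1) (k1 : k ≠ 1) : k ∉ Kc ι' := fun hk' =>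
  z_ne (h.LK (by rwa [Kc, h.same f hk hk' k2 k1] at hz))

theorem cmL {x : G} (hx : x ∈ ι'.range) (a b c : F) : x * ι (u a b c) * x⁻¹ * (ι (u a b c))⁻¹ ∈ ι'.range := by
  rw [mul_assoc, mul_assoc, ← mul_assoc (ι _)]
  exact mul_mem hx ((mem_normalizer_iff.1 (memN h f hz ((u_cen a b c 1).map ι)) _).1 (inv_mem hx))

theorem sA {a b c : F} {k : G} (hk : k ∈ Kc ι) (hx : ι (u a b c) * k ∈ ι'.range) : a = 0 ∧ b = 0 := by
  by_contra hn
  obtain ⟨a', b', e⟩ := (by decide : ∀ a b : F, ¬ (a = 0 ∧ b = 0) → ∃ a' b', a * b' + a' * b = 1) a b hn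
  obtain ⟨q, hq⟩ := cmL h f hz hx a' b' 0
  rw [mul_assoc (ι _) k, (mem_Kc.1 hk _).eq, mul_inv_rev, ← mul_assoc, ← mul_assoc, mul_inv_cancel_right,
    ← map_inv, ← map_inv, ← map_mul, ← map_mul, ← map_mul, u_comm, e] at hq
  rw [(h.fr f).LK (p := q) (hq ▸ hz), map_one] at hq
  exact z_ne (h.inj (hq.symm.trans (map_one ι).symm))

theorem s1 {k : G} (hk : k ∈ Kc ι) (k2 : k * k = 1) (k1 : k ≠ 1) {q : P} (c : Commute (ι' q) k) :
    ∃ c, ∃ k' ∈ Kc ι, ι' q = ι (u 0 0 c) * k' := by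
  have hn := h.cent hk k2 k1 c
  obtain ⟨a, b, c, k', hk', e⟩ := h.cT hn fun a b => by
    obtain ⟨a', b', c', e⟩ := h.zT hn one_ne_zero (mem_Kc.1 hz q).symm a b 0
    have := cmL h f hz ⟨q, rfl⟩ a b 0
    rw [e, ← map_inv, ← map_mul, M49.u_inv, u_mul, ← mul_one (ι _)] at this
    obtain ⟨e1, e2⟩ := sA h f hz (one_mem _) this
    have k : ∀ x y : F, x + y = 0 → x = y := by decide
    exact ⟨c', by rw [e, k _ _ e1, k _ _ e2]⟩
  obtain ⟨rfl, rfl⟩ := sA h f hz hk' ⟨q, e⟩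
  exact ⟨c, k', hk', e⟩

theorem s2 : ∃ p0, (∀ c, ∃ κ ∈ Kc ι', ι (u 0 0 c) = κ ∨ ι (u 0 0 c) = ι' p0 * κ) ∧
    ∀ k ∈ Kc ι, k * k = 1 → k ≠ 1 → ∀ q, Commute (ι' q) k → Commute q p0 := by
  have e : ⁅ι (u 1 0 0), ι (u 0 ω 0)⁆ = ι (u 0 0 ω) := by
    rw [← map_commutatorElement, commutatorElement_def, u_comm]; simp
  obtain ⟨p0, k0, hk0, e1⟩ := (h.fr f).inner_comm (memN h f hz ((u_cen 1 0 0 1).map ι))
    (memN h f hz ((u_cen 0 ω 0 1).map ι)) (n := 1) (by rw [e, pow_one, pow_two, ← map_mul, c_sq, map_one])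
  rw [e] at e1
  refine ⟨p0, fun c => ?_, fun k hk k2 k1 q c => ?_⟩
  · rcases (by decide : ∀ c : F, c = 0 ∨ c = 1 ∨ c = ω ∨ c = ω + 1 + 0 * 0) c with rfl | rfl | rfl | rfl
    · exact ⟨1, one_mem _, .inl (by rw [u_zero, map_one])⟩
    · exact ⟨_, hz, .inl rfl⟩
    · exact ⟨_, hk0, .inr e1⟩
    · exact ⟨_, mul_mem hk0 hz, .inr (by rw [← mul_assoc, ← e1, ← map_mul, u_mul, add_zero])⟩
  · obtain ⟨c, k', hk', e2⟩ := s1 h f hz hk k2 k1 c
    rw [← comm_of (h.fr f) hk0, ← e1, e2]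
    exact ((u_cen ..).map ι).mul_left (mem_Kc.1 hk' _)

theorem s3 : ∃ k ∈ Kc ι, k * k = 1 ∧ k ≠ 1 ∧ ∃ p, ∃ κ ∈ Kc ι', k = ι' p * κ := by
  obtain ⟨k, hk, k2, k1⟩ := h.ev
  obtain ⟨p0, h1, -⟩ := s2 h f hz
  obtain ⟨p, l, m, φ, e1, -, -⟩ := (h.fr f).sa (Y := zpowers k)
    (IsPGroup.of_card (n := 1) (by rw [Nat.card_zpowers, orderOf_eq_prime (by rwa [pow_two]) k1]; rfl))
    (zpowers_le.2 (memN h f hz (mem_Kc.1 hk _)))
  generalize MulAut.conj p * dg l m = β at e1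
  obtain ⟨y, y', t1, t2, n1, n2, n3, c1, c2⟩ := SA.C4 (x := φ ⟨k, mem_zpowers k⟩)
    (by rw [← map_mul, show (⟨k, _⟩ * ⟨k, _⟩ : zpowers k) = 1 from Subtype.ext k2, map_one])
  have eT : ∀ {y : SA}, y.inT → y = ⟨y.a, y.b, y.c, false, false⟩ := fun t => SA.ext rfl rfl rfl t.1 t.2
  have key : ∀ y : SA, y.inT → y ≠ 1 → Commute (φ ⟨k, mem_zpowers k⟩) y → β (u y.a y.b y.c) ≠ p0 →
      ∃ k ∈ Kc ι, k * k = 1 ∧ k ≠ 1 ∧ ∃ p, ∃ κ ∈ Kc ι', k = ι' p * κ := fun y t n c n' => by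
    have e2 := e1 ⟨k, mem_zpowers k⟩ (u y.a y.b y.c)
    rw [aut_u, ← eT t, c.eq, mul_inv_cancel_right, tw_apply] at e2
    have n0 : β (u y.a y.b y.c) ≠ 1 := fun e => by
      obtain ⟨a, b, c⟩ := u_one (β.map_eq_one_iff.1 e)
      exact n (SA.ext a b c t.1 t.2)
    have q4 : β (u y.a y.b y.c) * β (u y.a y.b y.c) * (β (u y.a y.b y.c) * β (u y.a y.b y.c)) = 1 := by
      rw [← map_mul, ← map_mul, u_sq, c_sq, map_one]
    generalize β (u y.a y.b y.c) = q at *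
    obtain ⟨c, k', hk', e3⟩ := s1 h f hz hk k2 k1 (mul_inv_eq_iff_eq_mul.1 e2).symm
    have e4 : ι' (q * q) = k' * k' := by
      rw [map_mul, e3, ← pow_two, (mem_Kc.1 hk' _).symm.mul_pow, pow_two, pow_two, ← map_mul, c_sq, map_one, one_mul]
    by_cases e5 : k' * k' = 1
    · obtain ⟨κ, hκ, e6⟩ := h1 c
      refine ⟨k', hk', e5, fun e7 => ?_, ?_⟩
      · rw [e7, mul_one] at e3
        rcases e6 with e6 | e6
        exacts [n0 ((h.fr f).LK (e3 ▸ e6 ▸ hκ)), n' (eq_of (h.fr f) hκ (e3.trans e6))]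
      · rw [eq_inv_mul_of_mul_eq e3.symm]
        rcases e6 with e6 | e6 <;> rw [e6]
        · exact ⟨q, _, inv_mem hκ, mem_Kc.1 (inv_mem hκ) q⟩
        · exact ⟨p0⁻¹ * q, _, inv_mem hκ, by
            rw [mul_inv_rev, mul_assoc, ← map_inv, ← map_mul]; exact mem_Kc.1 (inv_mem hκ) _⟩
    · exact ⟨_, mul_mem hk' hk', by rw [← e4, ← map_mul, q4, map_one], e5, _, 1, one_mem _, by rw [e4, mul_one]⟩
  by_cases e : β (u y.a y.b y.c) = p0
  · refine key y' t2 n2 c2 fun e' => n3 ?_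
    obtain ⟨a, b, c⟩ := u_inj (β.injective (e.trans e'.symm))
    exact SA.ext a b c (t1.1.trans t2.1.symm) (t1.2.trans t2.2.symm)
  · exact key y t1 n1 c1 e

theorem s4 {k κ : G} (hk : k ∈ Kc ι) (k2 : k * k = 1) (k1 : k ≠ 1) (hκ : κ ∈ Kc ι')
    (e : k = ι' (u 0 0 1) * κ) : False := by
  have h' := h.fr f
  obtain ⟨p0, h1, h2⟩ := s2 h f hz
  have cT : ∀ a b c, Commute (ι' (u a b c)) k := fun a b c => e ▸ (comm_of h' hκ).2 (u_cen ..)
  obtain ⟨a, b, d, rfl⟩ := cent_z (h2 k hk k2 k1 _ (cT 0 0 1)).symm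
  have e1 := mul_inv_eq_iff_eq_mul.2 (h2 k hk k2 k1 _ (cT 1 0 0)).eq
  have e2 := mul_inv_eq_iff_eq_mul.2 (h2 k hk k2 k1 _ (cT 0 1 0)).eq
  rw [u_conj] at e1 e2
  obtain rfl : b = 0 := by simpa using (u_inj e1).2.2
  obtain rfl : a = 0 := by simpa using (u_inj e2).2.2
  let H : Subgroup P :=
    { carrier := {q | ∃ c, ∃ k' ∈ Kc ι, ι' q = ι (u 0 0 c) * k'}
      one_mem' := ⟨0, 1, one_mem _, by simp [u_zero]⟩
      mul_mem' := fun ⟨c, k, hk, e⟩ ⟨c', k', hk', e'⟩ => ⟨c + c' + 0 * 0, _, mul_mem hk hk', by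
        rw [map_mul, e, e', mul_assoc, ← mul_assoc k, (mem_Kc.1 hk _).eq, mul_assoc, ← mul_assoc, ← map_mul, u_mul,
          add_zero]⟩
      inv_mem' := fun ⟨c, k, hk, e⟩ => ⟨c + 0 * 0, _, inv_mem hk, by
        rw [map_inv, e, ← (mem_Kc.1 hk _).eq, mul_inv_rev, ← map_inv, M49.u_inv]⟩ }
  have hT : ∀ a b c, u a b c ∈ H := fun a b c => s1 h f hz hk k2 k1 (cT a b c)
  have A : ∀ a b, a * b = 0 → ¬ (a = 0 ∧ b = 0) → ∃ c, ∀ q, Commute q (u a b c) → q ∈ H := fun a b ab n => by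
    obtain ⟨c, k', hk', e3⟩ := hT a b 0
    obtain ⟨κ', hκ', e4⟩ := h1 c
    have e5 := (sq_of h hk' (by rw [← e3, ← map_mul, u_sq, ab, u_zero, map_one])).2
    have e6 : k' ≠ 1 := fun e6 => by
      rw [e6, mul_one] at e3
      rcases e4 with e4 | e4
      · have := u_one (h'.LK (e3 ▸ e4 ▸ hκ'))
        exact n ⟨this.1, this.2.1⟩
      · have := u_inj (eq_of h' hκ' (e3.trans e4))
        exact n ⟨this.1, this.2.1⟩
    have e7 := eq_inv_mul_of_mul_eq e3.symm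
    rcases e4 with e4 | e4 <;> rw [e4] at e7
    · rw [(mem_Kc.1 (inv_mem hκ') _).eq] at e7
      exact ⟨0, fun q c => s1 h f hz hk' e5 e6 (e7 ▸ (comm_of h' (inv_mem hκ')).2 c)⟩
    · rw [mul_inv_rev, mul_assoc, ← map_inv, ← map_mul, (mem_Kc.1 (inv_mem hκ') _).eq, M49.u_inv, u_mul, zero_add,
        zero_add] at e7
      exact ⟨_, fun q c => s1 h f hz hk' e5 e6 (e7 ▸ (comm_of h' (inv_mem hκ')).2 c)⟩
  have B : ∀ {w v y v' : P}, y ∈ H → Commute w v → y * v * y⁻¹ = v' → (∀ q, Commute q v' → q ∈ H) → w ∈ H :=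
    fun {w v y v'} hy c e k => by
      have := k _ (e ▸ c.conj y)
      rwa [H.mul_mem_cancel_right (inv_mem hy), H.mul_mem_cancel_left hy] at this
  have cw : Commute w1 (u 1 0 1) := mul_inv_eq_iff_eq_mul.1 (w1_u 1 1)
  obtain ⟨c1, A1⟩ := A 1 0 (by simp) (by simp)
  obtain ⟨c2, A2⟩ := A 0 1 (by simp) (by simp)
  have top := gen_P H hT (B (hT 0 (c1 + 1) 0) cw (by rw [u_conj]; congr 1; clear A1; revert c1; decide) A1)
    (B (hT (c2 + 1) 0 0) (cw.map gr) (by rw [gr_u, u_conj]; congr 1; clear A2; revert c2; decide) A2)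
  have sq : ∀ q, q * q ∈ (Kc ι).comap ι' := fun q => by
    obtain ⟨c, k', hk', e⟩ : q ∈ H := top ▸ mem_top q
    rw [mem_comap, map_mul, e, ← pow_two, (mem_Kc.1 hk' _).symm.mul_pow, pow_two, pow_two, ← map_mul, c_sq, map_one,
      one_mul]
    exact mul_mem hk' hk'
  have := simple_P
  have hn : ((Kc ι).comap ι').Normal := ⟨fun m hm g => by
    have := mul_mem (mul_mem (sq g) (sq (g⁻¹ * m))) (inv_mem hm)
    rwa [show g * g * (g⁻¹ * m * (g⁻¹ * m)) * m⁻¹ = g * m * g⁻¹ by group] at this⟩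
  rcases hn.eq_bot_or_eq_top with e | e
  · exact z_ne (by simpa [e, u_sq] using sq (u 1 1 0))
  · exact h.ncomm f fun p => e.ge (mem_top p)

end LA

theorem Hy.nz (h : Hy ι) : ¬ DD ι (ι (u 0 0 1)) := fun hd => by
  obtain ⟨g, hz⟩ := hd.exists_fr
  have f := Fr.cj ι g
  obtain ⟨k, hk, k2, k1, p, κ, hκ, e⟩ := LA.s3 h f hz
  obtain ⟨g1, e1⟩ := inv_conj (LA.sq_of (h.fr f) hκ (e ▸ k2)).1 fun e1 =>
    LA.s0 h f hz hk k2 k1 (by rwa [e, e1, map_one, one_mul])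
  refine LA.s4 h (f.trans (Fr.tw _ (MulAut.conj g1⁻¹))) (by rwa [LA.Kc_tw]) hk k2 k1 (κ := κ) (by rwa [LA.Kc_tw]) ?_
  rw [e, tw_apply, ← e1]
  simp [mul_assoc]

theorem Hy.not_DD (h : Hy ι) {ι' : P →* G} (f : Fr ι ι') (p : P) : ¬ DD ι (ι' p) := fun hd => by
  have h' := h.fr f
  obtain ⟨g, e⟩ := inv_conj (p := p) (h'.inj (by rw [map_mul, hd.1, map_one])) fun e => hd.2.1 (by rw [e, map_one])
  refine h'.nz ?_
  rw [← e, map_mul, map_mul, map_inv]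
  exact (hd.fr f).conj _

end Cfsg.Agent.LS
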