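import Cfsg.Agent.LS.LemA

set_option autoImplicit false
set_option linter.unusedVariables false
set_option linter.unusedSectionVars false

namespace Cfsg.Agent.LS

open Subgroup H29
open scoped commutatorElement

variable {G : Type*} [Group G] [Finite G] {ι : P →* G}

namespace LB

open LA

theorem eq2 (h : Hy ι) {p q : P} {k k' : G} (hk : k ∈ Kc ι) (hk' : k' ∈ Kc ι) (e : ι p * k = ι q * k') : p = q :=
  eq_of h (mul_mem hk' (inv_mem hk)) (by rw [← mul_assoc, ← e, mul_inv_cancel_right])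

theorem comm2 (h : Hy ι) {p q : P} {k k' : G} (hk : k ∈ Kc ι) (hk' : k' ∈ Kc ι)
    (e : Commute (ι p * k) (ι q * k')) : Commute p q := by
  refine eq2 h (mul_mem hk hk') (mul_mem hk' hk) ?_
  calc ι (p * q) * (k * k') = ι p * (ι q * k) * k' := by rw [map_mul]; group
    _ = ι q * k' * (ι p * k) := by rw [← (mem_Kc.1 hk q).eq, ← e.eq]; group
    _ = ι q * (k' * ι p) * k := by group
    _ = _ := by rw [(mem_Kc.1 hk' p).eq, map_mul]; group

variable {ι' : P →* G} (h : Hy ι) (f : Fr ι ι')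
include h f

theorem TK {a b c : F} (e : ι (u a b c) ∈ Kc ι') : u a b c = 1 := by
  have k : ∀ {p}, ι p ∈ Kc ι' → p * p = 1 → p = 1 := fun {p} e p2 => by_contra fun p1 =>
    h.not_DD (Fr.refl ι) p (DD.of_mem f e (by rw [← map_mul, p2, map_one]) fun e => p1 (h.inj (e.trans (map_one ι).symm)))
  exact k e (k (map_mul ι _ _ ▸ mul_mem e e) (by rw [u_sq, c_sq]))

theorem stepA (hn : ∀ a b c, ι (u a b c) ∈ Nn ι') (a b c : F) : ∃ q, ∃ κ ∈ Kc ι', ι (u a b c) = ι' q * κ := by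
  obtain ⟨p, l, m, φ, -, e2, e3⟩ := (h.fr f).sa (Y := M49.Tg.map ι)
    ((IsPGroup.of_card (p := 2) (n := 6) M49.card_Tg).map ι) (by rintro _ ⟨_, ⟨a, b, c, rfl⟩, rfl⟩; exact hn a b c)
  let ψ : M49.Tg →* SA := φ.comp (ι.subgroupMap M49.Tg)
  have inj : Function.Injective ψ := (injective_iff_map_eq_one _).2 (by
    rintro ⟨_, a, b, c, rfl⟩ e
    exact Subtype.ext (TK h f ((e2 _).1 e)))
  obtain ⟨x, hx⟩ : ∃ x : F → F → F → SA, ∀ a b c, x a b c = ψ ⟨u a b c, _, _, _, rfl⟩ := ⟨_, fun _ _ _ => rfl⟩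
  have mul : ∀ a b c a' b' c', x a b c * x a' b' c' = x (a + a') (b + b') (c + c' + a * b') := fun a b c a' b' c' => by
    rw [hx, hx, hx, ← map_mul]; exact congrArg ψ (Subtype.ext (u_mul ..))
  have xi : ∀ {a b c a' b' c'}, x a b c = x a' b' c' → a = a' ∧ b = b' ∧ c = c' := fun e => by
    rw [hx, hx] at e; exact u_inj (congrArg Subtype.val (inj e))
  have sq : ∀ a b c, a * b = 0 → x a b c * x a b c = 1 := fun a b c e => by
    rw [hx, ← map_mul, ← map_one ψ]; exact congrArg ψ (Subtype.ext (by rw [coe_mul, u_sq, e, u_zero]; rfl))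
  have cz : ∀ a b c d, Commute (x a b c) (x 0 0 d) := fun a b c d => by
    rw [hx, hx]; refine Commute.map ?_ ψ; exact Subtype.ext (u_cen a b c d)
  have z1 : ∀ d, (x 0 0 d).inZ := fun d => SA.C64 (sq _ _ _ (mul_zero _)) (by
    refine lt_of_lt_of_le ?_ (card_le_of_le (H := ψ.range) ?_)
    · rw [← Nat.card_congr (MonoidHom.ofInjective inj).toEquiv, M49.card_Tg]; decide
    · rintro _ ⟨⟨_, a, b, c, rfl⟩, rfl⟩
      exact mem_centralizer_singleton_iff.2 (hx a b c ▸ cz a b c d))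
  have z2 : ∀ y : SA, y.inZ → ∃ d, x 0 0 d = y := fun y hy => by
    obtain ⟨d, hd⟩ := Finite.injective_iff_surjective.1 (show Function.Injective fun d => (x 0 0 d).c from
      fun d d' e => (xi (SA.ext ((z1 d).1.trans (z1 d').1.symm) ((z1 d).2.1.trans (z1 d').2.1.symm) e
        ((z1 d).2.2.1.trans (z1 d').2.2.1.symm) ((z1 d).2.2.2.trans (z1 d').2.2.2.symm))).2.2) y.c
    exact ⟨d, SA.ext ((z1 d).1.trans hy.1.symm) ((z1 d).2.1.trans hy.2.1.symm) hd ((z1 d).2.2.1.trans hy.2.2.1.symm)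
      ((z1 d).2.2.2.trans hy.2.2.2.symm)⟩
  have j0 : ∀ a b c, (x a b c).j = false := fun a b c => by
    obtain ⟨d, hd⟩ := z2 ⟨0, 0, ω, false, false⟩ (by decide)
    exact SA.j_of_comm (hd ▸ cz a b c d)
  have k0 : ∀ (y : F → F → SA) (i : F → F → F × F), (∀ a c, y a c = x (i a c).1 (i a c).2 c) →
      (∀ a c, (i a c).1 * (i a c).2 = 0) → (∀ a, i a 0 = (0, 0) → a = 0) →
      (∀ a c a' c', y a c * y a' c' = y (a + a') (c + c')) → ∀ a c, (y a c).k = false := fun y i e1 e2 e3 e4 a c => by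
    by_contra hk
    have key : ∀ a', a' ≠ 0 → (y a' 0).k = true := fun a' n => by_contra fun hk' => by
      obtain ⟨d, hd⟩ := z2 _ (SA.Cg (e1 a c ▸ sq _ _ _ (e2 a c)) (e1 a c ▸ j0 ..) (by simpa using hk)
        (y := y a' 0) ⟨e1 a' 0 ▸ j0 .., by simpa using hk'⟩ (by
          rw [Commute, SemiconjBy, e4, e4, add_comm a, add_comm c]))
      have := xi (hd.trans (e1 a' 0))
      exact n (e3 a' (Prod.ext this.1.symm this.2.1.symm))
    have := congrArg SA.k (e4 1 0 ω 0)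
    rw [SA.mul_def, add_zero, key _ (by decide), key _ (by decide), key _ (by decide)] at this
    exact Bool.false_ne_true this
  have k1 := k0 (fun a c => x a 0 c) (fun a _ => (a, 0)) (fun _ _ => rfl) (fun _ _ => mul_zero _)
    (fun _ e => congrArg Prod.fst e) fun a c a' c' => by rw [mul]; simp
  have k2 := k0 (fun b c => x 0 b c) (fun b _ => (0, b)) (fun _ _ => rfl) (fun _ _ => zero_mul _)
    (fun _ e => congrArg Prod.snd e) fun a c a' c' => by rw [mul]; simp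
  have k3 : (x a b c).k = false := by
    have := congrArg SA.k (mul 0 b 0 a 0 c)
    rw [SA.mul_def, k1, k2] at this
    simpa using this.symm
  obtain ⟨κ, hκ, e⟩ := e3 ⟨ι (u a b c), _, ⟨a, b, c, rfl⟩, rfl⟩ ⟨hx a b c ▸ j0 a b c, hx a b c ▸ k3⟩
  exact ⟨_, κ, hκ, e⟩

theorem main {t : G} (ht : t ∈ Kc ι) (t2 : t * t = 1) (t1 : t ≠ 1) (hs : t * ι (u 0 0 1) ∈ Kc ι') (a b c : F) :
    ι (u a b c) ∈ ι'.range := by
  have h' := h.fr f
  have ct : ∀ p, Commute (ι p) t := fun p => (mem_Kc.1 ht p).symm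
  have cs : ∀ a b c, Commute (ι (u a b c)) (t * ι (u 0 0 1)) := fun a b c =>
    (ct _).mul_right ((u_cen ..).map ι)
  have hn : ∀ a b c, ι (u a b c) ∈ Nn ι' := fun a b c => h'.cent hs (by
    rw [← pow_two, (ct _).symm.mul_pow, pow_two, pow_two, t2, ← map_mul, c_sq, map_one, one_mul])
    (fun e => z_ne (h.LK (eq_inv_of_mul_eq_one_right e ▸ inv_mem ht))) (cs a b c)
  obtain ⟨q0, κ0, hκ0, e0⟩ := stepA h f hn 0 0 1
  have A : ∀ a b c, a * b = 0 → ¬ (a = 0 ∧ b = 0) → ι (u a b c) ∈ ι'.range := fun a b c ab n => by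
    obtain ⟨q, κ, hκ, e⟩ := stepA h f hn a b c
    have c1 : Commute (ι' q) (ι (u 0 0 1)) :=
      e0 ▸ (comm_of h' hκ0).2 (comm2 h' hκ hκ0 (e ▸ e0 ▸ (u_cen a b c 1).map ι))
    have e1 : κ = (ι' q)⁻¹ * ι (u a b c) := eq_inv_mul_of_mul_eq e.symm
    have c2 : Commute κ (ι (u 0 0 1)) := e1 ▸ c1.inv_left.mul_left ((u_cen ..).map ι)
    have c3 : κ ∈ Nn ι := h.cent ht t2 t1 (e1 ▸ Commute.mul_left (Commute.inv_left (by
      simpa using (mem_Kc.1 hs q).symm.mul_right c1.inv_right)) (ct _))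
    obtain ⟨d, k, hk, e2⟩ := h.cenT c3 fun a' b' c' => by
      obtain ⟨a'', b'', c'', e3⟩ := h.zT c3 one_ne_zero c2 a' b' c'
      have := mul_mem hκ (Kc_conj (hn a' b' c') (inv_mem hκ))
      rw [← mul_assoc, ← mul_assoc, e3, ← map_inv, ← map_mul, M49.u_inv, u_mul] at this
      have e4 := TK h f this
      rw [← u_mul, ← M49.u_inv, mul_inv_eq_one] at e4
      exact mul_inv_eq_iff_eq_mul.1 (e4 ▸ e3)
    have v2 : u a b c * u a b c = 1 := by rw [u_sq, ab, u_zero]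
    have κ2 := (sq_of h' hκ (by rw [← e, ← map_mul, v2, map_one])).2
    by_cases κ1 : κ = 1
    · exact ⟨q, by rw [e, κ1, mul_one]⟩
    by_cases d0 : d = 0
    · rw [d0, u_zero, map_one, one_mul] at e2
      rw [h.same f (e2 ▸ hk) hκ κ2 κ1]
      exact ⟨_, rfl⟩
    exfalso
    obtain ⟨g, e3⟩ := inv_conj (c_sq d) fun e => d0 (u_one e).2.2
    obtain ⟨g', e4⟩ := inv_conj (p := u a b c * u 0 0 d) (by rw [u_mul, u_sq, add_zero, add_zero, ab, u_zero]) fun e => by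
      rw [u_mul, add_zero, add_zero] at e
      exact n ⟨(u_one e).1, (u_one e).2.1⟩
    refine h.not_DD f q ?_
    have e5 : ι' q = ι (g'⁻¹ * g) * κ * (ι (g'⁻¹ * g))⁻¹ := by
      rw [eq_mul_inv_of_mul_eq e.symm, inv_eq_of_mul_eq_one_right κ2, e2, ← mul_assoc, ← mul_assoc, ← map_mul,
        ← map_mul, mul_assoc _ k, ← map_inv, (mem_Kc.1 hk _).eq, ← mul_assoc, ← map_mul]
      congr 2
      calc _ = g'⁻¹ * (g' * (u a b c * u 0 0 d) * g'⁻¹) * g' := by group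
        _ = _ := by rw [e4, ← e3]; group
    exact e5 ▸ (DD.of_mem f hκ κ2 κ1).conj _
  have B : ∀ a c, ι (u a 0 c) ∈ ι'.range := fun a c => by
    by_cases e : a = 0
    · have := mul_mem (A 1 0 0 (mul_zero _) (by simp)) (A 1 0 c (mul_zero _) (by simp))
      rw [← map_mul, u_mul, SA.two] at this
      simpa [e] using this
    · exact A a 0 c (mul_zero _) fun e' => e e'.1
  by_cases e : b = 0
  · exact e ▸ B a c
  · have := mul_mem (A 0 b 0 (zero_mul _) fun e' => e e'.2) (B a c)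
    rw [← map_mul, u_mul] at this
    simpa using this

end LB

theorem Hy.lemB (h : Hy ι) {ι' : P →* G} (f : Fr ι ι') {t : G} (ht : t ∈ Kc ι) (t2 : t * t = 1)
    (t1 : t ≠ 1) {l : P} (l2 : l * l = 1) (l1 : l ≠ 1) (hs : t * ι l ∈ Kc ι') :
    (∀ p, Commute p l → ι p ∈ ι'.range) ∧ ∀ k ∈ Kc ι', Commute k (t * ι l) →
      ∃ k' ∈ Kc ι, ∃ p, p * p = 1 ∧ (∀ p', Commute p' l → Commute p' p) ∧ k = k' * ι p := by
  obtain ⟨g, e⟩ := inv_conj l2 l1
  have f0 := Fr.tw ι (MulAut.conj g⁻¹)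
  have h0 := h.fr f0
  have e0 : ∀ p, tw ι (MulAut.conj g⁻¹) (g * p * g⁻¹) = ι p := fun p => by rw [tw_apply]; simp [mul_assoc]
  have ht0 : t ∈ Kc (tw ι (MulAut.conj g⁻¹)) := by rwa [LA.Kc_tw]
  have m := LB.main h0 (f0.symm.trans f) ht0 t2 t1 (by rwa [← e, e0])
  refine ⟨fun p c => ?_, fun k hk c => ?_⟩
  · obtain ⟨a, b, c, e1⟩ := cent_z (e ▸ c.conj g)
    rw [← e0, e1]
    exact m a b c
  · have cT : ∀ a b c, Commute k (tw ι (MulAut.conj g⁻¹) (u a b c)) := fun a b c => by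
      obtain ⟨q, hq⟩ := m a b c
      exact hq ▸ mem_Kc.1 hk q
    have c1 := cT 0 0 1
    rw [← e, e0] at c1
    obtain ⟨d, k', hk', e1⟩ := h0.cenT (h0.cent ht0 t2 t1 (by simpa using c.mul_right c1.inv_right)) cT
    rw [LA.Kc_tw] at hk'
    refine ⟨k', hk', MulAut.conj g⁻¹ (u 0 0 d), by rw [← map_mul, LA.c_sq, map_one], fun p c => ?_,
      e1.trans (mem_Kc.1 hk' _).eq.symm⟩
    obtain ⟨a, b, c, e1⟩ := cent_z (e ▸ c.conj g)
    simpa [mul_assoc] using (e1 ▸ LA.u_cen a b c d :).map (MulAut.conj g⁻¹)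

end Cfsg.Agent.LS
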