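import Cfsg.Agent.LS.Defs

set_option autoImplicit false
set_option maxRecDepth 100000
set_option synthInstance.maxSize 4096

namespace Cfsg.Agent.LS

open Subgroup H29
open scoped commutatorElement

namespace Mp

/-- linear maps -/
def Lin (f : V4 → V4) : Prop := (∀ v w, f (v + w) = f v + f w) ∧ ∀ (l : F) v, f (l • v) = l • f v

/-- agreement on the basis -/
def Ag (f g : V4 → V4) : Prop := f (0, 0, 1, 0) = g (0, 0, 1, 0) ∧ f (1, 0, 0, 0) = g (1, 0, 0, 0) ∧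
  f (0, 1, 0, 0) = g (0, 1, 0, 0) ∧ f (0, 0, 0, 1) = g (0, 0, 0, 1)

instance (f g : V4 → V4) : Decidable (Ag f g) := inferInstanceAs (Decidable (_ ∧ _))

theorem dec (v : V4) : v = v.1 • ((1, 0, 0, 0) : V4) + v.2.1 • ((0, 1, 0, 0) : V4) +
    v.2.2.1 • ((0, 0, 1, 0) : V4) + v.2.2.2 • ((0, 0, 0, 1) : V4) := by
  ext <;> simp

theorem Lin.val {f : V4 → V4} (h : Lin f) (v : V4) : f v = v.1 • f (1, 0, 0, 0) + v.2.1 • f (0, 1, 0, 0) +
    v.2.2.1 • f (0, 0, 1, 0) + v.2.2.2 • f (0, 0, 0, 1) := by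
  rw [← h.2, ← h.2, ← h.2, ← h.2, ← h.1, ← h.1, ← h.1, ← dec]

theorem Ag.ext {f g : V4 → V4} (h : Ag f g) (hf : Lin f) (hg : Lin g) (v : V4) : f v = g v := by
  rw [hf.val, hg.val, h.1, h.2.1, h.2.2.1, h.2.2.2]

theorem ag_of {f g : V4 → V4} (h : ∀ v, f v = g v) : Ag f g := ⟨h _, h _, h _, h _⟩

theorem Lin.comp {f g : V4 → V4} (hf : Lin f) (hg : Lin g) : Lin fun v => f (g v) :=
  ⟨fun v w => by beta_reduce; rw [hg.1, hf.1], fun l v => by beta_reduce; rw [hg.2, hf.2]⟩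

theorem lin_id : Lin fun v => v := ⟨fun _ _ => rfl, fun _ _ => rfl⟩

theorem lin_f1 (k μ : F) : Lin (f1 k μ) :=
  ⟨fun v w => by ext <;> simp [f1] <;> ring, fun l v => by ext <;> simp [f1] <;> ring⟩

theorem lin_rot (n : F) : Lin (rot n) :=
  ⟨fun v w => by ext <;> simp [rot] <;> ring, fun l v => by ext <;> simp [rot] <;> ring⟩

theorem lin_sw0 : Lin sw0 := ⟨fun _ _ => rfl, fun _ _ => rfl⟩

theorem lin_swp : Lin swp := ⟨fun _ _ => rfl, fun _ _ => rfl⟩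

theorem lin_ev (i : Ix) : Lin (ev i) := by
  obtain ⟨b, μ, ν, κ⟩ := i
  cases b
  · exact (lin_f1 1 μ).comp (lin_rot ν)
  · exact (lin_f1 1 μ).comp ((lin_rot ν).comp (lin_sw0.comp (lin_f1 1 κ)))

theorem sq_add : ∀ x y : F, (x + y) * (x + y) = x * x + y * y := by decide

/-- a property that holds for the generators holds for all `ev i` -/
theorem ev_ind {p : (V4 → V4) → Prop} (h0 : p fun v => v) (h1 : ∀ μ f, p f → p fun v => f1 1 μ (f v))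
    (h2 : ∀ ν f, p f → p fun v => rot ν (f v)) (h3 : ∀ f, p f → p fun v => sw0 (f v)) (i : Ix) :
    p (ev i) := by
  obtain ⟨b, μ, ν, κ⟩ := i
  cases b
  · exact h1 μ _ (h2 ν _ h0)
  · exact h1 μ _ (h2 ν _ (h3 _ (h1 κ _ h0)))

theorem q4_f1 : ∀ (μ : F) (v : V4), q4 (f1 1 μ v) = q4 v := by decide +kernel

theorem q4_rot : ∀ (μ : F) (v : V4), q4 (rot μ v) = q4 v := by decide +kernel

theorem q4_sw0 (v : V4) : q4 (sw0 v) = q4 v := by simp only [q4, sw0]; ring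

theorem sg_f1 : ∀ (μ : F) (v : V4), sg (f1 1 μ v) = f1 1 μ (sg v) := by decide +kernel

theorem sg_rot : ∀ (μ : F) (v : V4), sg (rot μ v) = rot μ (sg v) := by decide +kernel

theorem ag_f1 : ∀ μ μ' : F, Ag (fun v => f1 1 μ (f1 1 μ' v)) (f1 1 (μ + μ')) := by decide +kernel

end Mp

open Mp

theorem f1_add (k μ : F) (v w : V4) : f1 k μ (v + w) = f1 k μ v + f1 k μ w := (lin_f1 k μ).1 v w

theorem f1_f1 (μ μ' : F) (v : V4) : f1 1 μ (f1 1 μ' v) = f1 1 (μ + μ') v :=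
  (ag_f1 μ μ').ext ((lin_f1 _ _).comp (lin_f1 _ _)) (lin_f1 _ _) v

theorem sg_add (v w : V4) : sg (v + w) = sg v + sg w := by
  ext <;> exact sq_add _ _

theorem sg_sg (v : V4) : sg (sg v) = v := by revert v; decide +kernel

theorem q4_sg (v : V4) : q4 (sg v) = q4 v * q4 v := by revert v; decide +kernel

theorem b4_sg (v w : V4) : b4 (sg v) (sg w) = b4 v w * b4 v w := by
  simp only [b4, sg, sq_add]; ring

theorem NV_sg {v : V4} (h : NV v) : NV (sg v) := by revert v; decide +kernel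

theorem ev_add (i : Ix) (v w : V4) : ev i (v + w) = ev i v + ev i w := (lin_ev i).1 v w

theorem ev_smul (i : Ix) (l : F) (v : V4) : ev i (l • v) = l • ev i v := (lin_ev i).2 l v

theorem q4_ev (i : Ix) (v : V4) : q4 (ev i v) = q4 v :=
  ev_ind (p := fun f => q4 (f v) = q4 v) rfl (fun _ _ h => (q4_f1 _ _).trans h)
    (fun _ _ h => (q4_rot _ _).trans h) (fun _ h => (q4_sw0 _).trans h) i

theorem sg_ev (i : Ix) (v : V4) : sg (ev i v) = ev i (sg v) :=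
  ev_ind (p := fun f => sg (f v) = f (sg v)) rfl (fun μ _ h => (sg_f1 _ _).trans (congrArg (f1 1 μ) h))
    (fun ν _ h => (sg_rot _ _).trans (congrArg (rot ν) h)) (fun _ h => congrArg sw0 h) i

namespace Mp

/-- the maps `ev k` -/
def S (f : V4 → V4) : Prop := ∃ k, ∀ v, f v = ev k v

theorem S_id : S fun v => v :=
  ⟨(false, 0, 0, 0), Ag.ext (by decide +kernel) lin_id (lin_ev _)⟩

theorem S.f1 (μ : F) {f : V4 → V4} (h : S f) : S fun v => f1 1 μ (f v) := by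
  obtain ⟨k, h⟩ := h
  exact ⟨(k.1, μ + k.2.1, k.2.2), fun v => by beta_reduce; rw [h]; exact f1_f1 _ _ _⟩

theorem ag_rot : ∀ ν μ ν' : F, Ag (fun v => rot ν (LS.f1 1 μ (rot ν' v)))
    fun v => LS.f1 1 (nz ν * nz ν * μ) (rot (nz ν * nz ν') v) := by decide +kernel

theorem S.rot (ν : F) {f : V4 → V4} (h : S f) : S fun v => rot ν (f v) := by
  obtain ⟨k, h⟩ := h
  exact ⟨(k.1, nz ν * nz ν * k.2.1, nz ν * nz k.2.2.1, k.2.2.2), fun v => by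
    beta_reduce
    rw [h]
    exact (ag_rot ν k.2.1 k.2.2.1).ext ((lin_rot _).comp ((lin_f1 _ _).comp (lin_rot _)))
      ((lin_f1 _ _).comp (lin_rot _)) _⟩

theorem ag_sw0 : ∀ i : Ix, ∃ k, Ag (fun v => sw0 (ev i v)) (ev k) := by decide +kernel

theorem S.sw0 {f : V4 → V4} (h : S f) : S fun v => sw0 (f v) := by
  obtain ⟨k, h⟩ := h
  obtain ⟨j, hj⟩ := ag_sw0 k
  exact ⟨j, fun v => by beta_reduce; rw [h]; exact hj.ext (lin_sw0.comp (lin_ev _)) (lin_ev _) v⟩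

theorem S.ev (i : Ix) {f : V4 → V4} (h : S f) : S fun v => ev i (f v) :=
  ev_ind (p := fun g => S fun v => g (f v)) h (fun μ _ h => h.f1 μ) (fun ν _ h => h.rot ν)
    (fun _ h => h.sw0) i

theorem ag_rr : ∀ ν : F, Ag (fun v => rot ν (rot (nz ν * nz ν) v)) (fun v => v) ∧
    Ag (fun v => rot (nz ν * nz ν) (rot ν v)) (fun v => v) := by decide +kernel

theorem f1_inv (μ : F) (v : V4) : f1 1 μ (f1 1 μ v) = v := by
  rw [f1_f1, SA.two]; ext <;> simp [f1]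

theorem ag_f2 : ∀ μ : F, Ag (fun v => swp (f1 1 μ (swp v))) fun v => sw0 (f1 1 (μ * μ) (sw0 v)) := by
  decide +kernel

end Mp

theorem ev_mul (i j : Ix) : ∃ k, ∀ v, ev i (ev j v) = ev k v := S.ev i ⟨j, fun _ => rfl⟩

theorem ev_inv (i : Ix) : ∃ j, (∀ v, ev j (ev i v) = v) ∧ ∀ v, ev i (ev j v) = v := by
  obtain ⟨b, μ, ν, κ⟩ := i
  have r1 := (ag_rr ν).1.ext ((lin_rot _).comp (lin_rot _)) lin_id
  have r2 := (ag_rr ν).2.ext ((lin_rot _).comp (lin_rot _)) lin_id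
  have s : ∀ v, sw0 (sw0 v) = v := fun _ => rfl
  have h := (S_id.f1 μ).rot (nz ν * nz ν)
  cases b
  · obtain ⟨j, hj⟩ := h
    refine ⟨j, fun v => ?_, fun v => ?_⟩ <;> rw [← hj] <;> simp only [ev, cond_false, f1_inv, r1, r2]
  · obtain ⟨j, hj⟩ := h.sw0.f1 κ
    refine ⟨j, fun v => ?_, fun v => ?_⟩ <;> rw [← hj] <;> simp only [ev, cond_true, f1_inv, r1, r2, s]

namespace Mp

theorem ev_ne (i : Ix) (v : V4) : ev i v ≠ 0 ↔ v ≠ 0 := by
  have z : ∀ j, ev j 0 = 0 := fun j => by simpa using ev_smul j 0 0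
  obtain ⟨j, h, -⟩ := ev_inv i
  exact not_congr ⟨fun e => by rw [← h v, e, z], fun e => by rw [e, z]⟩

theorem NV_ev' (i : Ix) {v : V4} (h : NV v) : NV (ev i v) := by
  obtain ⟨h1, h2, l, h3⟩ := h
  exact ⟨(ev_ne i v).2 h1, (q4_ev i v).trans h2, l, by rw [sg_ev, h3, ev_smul]⟩

end Mp

theorem NV_ev (i : Ix) (v : V4) : NV (ev i v) ↔ NV v := by
  obtain ⟨j, h, -⟩ := ev_inv i
  exact ⟨fun c => h v ▸ NV_ev' j c, NV_ev' i⟩

theorem DV_ev (i : Ix) (v : V4) : DV (ev i v) ↔ DV v := by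
  rw [DV, DV, ev_ne, q4_ev, NV_ev]

theorem swp_ev (i : Ix) : ∃ j, ∀ v, swp (ev i (swp v)) = ev j v := by
  refine ev_ind (p := fun g => S fun v => swp (g (swp v))) S_id (fun μ f h => ?_) (fun ν f h => h.rot ν)
    (fun f h => h.sw0) i
  obtain ⟨j, hj⟩ := (h.sw0.f1 (μ * μ)).sw0
  exact ⟨j, fun v => ((ag_f2 μ).ext (lin_swp.comp ((lin_f1 _ _).comp lin_swp))
    (lin_sw0.comp ((lin_f1 _ _).comp lin_sw0)) (swp (f (swp v)))).trans (hj v)⟩

theorem swp_ne (i : Ix) : ¬ ∀ v, swp v = ev i v := fun h =>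
  (by decide +kernel : ∀ i, ¬ Ag swp (ev i)) i (ag_of h)

theorem DV_orb {v : V4} (h : DV v) : ∃ i, v = ev i (0, 0, 1, 0) := by revert v; decide +kernel

theorem NV_orb {v : V4} (h : NV v) : ∃ i a, a ≠ 0 ∧ ev i v = (a, 0, 0, 0) := by
  obtain ⟨b, κ, h⟩ := (by decide +kernel : ∀ v : V4, NV v → ∃ (b : Bool) (κ a : F), a ≠ 0 ∧
    ev (b, 0, 0, κ) v = (a, 0, 0, 0)) v h
  exact ⟨_, h⟩

namespace Mp

theorem b4_add (v w x : V4) : b4 (v + w) x = b4 v x + b4 w x := by simp [b4]; ring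

theorem b4_smul (l : F) (v x : V4) : b4 (l • v) x = l * b4 v x := by simp [b4]; ring

theorem b4_ext {v w : V4} (h : ∀ x, b4 v x = b4 w x) : v = w := by
  have h1 := h (1, 0, 0, 0)
  have h2 := h (0, 1, 0, 0)
  have h3 := h (0, 0, 1, 0)
  have h4 := h (0, 0, 0, 1)
  simp [b4] at h1 h2 h3 h4
  ext <;> assumption

theorem b4_q4 (v w : V4) : b4 v w = q4 (v + w) - q4 v - q4 w := by simp [b4, q4]; ring

theorem b4_ev (i : Ix) (v w : V4) : b4 (ev i v) (ev i w) = b4 v w := by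
  rw [b4_q4, ← ev_add, q4_ev, q4_ev, q4_ev, b4_q4]

theorem cls : ∀ a : F, a ≠ 0 → ∀ y : V4, b4 (a, 0, 0, 0) y = 1 → NV y → ∀ z : V4, b4 (a, 0, 0, 0) z = 0 →
    b4 y z = 0 → q4 z = 0 → ∀ t : V4, b4 (a, 0, 0, 0) t = 0 → b4 y t = 0 → q4 t = 0 → b4 z t = 1 →
    NV ((a, 0, 0, 0) + y + z + t) → ∃ i, z = ev i (0, 0, 1, 0) ∧ t = ev i (0, 0, 0, 1) ∧
      ((a, 0, 0, 0) = ev i (1, 0, 0, 0) ∧ y = ev i (0, 1, 0, 0) ∨
        y = ev i (1, 0, 0, 0) ∧ (a, 0, 0, 0) = ev i (0, 1, 0, 0)) := by decide +kernel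

theorem lin_of (f : V4 → V4) (ha : ∀ v w, f (v + w) = f v + f w)
    (hb : ∀ v w, b4 (f v) (f w) = b4 v w) : Lin f := by
  have hi : Function.Injective f := fun v w e => b4_ext fun x => by rw [← hb, e, hb]
  refine ⟨ha, fun l v => b4_ext fun x => ?_⟩
  obtain ⟨x, rfl⟩ := Finite.surjective_of_injective hi x
  rw [hb, b4_smul, b4_smul, hb]

end Mp

/-- the linear maps preserving `q4` and `NV` -/
theorem lin_cls (f : V4 → V4) (ha : ∀ v w, f (v + w) = f v + f w)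
    (hb : ∀ v w, b4 (f v) (f w) = b4 v w) (hq : ∀ v, q4 (f v) = q4 v) (hN : ∀ v, NV v → NV (f v)) :
    ∃ i, (∀ v, f v = ev i v) ∨ ∀ v, f v = ev i (swp v) := by
  obtain ⟨j, a, ha0, e⟩ := NV_orb (hN (1, 0, 0, 0) (by decide))
  have L := (lin_ev j).comp (lin_of f ha hb)
  have B : ∀ v w, b4 (ev j (f v)) (ev j (f w)) = b4 v w := fun v w => by rw [b4_ev, hb]
  have Q : ∀ v, q4 (ev j (f v)) = q4 v := fun v => by rw [q4_ev, hq]
  obtain ⟨i, h3, h4, h⟩ := cls a ha0 (ev j (f (0, 1, 0, 0))) (by rw [← e, B]; decide)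
    (NV_ev' j (hN _ (by decide))) (ev j (f (0, 0, 1, 0))) (by rw [← e, B]; decide) (by rw [B]; decide)
    (by rw [Q]; decide) (ev j (f (0, 0, 0, 1))) (by rw [← e, B]; decide) (by rw [B]; decide)
    (by rw [Q]; decide) (by rw [B]; decide)
    (by rw [← e, ← ev_add, ← ev_add, ← ev_add, ← ha, ← ha, ← ha]; exact NV_ev' j (hN _ (by decide)))
  obtain ⟨j', hj, -⟩ := ev_inv j
  obtain ⟨k, hk⟩ := ev_mul j' i
  rw [← e] at h
  refine ⟨k, h.imp (fun h v => ?_) fun h v => ?_⟩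
  · rw [← hk, ← Ag.ext ⟨h3, h.1, h.2, h4⟩ L (lin_ev i) v, hj]
  · rw [← hk, ← Ag.ext (g := fun v => ev i (swp v)) ⟨h3, h.2, h.1, h4⟩ L ((lin_ev i).comp lin_swp) v, hj]

/-- involutions of `A₅` -/
theorem ev_invol {i : Ix} (h : ∀ v, ev i (ev i v) = v) :
    (∀ v, ev i v = v) ∨ ∃ j μ, μ ≠ 0 ∧ ∀ v, ev j (ev i v) = f1 1 μ (ev j v) := by
  rcases (by decide +kernel : ∀ i : Ix, ev i (ev i (0, 0, 1, 0)) = (0, 0, 1, 0) → Ag (ev i) (fun v => v) ∨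
    ∃ (b : Bool) (κ μ : F), μ ≠ 0 ∧ Ag (fun v => ev (b, 0, 0, κ) (ev i v))
      fun v => f1 1 μ (ev (b, 0, 0, κ) v)) i (h _) with c | ⟨b, κ, μ, h0, c⟩
  · exact Or.inl (c.ext (lin_ev i) lin_id)
  · exact Or.inr ⟨_, μ, h0, c.ext ((lin_ev _).comp (lin_ev _)) ((lin_f1 _ _).comp (lin_ev _))⟩

/-- transpositions of `S₅` -/
theorem ev_refl {i : Ix} (h : ∀ v, ev i (swp (ev i (swp v))) = v) :
    ∃ j, ∀ v, ev j (ev i (swp v)) = swp (ev j v) := by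
  obtain ⟨b, μ, κ, c⟩ := (by decide +kernel : ∀ i : Ix,
    ev i (swp (ev i (swp (0, 0, 1, 0)))) = (0, 0, 1, 0) →
    ∃ (b : Bool) (μ κ : F), Ag (fun v => ev (b, μ, 0, κ) (ev i (swp v)))
      fun v => swp (ev (b, μ, 0, κ) v)) i (h _)
  exact ⟨_, c.ext ((lin_ev _).comp ((lin_ev _).comp lin_swp)) (lin_swp.comp (lin_ev _))⟩

/-- the stabiliser of a special point -/
theorem ev_fix {i : Ix} {a : F} (ha : a ≠ 0) (h : ev i (a, 0, 0, 0) = (a, 0, 0, 0)) :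
    ∃ μ ν, ∀ v, ev i v = f1 1 μ (rot ν v) := by
  have := (by decide +kernel : ∀ (i : Ix) (a : F), a ≠ 0 → ev i (a, 0, 0, 0) = (a, 0, 0, 0) → i.1 = false)
    i a ha h
  exact ⟨i.2.1, i.2.2.1, fun v => by rw [ev, this]; rfl⟩

theorem free_f1 {μ : F} (hμ : μ ≠ 0) {v : V4} (h : f1 1 μ v = v) : ∃ w, v = w + f1 1 μ w := by
  obtain ⟨b, ρ, c⟩ := (by decide +kernel : ∀ μ : F, μ ≠ 0 → ∀ v : V4, f1 1 μ v = v →
    ∃ b ρ : F, v = (0, b, ρ, 0) + f1 1 μ (0, b, ρ, 0)) μ hμ v h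
  exact ⟨_, c⟩

theorem free_sg (μ : F) {v : V4} (h : sg (f1 1 μ v) = v) : ∃ w, v = w + sg (f1 1 μ w) :=
  ⟨ω • v, (by decide +kernel : ∀ (μ : F) (v : V4), sg (f1 1 μ v) = v →
    v = ω • v + sg (f1 1 μ (ω • v))) μ v h⟩

end Cfsg.Agent.LS
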