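import Cfsg.Agent.LS.Defs
import Cfsg.Agent.H9.SLBasic

/-! Matrix facts in `L₃(4)`. -/

set_option autoImplicit false

namespace Cfsg.Agent.LS

open Subgroup H29
open scoped commutatorElement

namespace M49

abbrev S3 : Type := Matrix.SpecialLinearGroup (Fin 3) F

abbrev M3 : Type := Matrix (Fin 3) (Fin 3) F

theorem mk_eq {s t : S3} (r : F) (h : (t : M3) = r • (s : M3)) : (QuotientGroup.mk s : P) = QuotientGroup.mk t :=
  psl_mk_eq_iff.2 ⟨r, h⟩

theorem conj_eq {g s t : S3} (r : F) (h : (t : M3) * g = r • ((g : M3) * s)) :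
    (QuotientGroup.mk g * QuotientGroup.mk s * (QuotientGroup.mk g)⁻¹ : P) = QuotientGroup.mk t :=
  mul_inv_eq_iff_eq_mul.2 (mk_eq (s := g * s) (t := t * g) r h)

theorem pc_eq {g : GL (Fin 3) F} {s t : S3} (r : F) (h : (t : M3) * g = r • ((g : M3) * s)) :
    pslConj (Fin 3) F g (QuotientGroup.mk s) = QuotientGroup.mk t :=
  mk_eq (s := slConjElt g s) r
    (by rw [slConjElt_coe, ← Matrix.smul_mul, ← h, Matrix.mul_assoc, Units.mul_inv, Matrix.mul_one])

/-- the unitriangular matrices -/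
def uS (a b c : F) : S3 := ⟨!![1, a, c; 0, 1, b; 0, 0, 1], by simp [Matrix.det_fin_three]⟩

/-- a permutation matrix -/
def w1S : S3 := ⟨!![1, 0, 0; 0, 0, 1; 0, 1, 0], by simp only [Matrix.det_fin_three]; decide⟩

/-- a permutation matrix -/
def w2S : S3 := ⟨!![0, 1, 0; 1, 0, 0; 0, 0, 1], by simp only [Matrix.det_fin_three]; decide⟩

/-- the antidiagonal matrix -/
def W0 : M3 := !![0, 0, 1; 0, 1, 0; 1, 0, 0]

theorem w0_sq : w0 * w0 = 1 := mk_eq (s := _ * _) (t := 1) 1 (by decide +kernel)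

theorem gr_eq {s t : S3} (r : F) (h : 1 = r • (W0 * (s : M3).transpose * W0 * t)) :
    gr (QuotientGroup.mk s) = QuotientGroup.mk t := by
  rw [← inv_mul_eq_one, ← map_inv, ← QuotientGroup.mk_inv, gr, MulAut.mul_apply, MulAut.conj_apply,
    inv_eq_of_mul_eq_one_right w0_sq, invT_mk]
  refine mk_eq (s := _ * _ * _ * _) (t := 1) r ?_
  change 1 = r • (W0 * ((s⁻¹⁻¹ : S3) : M3).transpose * W0 * t)
  rwa [inv_inv]

theorem mul_conj {G : Type*} [Group G] (β : MulAut G) (p : G) : β * MulAut.conj p = MulAut.conj (β p) * β :=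
  MulEquiv.ext fun x => by simp

end M49

open M49

theorem u_mul (a b c a' b' c' : F) :
    u a b c * u a' b' c' = u (a + a') (b + b') (c + c' + a * b') :=
  mk_eq (s := _ * _) 1 (by
    change !![1, a + a', c + c' + a * b'; 0, 1, b + b'; 0, 0, 1] =
      (1 : F) • (!![1, a, c; 0, 1, b; 0, 0, 1] * !![1, a', c'; 0, 1, b'; 0, 0, 1])
    rw [Matrix.mul_fin_three, one_smul, add_comm a, add_comm b, show c + c' + a * b' = c' + a * b' + c by ring]
    simp)

theorem u_zero : u 0 0 0 = 1 := mk_eq (t := 1) 1 (by decide +kernel)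

theorem u_inj {a b c a' b' c' : F} (h : u a b c = u a' b' c') : a = a' ∧ b = b' ∧ c = c' := by
  obtain ⟨r, e⟩ := psl_mk_eq_iff.1 h
  have k := fun i j => congrFun (congrFun e i) j
  have k0 := k 0 0
  have k1 := k 0 1
  have k2 := k 1 2
  have k3 := k 0 2
  simp at k0 k1 k2 k3
  subst k0
  simp_all

theorem hh_u (a b c : F) : hh * u a b c * hh⁻¹ = u (ω * a) (ω * b) (ω * ω * c) :=
  conj_eq 1 (by revert a b c; decide +kernel)

theorem hh_cube : hh ^ 3 = 1 := mk_eq (s := _ ^ 3) (t := 1) 1 (by decide +kernel)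

theorem w1_u (a c : F) : w1 * u a 0 c * w1⁻¹ = u c 0 a := conj_eq 1 (by revert a c; decide +kernel)

theorem w1_hh : w1 * hh * w1⁻¹ = hh⁻¹ :=
  eq_inv_of_mul_eq_one_left (by
    rw [show w1⁻¹ = w1 from inv_eq_of_mul_eq_one_right (mk_eq (s := _ * _) (t := 1) 1 (by decide +kernel))]
    exact mk_eq (s := _ * _ * _ * _) (t := 1) ω (by decide +kernel))

theorem dg_u (l m : Fˣ) (a b c : F) : dg l m (u a b c) = u (l * a) (m * b) (l * m * c) :=
  pc_eq 1 ((by decide +kernel : ∀ l m a b c : F, !![1, l * a, l * m * c; 0, 1, m * b; 0, 0, 1] *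
    !![l * m, 0, 0; 0, m, 0; 0, 0, 1] = (1 : F) • (!![l * m, 0, 0; 0, m, 0; 0, 0, 1] * !![1, a, c; 0, 1, b; 0, 0, 1]))
    l m a b c)

theorem fr_u (a b c : F) : fr (u a b c) = u (a * a) (b * b) (c * c) :=
  mk_eq 1 ((by decide +kernel : ∀ a b c : F, !![1, a * a, c * c; 0, 1, b * b; 0, 0, 1] =
    (1 : F) • !![1, a, c; 0, 1, b; 0, 0, 1].map fun x => x * x) a b c)

theorem gr_u (a b c : F) : gr (u a b c) = u b a (c + a * b) := gr_eq 1 (by revert a b c; decide +kernel)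

theorem dg_hh (l m : Fˣ) : dg l m hh = hh :=
  pc_eq 1 ((by decide +kernel : ∀ l m : F, !![ω, 0, 0; 0, 1, 0; 0, 0, ω * ω] *
    !![l * m, 0, 0; 0, m, 0; 0, 0, 1] = (1 : F) • (!![l * m, 0, 0; 0, m, 0; 0, 0, 1] * !![ω, 0, 0; 0, 1, 0; 0, 0, ω * ω]))
    l m)

theorem gr_hh : gr hh = hh := gr_eq 1 (by decide +kernel)

theorem gr_gr : gr * gr = 1 := by
  have h : invT (Fin 3) F w0 = w0 := by
    have : gr w0 = w0 := gr_eq 1 (by decide +kernel)
    rw [gr, MulAut.mul_apply, MulAut.conj_apply, mul_inv_eq_iff_eq_mul] at this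
    exact mul_left_cancel this
  rw [gr, mul_assoc, ← mul_assoc (invT _ _), mul_conj, mul_assoc, invT_mul_self, mul_one, h, ← map_mul, w0_sq, map_one]

theorem dg_one : dg 1 1 = 1 := by
  rw [dg, ← map_one (pslConj (Fin 3) F)]
  exact congrArg _ (Units.ext (by decide +kernel))

theorem cent_z {p : P} (h : Commute p (u 0 0 1)) : ∃ a b c, p = u a b c := by
  obtain ⟨s, rfl⟩ := QuotientGroup.mk_surjective p
  obtain ⟨r, e⟩ := psl_mk_eq_iff.1 (show (QuotientGroup.mk (s * _) : P) = QuotientGroup.mk (_ * s) from h)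
  obtain ⟨A, d⟩ := s
  change !![1, 0, 1; 0, 1, 0; 0, 0, 1] * A = r • (A * !![1, 0, 1; 0, 1, 0; 0, 0, 1]) at e
  have k := fun i j => congrFun (congrFun e i) j
  have k0 := k 0 1
  have k1 := k 0 2
  have k2 := k 1 0
  have k3 := k 1 1
  have k4 := k 1 2
  have k5 := k 2 2
  simp [Matrix.mul_apply, Fin.sum_univ_three, Matrix.det_fin_three, -mul_eq_zero] at k0 k1 k2 k3 k4 k5 d
  have r1 : r = 1 := by
    refine ((by decide +kernel : ∀ r x y z : F, x = r * x → y = r * y → z = r * (x + z) →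
      r = 1 ∨ (x = 0 ∧ y = 0 ∧ z = 0)) r _ _ _ k2 k3 k4).resolve_right fun n => ?_
    simp [n.1, n.2.1, n.2.2] at d
  subst r1
  simp only [one_mul] at k0 k1 k4 k5
  have e1 : A 1 0 = 0 := by linear_combination -k4
  have e2 : A 2 0 = 0 := by linear_combination -k5
  have e3 : A 2 1 = 0 := by linear_combination k0
  have e4 : A 2 2 = A 0 0 := by linear_combination k1
  simp only [e1, e2, e3, e4, mul_zero, zero_mul, sub_zero, add_zero] at d
  refine ⟨A 0 0 * A 0 0 * A 0 1, A 0 0 * A 0 0 * A 1 2, A 0 0 * A 0 0 * A 0 2, mk_eq (A 0 0 * A 0 0) ?_⟩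
  change _ = _ • A
  rw [Matrix.eta_fin_three A, e1, e2, e3, e4]
  generalize A 0 0 = a, A 1 1 = b, A 0 1 = x, A 1 2 = y, A 0 2 = z at d ⊢
  revert a b x y z
  decide +kernel

theorem simple_P : IsSimpleGroup P := H9.psl_isSimpleGroup (by simp)

theorem card_P : Nat.card P = 20160 := by
  have h1 : 3 * Nat.card S3 = 181440 := (H9.card_sl_fin (F := F) 3 (by norm_num)).trans (by decide +kernel)
  have h2 : 3 * Nat.card P = Nat.card S3 := H9.gcd_mul_card_psl (ι := Fin 3) (F := F)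
  omega

namespace M49

theorem u_inv (a b c : F) : (u a b c)⁻¹ = u a b (c + a * b) :=
  inv_eq_of_mul_eq_one_right (by rw [u_mul, SA.two, SA.two, ← add_assoc, SA.two, zero_add, SA.two, u_zero])

/-- the unitriangular group -/
def Tg : Subgroup P where
  carrier := {p | ∃ a b c, p = u a b c}
  mul_mem' := by rintro _ _ ⟨a, b, c, rfl⟩ ⟨a', b', c', rfl⟩; exact ⟨_, _, _, u_mul ..⟩
  one_mem' := ⟨0, 0, 0, u_zero.symm⟩
  inv_mem' := by rintro _ ⟨a, b, c, rfl⟩; exact ⟨_, _, _, u_inv ..⟩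

theorem card_Tg : Nat.card Tg = 64 := by
  rw [← Nat.card_congr (Equiv.ofBijective (fun x : F × F × F => (⟨u x.1 x.2.1 x.2.2, _, _, _, rfl⟩ : Tg))
    ⟨fun x y e => by
      obtain ⟨a, b, c⟩ := u_inj (congrArg Subtype.val e)
      exact Prod.ext a (Prod.ext b c), by rintro ⟨_, a, b, c, rfl⟩; exact ⟨(a, b, c), rfl⟩⟩),
    Nat.card_eq_fintype_card]
  rfl

/-- a `2`-subgroup is conjugate into a subgroup that has the order of a Sylow subgroup -/
theorem conj_into {G : Type*} [Group G] [Finite G] {H Y : Subgroup G} {k m : ℕ} (h : Nat.card H = 2 ^ k)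
    (hG : Nat.card G = 2 ^ k * m) (hm : ¬ 2 ∣ m) (hY : IsPGroup 2 Y) : ∃ g, ∀ y ∈ Y, g * y * g⁻¹ ∈ H := by
  have : Fact (Nat.Prime 2) := ⟨Nat.prime_two⟩
  have hi : H.index = m := Nat.eq_of_mul_eq_mul_left (Nat.two_pow_pos k) (by rw [← h, H.card_mul_index, hG, h])
  obtain ⟨Q, hQ⟩ := hY.exists_le_sylow
  obtain ⟨g, e⟩ := MulAction.exists_smul_eq G Q ((IsPGroup.of_card h).toSylow (hi ▸ hm))
  refine ⟨g, fun y hy => ?_⟩
  have : g * y * g⁻¹ ∈ (g • Q : Sylow 2 G) := ⟨y, hQ hy, rfl⟩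
  rwa [e] at this

theorem u_T1 (a c : F) : u a 0 c = T ![1, 0, 0] ![0, a, c] :=
  mk_eq 1 (by rw [tv_coe (by simp)]; revert a c; decide +kernel)

theorem u_T2 (b c : F) : u 0 b c = T ![c, b, 0] ![0, 0, 1] :=
  mk_eq 1 (by rw [tv_coe (by simp)]; revert b c; decide +kernel)

end M49

theorem inv_conj {p : P} (h : p * p = 1) (h1 : p ≠ 1) : ∃ g, g * p * g⁻¹ = u 0 0 1 := by
  have : Finite P := Nat.finite_of_card_ne_zero (by rw [card_P]; norm_num)
  obtain ⟨g, hg⟩ := conj_into (k := 6) (m := 315) (Y := zpowers p) card_Tg card_P (by norm_num)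
    (IsPGroup.of_card (n := 1) (by rw [Nat.card_zpowers, orderOf_eq_prime (by rwa [pow_two]) h1]; rfl))
  obtain ⟨a, b, c, e⟩ := hg p (mem_zpowers p)
  have e1 : u a b c * u a b c = u 0 0 0 := by rw [← e, u_zero, conj_mul, h, mul_one, mul_inv_cancel]
  have e2 : u a b c ≠ u 0 0 0 := by rw [← e, u_zero]; simpa [mul_inv_eq_one] using h1
  have e3 : a * b = 0 := by
    rw [u_mul, SA.two c, zero_add] at e1
    exact (u_inj e1).2.2
  refine isConj_iff.1 ((isConj_iff.2 ⟨g, e⟩).trans ?_)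
  rw [u_T1 0 1]
  rcases mul_eq_zero.1 e3 with rfl | rfl
  · rw [u_T2]
    refine isConj_T (by simp) (fun n => e2 ?_) (by simp) (by simp) (by simp) (by simp) (by simp)
    rw [show b = 0 from congrFun n 1, show c = 0 from congrFun n 0]
  · rw [u_T1]
    refine isConj_T (by simp) (by simp) (fun n => e2 ?_) (by simp) (by simp) (by simp) (by simp)
    rw [show a = 0 from congrFun n 1, show c = 0 from congrFun n 2]

theorem gen_P (H : Subgroup P) (h : ∀ a b c, u a b c ∈ H) (h1 : w1 ∈ H) (h2 : gr w1 ∈ H) : H = ⊤ := by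
  have e : gr w1 = QuotientGroup.mk w2S := gr_eq (s := w1S) 1 (by decide +kernel)
  rw [e] at h2
  have k : ∀ {g s t : S3}, (QuotientGroup.mk g : P) ∈ H → (QuotientGroup.mk s : P) ∈ H →
      (t : M3) * g = (1 : F) • ((g : M3) * s) → (QuotientGroup.mk t : P) ∈ H := fun a b c =>
    conj_eq 1 c ▸ mul_mem (mul_mem a b) (inv_mem a)
  have : H.comap (QuotientGroup.mk' _) = ⊤ := H9.sl_subgroup_eq_top_of_transvection _ fun i j hij c => by
    have q : ∀ i j c, i ≠ j → Matrix.transvection i j c = (!![1, c, 0; 0, 1, 0; 0, 0, 1] : M3) ∨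
        Matrix.transvection i j c = (!![1, 0, 0; 0, 1, c; 0, 0, 1] : M3) ∨
        Matrix.transvection i j c = (!![1, 0, c; 0, 1, 0; 0, 0, 1] : M3) ∨
        Matrix.transvection i j c * !![0, 1, 0; 1, 0, 0; 0, 0, 1] =
          (1 : F) • (!![0, 1, 0; 1, 0, 0; 0, 0, 1] * !![1, c, 0; 0, 1, 0; 0, 0, 1] : M3) ∨
        Matrix.transvection i j c * !![1, 0, 0; 0, 0, 1; 0, 1, 0] =
          (1 : F) • (!![1, 0, 0; 0, 0, 1; 0, 1, 0] * !![1, 0, 0; 0, 1, c; 0, 0, 1] : M3) ∨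
        Matrix.transvection i j c * (!![1, 0, 0; 0, 0, 1; 0, 1, 0] * !![0, 1, 0; 1, 0, 0; 0, 0, 1]) =
          (1 : F) • ((!![1, 0, 0; 0, 0, 1; 0, 1, 0] * !![0, 1, 0; 1, 0, 0; 0, 0, 1]) *
            !![1, c, 0; 0, 1, 0; 0, 0, 1] : M3) := by decide +kernel
    have m : ∀ {s t : S3}, (t : M3) = s → (QuotientGroup.mk s : P) ∈ H → (QuotientGroup.mk t : P) ∈ H :=
      fun a b => (Subtype.ext a : _ = _) ▸ b
    rcases q i j c hij with a | a | a | a | a | a
    exacts [m (s := uS c 0 0) a (h c 0 0), m (s := uS 0 c 0) a (h 0 c 0), m (s := uS 0 0 c) a (h 0 0 c),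
      k (s := uS c 0 0) h2 (h c 0 0) a, k (g := w1S) (s := uS 0 c 0) h1 (h 0 c 0) a,
      k (g := w1S * w2S) (s := uS c 0 0) (mul_mem h1 h2) (h c 0 0) a]
  refine eq_top_iff.2 fun p _ => ?_
  obtain ⟨s, rfl⟩ := QuotientGroup.mk_surjective p
  exact (this ▸ mem_top s : s ∈ H.comap (QuotientGroup.mk' _))

end Cfsg.Agent.LS
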