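import Cfsg.Agent.LS.Spl1
import Cfsg.Agent.LS.Maps2
import Cfsg.Agent.LS.LemD

/-! Normalisation of the constants `k₁, k₂` (notes/LS.md, section Norm). -/

set_option autoImplicit false

namespace Cfsg.Agent.LS

open Subgroup H29
open scoped commutatorElement

namespace Dat

section

variable {G : Type*} [Group G] {δ : Dat G}

/-- rescale the frame -/
noncomputable def tn (δ : Dat G) (κ : Fˣ) : Dat G := ⟨tw δ.ι (dg κ 1), δ.e, fun ρ => δ.r (κ * ρ), δ.g⟩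

theorem all_sc (κ : Fˣ) {p : F → Prop} : (∀ a, p (κ * a)) ↔ ∀ a, p a :=
  ⟨fun h a => by simpa using h (κ⁻¹ * a), fun h _ => h _⟩

theorem ex_sc (κ : Fˣ) {p : F → Prop} : (∃ a, p (κ * a)) ↔ ∃ a, p a :=
  ⟨fun ⟨_, h⟩ => ⟨_, h⟩, fun ⟨a, h⟩ => ⟨κ⁻¹ * a, by simpa using h⟩⟩

variable (κ : Fˣ)

theorem tn_U (a b c : F) : (δ.tn κ).U a b c = δ.U (κ * a) b (κ * c) := by
  change δ.ι (dg κ 1 (u a b c)) = _
  rw [dg_u]
  simp [U]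

theorem tn_C (c : F) : (δ.tn κ).C c = δ.C (κ * c) := by rw [C, tn_U, mul_zero, C]

theorem tn_r (c : F) : (δ.tn κ).r c = δ.r (κ * c) := rfl

theorem tn_h : (δ.tn κ).h = δ.h := congrArg δ.ι (dg_hh κ 1)

theorem tn_Kc : Kc (δ.tn κ).ι = Kc δ.ι := Kc_tw _

variable (e : δ.e = true)
include e

theorem lamT (ρ : F) : Lam δ.e ρ := Or.inl e

theorem tn_lam (ρ : F) : Lam (δ.tn κ).e ρ := Or.inl e

theorem tn_CO (x : G) : (δ.tn κ).CO x ↔ δ.CO x := by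
  simp only [CO, Od, tn_Kc, tn_r, tn_lam κ e, lamT e, forall_true_left]
  refine forall_congr' fun o => ?_
  rw [all_sc κ (p := fun ρ => Commute o (δ.r ρ))]

theorem tn_Qx {x : G} {μ σ : F} (h : (δ.tn κ).Qx x μ σ) : δ.Qx x μ σ := by
  refine ⟨⟨fun a c => ?_, fun ρ _ => ?_⟩, (tn_CO κ e x).1 h.2.1, h.2.2⟩
  · simpa [tn_U] using h.1.1 (κ⁻¹ * a) (κ⁻¹ * c)
  · simpa [tn_U, tn_r, mul_assoc] using h.1.2 (κ⁻¹ * ρ) (Or.inl e)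

theorem tn_Qx' {x : G} {μ σ : F} (h : (δ.tn κ).sw.Qx x μ σ) : δ.sw.Qx x ((κ⁻¹ : Fˣ) * μ) σ := by
  refine ⟨⟨fun a c => ?_, fun ρ _ => ?_⟩, (sw_CO _).2 ((tn_CO κ e x).1 ((sw_CO _).1 h.2.1)), h.2.2⟩
  · simpa [sw_U, tn_U] using h.1.1 a (κ⁻¹ * c)
  · have := h.1.2 (κ⁻¹ * ρ) (Or.inl e)
    rw [show (δ.tn κ).sw.r (κ⁻¹ * ρ) = δ.sw.r ρ from congrArg δ.r (by simp)] at this
    simpa [sw_U, tn_U, mul_assoc, mul_left_comm] using this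

theorem tn_Wy (y : G) (σ : F) : (δ.tn κ).Wy y σ ↔ δ.Wy y σ := by
  simp only [Wy, Ty, tn_CO κ e, nm, tn_h, tn_C, tn_U, tn_r, tn_lam κ e, lamT e, forall_true_left,
    ← mul_assoc (κ : F)]
  rw [ex_sc κ (p := fun c => _ = δ.C c),
    all_sc κ (p := fun ρ => y * δ.r ρ * y⁻¹ = δ.r ρ * δ.C (ρ * σ))]
  refine and_congr (and_congr ⟨fun h a b c => ?_, fun h a b c => h _ _ _⟩ Iff.rfl) Iff.rfl
  simpa using h (κ⁻¹ * a) b (κ⁻¹ * c)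

theorem tn_InD (d : G) (v : V4) :
    (δ.tn κ).InD d v ↔ δ.InD d (κ * v.1, v.2.1, κ * v.2.2.1, v.2.2.2) := by
  simp only [InD, tn_Wy κ e, tn_U, tn_r, tn_lam κ e, lamT e, true_and]
  exact ex_sc κ (p := fun c => ∃ y, δ.Wy y v.2.2.2 ∧ d = δ.U (κ * v.1) v.2.1 c * δ.r (κ * v.2.2.1) * y)

theorem OK.tn [Finite G] (ok : δ.OK) : (δ.tn κ).OK := by
  have kk : Kc (LS.cj δ.g (δ.tn κ).ι) = Kc (LS.cj δ.g δ.ι) := by
    ext x; rw [mem_Kc_cj, mem_Kc_cj, tn_Kc]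
  refine ⟨ok.hy.fr (Fr.tw _ _), fun ρ => tn_Kc (δ := δ) κ ▸ ok.rK _, fun a b _ _ => ?_,
    fun a _ a0 => ok.rne _ (lamT e _) (by simpa using a0), fun a b c => ?_,
    fun ρ _ => ?_, fun k hk c => ?_, fun k hk k2 => ?_⟩
  · rw [tn_r, mul_add]
    exact ok.radd _ _ (lamT e _) (lamT e _)
  · obtain ⟨a', b', c', e'⟩ := ok.gT (κ * a) b (κ * c)
    exact ⟨κ⁻¹ * a', b', κ⁻¹ * c', by rw [tn_U, tn_U, Units.mul_inv_cancel_left, Units.mul_inv_cancel_left]; exact e'⟩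
  · rw [tn_C]
    exact kk ▸ ok.gR _ (lamT e _)
  · rw [tn_Kc] at hk
    have n0 : (κ : F) * 1 ≠ 0 := by simp
    obtain ⟨d, hd⟩ := (D24.key ok.hy (Fr.cj _ δ.g) (ok.rK (κ * 1)) (ok.r_sq (lamT e _))
      (ok.rne _ (lamT e _) n0) n0 (ok.gR _ (lamT e _))).2.2 k hk c
    have := D24.ps_mul (ok.rK d) hd (ok.gR d (lamT e _))
    rw [SA.two, D24.ps_zero, ← kk] at this
    exact ⟨κ⁻¹ * d, lamT e _, by rw [tn_r, Units.mul_inv_cancel_left]; exact this⟩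
  · rw [tn_Kc] at hk ⊢
    obtain ⟨m, hm, ρ, -, e'⟩ := ok.syl k hk k2
    exact ⟨m, hm, κ⁻¹ * ρ, lamT e _, by rw [tn_r]; simpa using e'⟩

end

variable {G : Type*} [Group G] [Finite G] {δ : Dat G}

theorem OK.DD_D (ok : δ.OK) {d : G} {a b ρ : F} (h : δ.InD d (a, b, ρ, 0)) (e : a * b = 0)
    (h0 : ρ ≠ 0) : DD δ.ι d := by
  obtain ⟨l, c, y, hy, rfl⟩ := h
  obtain ⟨c', rfl⟩ := ok.Wy_zero.1 hy
  rw [← (ok.r_U _ _ _ _).eq, mul_assoc, U_C]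
  exact ok.DD_rl l h0 (by rw [LA.u_sq, e, u_zero])

theorem Kk.norm {k₁ k₂ : F} (k : δ.Kk k₁ k₂) (e : δ.e = true) : ∃ δ' : Dat G, δ'.CI := by
  have ok := k.ok
  rcases norm_word k₁ k₂ with ⟨rfl, rfl⟩ | h | ⟨μ, μ', x, ρ, h0, h | h⟩
  · exact absurd (k.e_false.symm.trans e) (by decide)
  · obtain ⟨κ, rfl⟩ := IsUnit.of_mul_eq_one _ h
    have e2 : ((κ⁻¹ : Fˣ) : F) = k₂ := Units.inv_eq_of_mul_eq_one_right h
    refine ⟨δ.tn κ, ⟨ok.tn κ e, fun x μ σ hx d v hd => ?_, fun x μ σ hx d v hd => ?_⟩, e⟩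
    · rw [tn_InD κ e] at hd ⊢
      have := k.a1 x μ σ (tn_Qx κ e hx) d _ hd
      convert this using 1
      ext <;> simp only [f1] <;> ring
    · rw [tn_InD κ e] at hd ⊢
      have := k.a2 x _ σ (tn_Qx' κ e hx) d _ hd
      rwa [e2, (by decide +kernel : ∀ k₁ k₂ : F, k₁ * k₂ = 1 → ∀ (μ : F) (v : V4),
        f2 k₂ (k₂ * μ) (k₁ * v.1, v.2.1, k₁ * v.2.2.1, v.2.2.2) = (k₁ * (f2 1 μ v).1, (f2 1 μ v).2.1,
          k₁ * (f2 1 μ v).2.2.1, (f2 1 μ v).2.2.2)) _ _ h] at this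
  · obtain ⟨x1, h1⟩ := ok.exists_Qx μ' 0
    obtain ⟨x2, h2⟩ := ok.sw.exists_Qx μ 0
    have := ((k.a2 _ _ _ h2).mul (k.a1 _ _ _ h1)) _ _ (ok.InD_U 0 1 0)
    rw [Function.comp, h] at this
    exact absurd (ok.DD_D this (mul_zero _) h0) (ok.nDD_L _ _)
  · obtain ⟨x1, h1⟩ := ok.exists_Qx μ 0
    obtain ⟨x2, h2⟩ := ok.sw.exists_Qx μ' 0
    have := ((k.a1 _ _ _ h1).mul (k.a2 _ _ _ h2)) _ _ (ok.InD_U 1 0 0)
    rw [Function.comp, h] at this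
    exact absurd (ok.DD_D this (zero_mul _) h0) (ok.nDD_L _ _)

end Dat

end Cfsg.Agent.LS
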