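import Cfsg.Agent.LS.CL
import Cfsg.Agent.H91.SylIn
import Cfsg.Agent.H4.Basic

set_option autoImplicit false

namespace Cfsg.Agent.LS

open Subgroup H29
open scoped commutatorElement

theorem sy_b4 {v : V4} (h : ∀ w, b4 v w = 0 ∨ b4 v w = 1) : v = 0 := by
  have k : ∀ x : F, (x = 0 ∨ x = 1) → (x * ω = 0 ∨ x * ω = 1) → x = 0 := by decide
  obtain ⟨a, b, ρ, σ⟩ := v
  have h1 := k a (by simpa [b4] using h (0, 1, 0, 0)) (by simpa only [b4, mul_zero, zero_mul, add_zero] using h (0, ω, 0, 0))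
  have h2 := k b (by simpa [b4] using h (1, 0, 0, 0)) (by simpa only [b4, mul_zero, zero_mul, add_zero, zero_add, mul_comm ω] using h (ω, 0, 0, 0))
  have h3 := k ρ (by simpa [b4] using h (0, 0, 0, 1)) (by simpa only [b4, mul_zero, zero_mul, add_zero, zero_add] using h (0, 0, 0, ω))
  have h4 := k σ (by simpa [b4] using h (0, 0, 1, 0)) (by simpa only [b4, mul_zero, zero_mul, add_zero, zero_add, mul_comm ω] using h (0, 0, ω, 0))
  rw [h1, h2, h3, h4]; rfl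

namespace Dat

variable {G : Type*} [Group G] [Finite G] {δ : Dat G}

/-- the subgroup `N(Z) ∩ C(z)` -/
def OK.MMg (ok : δ.OK) : Subgroup G where
  carrier := {n | δ.MM n}
  mul_mem' := MM.mul
  one_mem' := ⟨fun c => ⟨c, by simp⟩, Commute.one_left _⟩
  inv_mem' := ok.MM_inv

theorem Hp.sy {g τ : G} (h : δ.Hp g τ) {Y : Subgroup G} (hY : IsPGroup 2 Y) (le : ∀ y ∈ Y, δ.MM y) :
    ∃ S : Sylow 2 G, Y ≤ S ∧ δ.Dg ≤ S ∧ ∀ s ∈ S, δ.MM s := by
  have ok := h.toH0.c_ok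
  have lam := h.toH0.c_lam
  have : Fact (Nat.Prime 2) := ⟨Nat.prime_two⟩
  obtain ⟨R, hR, YR⟩ := H91.exists_sylIn_ge (A := ok.MMg) hY le
  have mm : ∀ s ∈ R, δ.MM s := hR.le
  have DR : δ.Dg ≤ R := hR.le_of_normal ok.two_Dg (fun d hd => by
      obtain ⟨v, hv⟩ := ok.mem_Dg.1 hd
      exact (ok.InD_cz hv).mm)
    fun a ha n hn => (mem_normalizer_iff.1 (ok.ND_iff.1 (h.toH0.z2 ha.1)) n).1 hn
  have dR : ∀ {d v}, δ.InD d v → d ∈ R := fun hd => DR (ok.mem_Dg.2 ⟨_, hd⟩)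
  obtain ⟨s0, hs0, s0C⟩ : ∃ s0 ∈ R, ∀ c, s0 * δ.C c * s0⁻¹ = δ.C (c * c) := by
    obtain ⟨a, ha, e⟩ := hR.exists_conj_mem (H := zpowers τ) (IsPGroup.of_card (n := 1) (by
      rw [Nat.card_zpowers, pow_one]
      exact orderOf_eq_prime (by rw [pow_two, h.sq]) fun e => h.c_ncz (by
        rw [e]; exact fun c => Commute.one_left _))) (zpowers_le.2 h.mm)
    have m := e τ (mem_zpowers τ)
    refine ⟨_, m, (ok.MM_cases (mm _ m)).resolve_left fun c => h.c_ncz fun x => ?_⟩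
    obtain ⟨x', hx'⟩ := ha.1 x
    have e1 := (c x').eq
    rw [← hx'] at e1
    calc τ * δ.C x = a⁻¹ * (a * τ * a⁻¹ * (a * δ.C x * a⁻¹)) * a := by group
      _ = δ.C x * τ := by rw [e1]; group
  have claim : ∀ a ∈ R, (∀ s ∈ R, a * s * a⁻¹ = s ∨ a * s * a⁻¹ = s * δ.z) → ∃ c, a = δ.C c := by
    intro a ha fx
    have ac : δ.Ac a id := fun d v hd => by
      rcases fx d (dR hd) with e | e <;> rw [e]
      · exact hd
      · have := ok.InD_mul hd (ok.InD_C 1)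
        rwa [add_zero] at this
    have cz : δ.CZ a := (ok.MM_cases (mm a ha)).resolve_right fun e =>
      absurd (ok.Ac_q4 h.ci.2 ac (φ := fun c => c * c) e (1, ω, 0, 0)) (by decide)
    obtain ⟨k, hk⟩ := hR.isPGroup ⟨a, ha⟩
    obtain ⟨v, hv⟩ := ok.ker2 cz ac (k := k) (congrArg Subtype.val hk)
    obtain rfl : v = 0 := sy_b4 fun w => by
      obtain ⟨d, hd⟩ := ok.exists_InD (v := w) (lam _)
      have e := ok.InD_comm hv hd
      rcases fx d (dR hd) with e' | e' <;> rw [e'] at e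
      · exact Or.inl (ok.C_inj (by rw [δ.C_zero]; exact mul_eq_left.1 e.symm))
      · exact Or.inr (ok.C_inj (mul_left_cancel e).symm)
    exact ok.InD_zero hv
  have NM : normalizer (R : Set G) ≤ ok.MMg := by
    intro n hn
    have c1 : ∀ s ∈ R, n * s * n⁻¹ ∈ R := fun s hs => (mem_normalizer_iff.1 hn s).1 hs
    have c2 : ∀ s ∈ R, n⁻¹ * s * n⁻¹⁻¹ ∈ R := fun s hs => (mem_normalizer_iff.1 (inv_mem hn) s).1 hs
    have cj : ∀ x s, n * x * n⁻¹ * s * (n * x * n⁻¹)⁻¹ = n * (x * (n⁻¹ * s * n⁻¹⁻¹) * x⁻¹) * n⁻¹ :=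
      fun x s => by group
    have zc : ∀ s ∈ R, n * δ.z * n⁻¹ * s * (n * δ.z * n⁻¹)⁻¹ = s := fun s hs => by
      rw [cj, ← (mm _ (c2 s hs)).2.eq]; group
    have nz : n * δ.z * n⁻¹ = δ.z := by
      obtain ⟨c, hc⟩ := claim _ (c1 _ (dR (ok.InD_C 1))) fun s hs => Or.inl (zc s hs)
      have hc : n * δ.z * n⁻¹ = δ.C c := hc
      have e := zc s0 hs0
      have e1 := s0C c
      rw [hc] at e
      rw [← mul_inv_eq_iff_eq_mul.1 e, mul_inv_cancel_right] at e1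
      rcases (by decide : ∀ x : F, x = x * x → x = 0 ∨ x = 1) c (ok.C_inj e1) with rfl | rfl
      · rw [δ.C_zero] at hc
        exact absurd (by simpa using hc) ok.z_ne
      · exact hc
    refine ⟨fun c => claim _ (c1 _ (dR (ok.InD_C c))) fun s hs => ?_, mul_inv_eq_iff_eq_mul.1 nz⟩
    rw [cj]
    have m := c2 s hs
    have es : s = n * (n⁻¹ * s * n⁻¹⁻¹) * n⁻¹ := by group
    generalize n⁻¹ * s * n⁻¹⁻¹ = s' at m es
    rcases ok.MM_cases (ok.MM_inv (mm s' m)) with e | e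
    · exact Or.inl (by rw [← (Commute.inv_left_iff.1 (e c)).eq, mul_inv_cancel_right, es])
    · have e1 : δ.C c * s' * (δ.C c)⁻¹ = s' * δ.C (c * c + c) := by
        rw [δ.C_add, ← e, δ.C_inv]; group
      rw [e1]
      rcases (by decide : ∀ x : F, x * x + x = 0 ∨ x * x + x = 1) c with e2 | e2 <;> rw [e2]
      · exact Or.inl (by rw [δ.C_zero, mul_one, es])
      · refine Or.inr ?_
        rw [es, ← nz]
        rw [show δ.C 1 = δ.z from rfl]; group
  obtain ⟨S, hS⟩ := hR.isPGroup.exists_le_sylow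
  have e : R = S := by
    by_contra ne
    have lt := H4.lt_inf_normalizer S.isPGroup' (lt_of_le_of_ne hS ne)
    exact lt.ne' (hR.eq_of_le (S.isPGroup'.to_inf_left) lt.le (inf_le_right.trans NM))
  exact ⟨S, YR.trans hS, DR.trans hS, fun s hs => mm s (e ▸ hs)⟩

end Dat

end Cfsg.Agent.LS
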