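import Cfsg.Agent.LS.Tr4

/-! The split case `k₁ = k₂ = 0`, first part (notes/LS.md, section Spl1). -/

set_option autoImplicit false

namespace Cfsg.Agent.LS

open Subgroup H29
open scoped commutatorElement

namespace Dat

variable {G : Type*} [Group G] [Finite G] {δ : Dat G}

omit [Finite G] in
theorem OK.Ex_V' (ok : δ.OK) (a c : F) : δ.U a 0 c * δ.r 0 = δ.U a 0 c := by rw [ok.r_zero, mul_one]

theorem OK.Ex_V (ok : δ.OK) (a c : F) : δ.Ex (δ.U a 0 c) 0 0 :=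
  ⟨ok.Ex_V' a c ▸ ok.Qx_V a c (lam_zero _), 0, 0, by rw [nm_V, U_zero]⟩

set_option linter.unusedVariables false in
theorem OK.Ex_W (ok : δ.OK) {y : G} {σ : F} (h : δ.Wy y σ) : δ.Ex y 0 σ :=
  ⟨h.1.qx, 0, h.2⟩

theorem OK.Ex_zero (ok : δ.OK) {x : G} {σ : F} (h : δ.Ex x 0 σ) :
    ∃ a y, δ.Wy y σ ∧ x = δ.U a 0 0 * y := by
  obtain ⟨a, ρ, hx⟩ := ok.Qx_inD h.1
  obtain ⟨a', c', e⟩ := h.2
  have h1 := ok.h_ac _ _ hx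
  have h2 := ok.InD_mul (ok.InD_mul hx h1) (ok.h_ac _ _ h1)
  rw [← hi_eq, ← nm, e] at h2
  have h3 : ρ + ρ + ρ = 0 := congrArg (fun v : V4 => v.2.2.1) (ok.InD_uniq h2 (ok.InD_U a' 0 c'))
  rw [SA.two, zero_add] at h3
  obtain ⟨-, c, y, hy, rfl⟩ := hx
  refine ⟨a, δ.C c * y, zero_add σ ▸ ok.Wy_mul (ok.Wy_C c) hy, ?_⟩
  simp only [h3, ok.r_zero, mul_one]
  rw [← mul_assoc, ← U_uc]

theorem OK.Ex_mul (ok : δ.OK) {x x' : G} {μ σ μ' σ' : F} (h : δ.Ex x μ σ) (h' : δ.Ex x' μ' σ') :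
    δ.Ex (x * x') (μ + μ') (σ + σ') := by
  obtain ⟨a, c, e⟩ := ok.nm_mul h.1 h'.1
  obtain ⟨a1, c1, e1⟩ := h.2
  obtain ⟨a2, c2, e2⟩ := h'.2
  exact ⟨ok.Qx_mul h.1 h'.1, _, _, by rw [e, e1, e2, V_mul, V_mul]⟩

theorem OK.Ex_h (ok : δ.OK) {x : G} {μ σ : F} (h : δ.Ex x μ σ) :
    δ.Ex (δ.h * x * δ.h⁻¹) (ω * μ) (ω * ω * σ) := by
  obtain ⟨a, c, e⟩ := h.2
  exact ⟨ok.Qx_h h.1, _, _, by rw [nm_h, e, h_U, mul_zero]⟩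

theorem OK.exists_Ex (ok : δ.OK) (μ σ : F) : ∃ x, δ.Ex x μ σ := by
  obtain ⟨x, h⟩ := ok.exists_Qx μ σ
  obtain ⟨a, c, ρ, l, e⟩ := ok.Qx_zero (ok.nm_Qx h)
  have hr := ok.Qx_V 0 0 l
  rw [U_zero, one_mul] at hr
  obtain ⟨a', c', e'⟩ := ok.nm_mul h hr
  have := ok.Qx_mul h hr
  rw [add_zero, add_zero] at this
  exact ⟨_, this, _, _, by rw [e', e, ok.nm_r l, mul_assoc (δ.U _ _ _), ok.r_sq l, mul_one, V_mul]⟩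

theorem OK.Ex_D (ok : δ.OK) {d : G} {a σ : F} (h : δ.InD d (a, 0, 0, σ)) : δ.Ex d 0 σ := by
  obtain ⟨-, c, y, hy, rfl⟩ := h
  have := ok.Ex_mul (ok.Ex_V a c) (ok.Ex_W hy)
  rw [add_zero, zero_add] at this
  simpa only [ok.r_zero, mul_one] using this

theorem OK.Ex_w (ok : δ.OK) {x : G} {μ σ : F} (h : δ.Ex x μ σ) : δ.Ex (δ.w * x * δ.w⁻¹) σ μ := by
  obtain ⟨a, c, e⟩ := h.2
  have hA := ok.Qx_h h.1
  have hB := ok.Qx_h hA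
  rw [← hi_eq] at hB
  obtain ⟨a', c', e'⟩ := ok.Qx_swap hB hA
  have e1 : δ.h = δ.w * δ.h⁻¹ * δ.w⁻¹ := by rw [← conj_inv, w_h, inv_inv]
  refine ⟨ok.Qx_w h.1, c + c', a + a', ?_⟩
  rw [← w_U, ← V_mul, ← e, nm, nm, mul_assoc x, mul_assoc x, ← e']
  conv_lhs => rw [e1]
  group

theorem Kk.Ex_U (k : δ.Kk 0 0) {x : G} {μ σ : F} (h : δ.Ex x μ σ) (b : F) :
    δ.Ex (δ.U 0 b 0 * x * (δ.U 0 b 0)⁻¹) μ (μ * b + σ) := by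
  have ok := k.ok
  have h1 := ok.InD_mul (ok.InD_U 0 b 0) (k.a1 x μ σ h.1 _ _ (ok.InD_inv (ok.InD_U 0 b 0)))
  rw [show ((0, b, 0, 0) : V4) + f1 0 μ (0, b, 0, 0) = (0, 0, 0, μ * b) by simp [f1, SA.two]] at h1
  have := ok.Ex_mul (ok.Ex_D h1) h
  rwa [zero_add, mul_assoc, inv_mul_cancel_right, ← mul_assoc] at this

theorem Kk.Ex_sq (k : δ.Kk 0 0) {x : G} {μ σ : F} (h : δ.Ex x μ σ) : x * x = 1 := by
  have ok := k.ok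
  have z : ∀ {x : G} {σ : F}, δ.Ex x 0 σ → x * x = 1 := fun h => by
    obtain ⟨a, y, hy, rfl⟩ := ok.Ex_zero h
    rw [(hy.1.1 a 0 0).mul_mul_mul_comm, V_sq, ok.Wy_sq hy, mul_one]
  by_cases hμ : μ = 0
  · exact z (hμ ▸ h)
  · have h1 := k.Ex_U h (σ / μ)
    rw [mul_div_cancel₀ _ hμ, SA.two] at h1
    have := z (ok.Ex_w h1)
    rwa [conj_mul, conj_mul, conj_eq_one_iff, conj_eq_one_iff] at this

theorem Kk.Ex_inv (k : δ.Kk 0 0) {x : G} {μ σ : F} (h : δ.Ex x μ σ) : x⁻¹ = x :=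
  inv_eq_of_mul_eq_one_right (k.Ex_sq h)

theorem Kk.Ex_comm (k : δ.Kk 0 0) {x x' : G} {μ σ μ' σ' : F} (h : δ.Ex x μ σ) (h' : δ.Ex x' μ' σ') :
    Commute x x' := by
  rw [Commute, SemiconjBy, ← k.Ex_inv (k.ok.Ex_mul h h'), mul_inv_rev, k.Ex_inv h, k.Ex_inv h']

theorem Kk.Ex_nm (k : δ.Kk 0 0) {x : G} {μ σ : F} (h : δ.Ex x μ σ) : δ.nm x = 1 := by
  have ok := k.ok
  obtain ⟨a, c, e⟩ := h.2
  have hA := ok.Ex_h h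
  have hB := ok.Ex_h hA
  have e1 : δ.nm (δ.h * x * δ.h⁻¹) = δ.nm x := by
    rw [nm, nm, hi_eq δ x, show δ.h⁻¹ * (δ.h * x * δ.h⁻¹) * δ.h = x by group,
      ← ((k.Ex_comm h hA).mul_right (k.Ex_comm h hB)).eq, mul_assoc x]
  rw [nm_h, e, h_U] at e1
  obtain ⟨h1, -, h2⟩ := ok.U_inj e1
  rw [e, (by decide : ∀ a : F, ω * a = a → a = 0) a h1, (by decide : ∀ a : F, ω * ω * a = a → a = 0) c h2,
    U_zero]

theorem Kk.E1W (k : δ.Kk 0 0) {x y : G} {μ σ s : F} (h : δ.Ex x μ σ) (hy : δ.Wy y s) : Commute x y :=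
  k.Ex_comm h (k.ok.Ex_W hy)

theorem Kk.E2W (k : δ.Kk 0 0) {x y : G} {μ σ s : F} (h : δ.sw.Ex x μ σ) (hy : δ.Wy y s) :
    Commute x y := k.sw.E1W h ((sw_Wy _ _).2 hy)

theorem Kk.cen1 (k : δ.Kk 0 0) {x x' : G} {μ σ μ' σ' : F} (h : δ.Ex x μ σ) (h' : δ.sw.Ex x' μ' σ')
    (a c : F) : Commute ⁅x, x'⁆ (δ.U a 0 c) := by
  have ok := k.ok
  have h1 := k.a2 x' μ' σ' h'.1 _ _ (ok.InD_U a 0 c)
  rw [show f2 0 μ' (a, 0, 0, 0) = (a, 0, 0, μ' * a) by simp [f2, f1, swp]] at h1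
  have c1 := (k.Ex_comm h (ok.Ex_D h1)).inv_left
  have c2 := h.1.1.1 a c
  have i := k.sw.Ex_inv h'
  have s := k.sw.Ex_sq h'
  refine of_cj ?_
  rw [commutatorElement_def, cj_mul, cj_mul, cj_mul]
  nth_rw 1 2 [i]
  rw [cj_of c1, ← cj_mul x' x', s, one_mul, inv_one, mul_one, cj_of c2]

theorem Kk.cm (k : δ.Kk 0 0) {x x' : G} {μ σ μ' σ' : F} (h : δ.Ex x μ σ) (h' : δ.sw.Ex x' μ' σ') :
    ∃ s, δ.Wy ⁅x, x'⁆ s := by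
  have ok := k.ok
  have e0 : ⁅x, x'⁆ = x * x' * x * x' := by rw [commutatorElement_def, k.Ex_inv h, k.sw.Ex_inv h']
  have z1 := h.1.cz
  have z2 := (sw_CZ _).1 h'.1.cz
  have a1 := k.a1 _ _ _ h.1
  have a2 := k.a2 _ _ _ h'.1
  obtain ⟨d, ⟨a, b, ρ, s⟩, o, hd, ho, e⟩ := ok.ker (n := ⁅x, x'⁆) (e0 ▸ ((z1.mul z2).mul z1).mul z2)
    (e0 ▸ (((a1.mul a2).mul a1).mul a2).congr fun v => by
      have t : (2 : F) = 0 := by decide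
      obtain ⟨a, b, ρ, s⟩ := v
      simp only [Function.comp, f1, f2, swp, id, zero_mul, add_zero, Prod.mk.injEq, true_and]
      exact ⟨by linear_combination (μ * ρ) * t, by linear_combination (μ' * ρ) * t,
        by linear_combination (μ' * a + μ * b + 2 * μ * μ' * ρ) * t⟩)
  have cd : ∀ {y v}, δ.InD y v → Commute ⁅x, x'⁆ y → b4 (a, b, ρ, s) v = 0 := fun hy c => by
    have := c.mul_left (hy.co o ho).symm.inv_left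
    rw [e, mul_inv_cancel_right] at this
    exact (ok.InD_b4 hd hy).1 this
  obtain ⟨y, hy⟩ := ok.exists_Wy 1
  have e1 := cd (ok.InD_W hy) (e0 ▸ (((k.E1W h hy).mul_left (k.E2W h' hy)).mul_left
    (k.E1W h hy)).mul_left (k.E2W h' hy))
  have e2 := cd (ok.InD_U 1 0 0) (k.cen1 h h' 1 0)
  have e3 := cd (ok.InD_U 0 1 0) (by
    have := (k.sw.cen1 h' (δ.sw_sw.symm ▸ h) 1 0).inv_left
    rwa [commutatorElement_inv, sw_U, mul_zero, add_zero] at this)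
  simp only [b4, mul_zero, mul_one, zero_mul, one_mul, add_zero, zero_add] at e1 e2 e3
  subst e1 e2 e3
  have hE := ok.Ex_D hd
  have c1 : Commute x ⁅x, x'⁆ := e ▸ (k.Ex_comm h hE).mul_right (h.1.2.1 o ho)
  have c2 : ⁅x, x'⁆ * ⁅x, x'⁆ = 1 := by
    nth_rw 1 [← cj_of c1]
    rw [e0, k.Ex_inv h]
    simp only [mul_assoc, ← mul_assoc x x, k.Ex_sq h, one_mul, ← mul_assoc x' x', k.sw.Ex_sq h']
  have o1 : o = 1 := ho.eq_one (hd.co o ho) (n := 1) (by rw [pow_one, pow_two, k.Ex_sq hE])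
    (by rw [pow_one, pow_two, ← e, c2])
  obtain ⟨-, c, y', hy', rfl⟩ := hd
  refine ⟨0 + s, ?_⟩
  rw [e, o1, mul_one]
  simpa only [ok.r_zero, mul_one, C] using ok.Wy_mul (ok.Wy_C c) hy'

theorem Kk.bl (k : δ.Kk 0 0) {x₁ x₂ x' : G} {μ₁ σ₁ μ₂ σ₂ μ' σ' : F} (h₁ : δ.Ex x₁ μ₁ σ₁)
    (h₂ : δ.Ex x₂ μ₂ σ₂) (h' : δ.sw.Ex x' μ' σ') : ⁅x₁ * x₂, x'⁆ = ⁅x₂, x'⁆ * ⁅x₁, x'⁆ := by
  obtain ⟨s, hs⟩ := k.cm h₂ h'
  rw [← cj_of (k.E1W h₁ hs)]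
  simp only [commutatorElement_def]
  group

theorem Kk.br (k : δ.Kk 0 0) {x y₁ y₂ : G} {μ σ μ₁ σ₁ μ₂ σ₂ : F} (h : δ.Ex x μ σ)
    (h₁ : δ.sw.Ex y₁ μ₁ σ₁) (h₂ : δ.sw.Ex y₂ μ₂ σ₂) : ⁅x, y₁ * y₂⁆ = ⁅x, y₁⁆ * ⁅x, y₂⁆ := by
  obtain ⟨s, hs⟩ := k.cm h h₂
  rw [← cj_of (k.E2W h₁ hs)]
  simp only [commutatorElement_def]
  group

theorem Kk.bil (k : δ.Kk 0 0) {x x' : G} {μ σ μ' σ' : F} (h : δ.Ex x μ σ) (h' : δ.sw.Ex x' μ' σ') :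
    ⁅δ.h * x * δ.h⁻¹, x'⁆ = δ.h⁻¹ * ⁅x, x'⁆ * δ.h ∧ ⁅x, δ.h * x' * δ.h⁻¹⁆ = δ.h⁻¹ * ⁅x, x'⁆ * δ.h := by
  have ok := k.ok
  have hA := ok.Ex_h h
  have hA' := k.sw.ok.Ex_h h'
  have hB' := k.sw.ok.Ex_h hA'
  have n' := k.sw.Ex_nm h'
  rw [← hi_eq] at hB'
  rw [nm] at n'
  rw [sw_h] at hA' hB' n'
  obtain ⟨s, hp⟩ := k.cm h h'
  obtain ⟨s', hq⟩ := k.cm hA h'
  have eB : δ.h⁻¹ * x * δ.h = δ.h * x * δ.h⁻¹ * x := by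
    rw [eq_inv_of_mul_eq_one_right (k.Ex_nm h), mul_inv_rev, k.Ex_inv h, k.Ex_inv hA]
  have e1 : ⁅x, δ.h * x' * δ.h⁻¹⁆ = δ.h * ⁅x, x'⁆ * δ.h⁻¹ * (δ.h * ⁅δ.h * x * δ.h⁻¹, x'⁆ * δ.h⁻¹) := by
    rw [conj_mul, ← k.bl hA h h', ← eB]
    simp only [commutatorElement_def]
    group
  have e2 : ⁅x, δ.h⁻¹ * x' * δ.h⁆ = δ.h⁻¹ * ⁅δ.h * x * δ.h⁻¹, x'⁆ * δ.h := by
    simp only [commutatorElement_def]
    group
  have e3 := k.br h (k.sw.ok.Ex_mul h' hA') hB'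
  rw [n', commutatorElement_one_right, k.br h h' hA', e1, e2] at e3
  have hp1 := ok.Wy_h hp
  have hp2 := ok.Wy_h hp1
  rw [← hi_eq] at hp2
  have f : ∀ p p1 p2 q q1 q2 : G, p * p1 * p2 = 1 → q * q1 * q2 = 1 → 1 = p * (p1 * q1) * q2 →
      p2⁻¹ = p2 → q⁻¹ = q → q = p2 ∧ p * p1 = p2 := fun p p1 p2 q q1 q2 np nq e3 i1 i2 => by
    have f1 : p * p1 = p2 := by rw [eq_inv_of_mul_eq_one_left np, i1]
    have f2 : q1 * q2 = q := by rw [mul_assoc] at nq; rw [eq_inv_of_mul_eq_one_right nq, i2]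
    rw [← mul_assoc, f1, mul_assoc, f2] at e3
    exact ⟨by rw [eq_inv_of_mul_eq_one_right e3.symm, i1], f1⟩
  obtain ⟨f1, f2⟩ := f _ _ _ _ _ _ (k.Ex_nm (ok.Ex_W hp)) (k.Ex_nm (ok.Ex_W hq)) e3
    (k.Ex_inv (ok.Ex_W hp2)) (k.Ex_inv (ok.Ex_W hq))
  refine ⟨f1, ?_⟩
  rw [e1, f1, ← f2, (ok.Wy_comm hp hp1).eq, mul_right_inj, ← (ok.Wy_comm hp hp1).eq, f2]
  group

theorem Kk.e_false (k : δ.Kk 0 0) : δ.e = false := by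
  have ok := k.ok
  by_contra he
  rw [Bool.not_eq_false] at he
  obtain ⟨x, h⟩ := ok.exists_Ex 1 0
  obtain ⟨x', h'⟩ := k.sw.ok.exists_Ex 1 0
  obtain ⟨s, hp⟩ := k.cm h h'
  have V2 : ∀ b, δ.sw.Ex (δ.U 0 b 0) 0 0 := fun b => by
    have := k.sw.ok.Ex_V b 0
    rwa [sw_U, mul_zero, add_zero] at this
  have key : ∀ ρ, ⁅x, δ.U 0 ρ 0⁆ * δ.C (ρ * ρ) * ⁅δ.U ρ 0 0, x'⁆ = δ.C (ρ * s) := fun ρ => by
    have l : Lam δ.e ρ := Or.inl he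
    have e1 : (δ.r ρ)⁻¹ * x * (δ.r ρ)⁻¹⁻¹ = δ.U ρ 0 0 * x := by
      have := h.1.1.2 ρ l
      rw [mul_one, mul_zero, mul_inv_eq_iff_eq_mul] at this
      rw [inv_inv, mul_assoc, this, mul_assoc, inv_mul_cancel_left]
    have e2 : (δ.r ρ)⁻¹ * x' * (δ.r ρ)⁻¹⁻¹ = δ.U 0 ρ 0 * x' := by
      have := h'.1.1.2 ρ l
      rw [mul_one, mul_zero, mul_inv_eq_iff_eq_mul, sw_U, mul_zero, add_zero] at this
      rw [inv_inv, mul_assoc]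
      erw [this]
      rw [mul_assoc]
      exact inv_mul_cancel_left _ _
    have e3 := conjugate_commutatorElement x x' (δ.r ρ)⁻¹
    rw [e1, e2, inv_eq_of_mul_eq_one_right (ok.r_sq l), ok.r_W l hp.1,
      k.bl (ok.Ex_V ρ 0) h (k.sw.ok.Ex_mul (V2 ρ) h'), k.br h (V2 ρ) h', k.br (ok.Ex_V ρ 0) (V2 ρ) h',
      show ⁅δ.U ρ 0 0, δ.U 0 ρ 0⁆ = δ.C (ρ * ρ) by
        rw [commutatorElement_def, U_conj, U_inv, U_mul]; simp [SA.two, C]] at e3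
    obtain ⟨s', hq⟩ := k.cm h (V2 ρ)
    rw [(ok.Wy_comm hq hp).eq, mul_assoc, mul_right_inj, ← mul_assoc] at e3
    exact e3.symm
  have k1 := key 1
  have k2 := congrArg (fun y => δ.h * y * δ.h⁻¹) (key ω)
  have u1 : δ.U ω 0 0 = δ.h * δ.U 1 0 0 * δ.h⁻¹ := by rw [h_U]; simp
  have u2 : δ.U 0 ω 0 = δ.h * δ.U 0 1 0 * δ.h⁻¹ := by rw [h_U]; simp
  simp only [u1, u2, (k.bil h (V2 1)).2, (k.bil (ok.Ex_V 1 0) h').1, ← conj_mul, h_C] at k2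
  simp only [mul_inv_cancel, one_mul, mul_inv_cancel_right, ← mul_assoc, inv_mul_cancel,
    inv_mul_cancel_right] at k2
  rw [show ω * ω * ω = 1 by decide, ← k1, mul_left_inj, mul_right_inj] at k2
  exact absurd (ok.C_inj k2) (by decide)

end Dat

end Cfsg.Agent.LS
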