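import Cfsg.Agent.LS.Spl1

/-! Project LS (notes/LS.md): coordinates on `Ug` in the split configuration. -/

set_option autoImplicit false
set_option linter.unusedSectionVars false

namespace Cfsg.Agent.LS

open Subgroup H29
open scoped commutatorElement

section
variable {G : Type*} [Group G]

/-- scalar multiplication by means of an element of order 3 -/
def sp2 (h : G) : F → G → G
  | .o, _ => 1
  | .i, x => x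
  | .w, x => h * x * h⁻¹
  | .v, x => h * (h * x * h⁻¹) * h⁻¹

theorem sp2_zero (h x : G) : sp2 h 0 x = 1 := rfl

theorem sp2_mul (h : G) (μ : F) (x y : G) : sp2 h μ (x * y) = sp2 h μ x * sp2 h μ y := by
  cases μ <;> simp only [sp2, conj_mul, mul_one]

theorem sp2_sp2 {h : G} (h3 : h * h * h = 1) (μ ν : F) (x : G) :
    sp2 h μ (sp2 h ν x) = sp2 h (μ * ν) x := by
  have e : ∀ y, h * (h * (h * y * h⁻¹) * h⁻¹) * h⁻¹ = y := fun y => by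
    calc _ = h * h * h * y * (h * h * h)⁻¹ := by group
      _ = y := by rw [h3]; group
  cases μ <;> cases ν <;> first | rfl | exact e _ | (change _ = 1; simp [sp2])

theorem sp2_add {h x : G} (x2 : x * x = 1) (n : x * (h * x * h⁻¹) * (h * (h * x * h⁻¹) * h⁻¹) = 1)
    (μ ν : F) : sp2 h (μ + ν) x = sp2 h μ x * sp2 h ν x := by
  have b2 : h * x * h⁻¹ * (h * x * h⁻¹) = 1 := by rw [conj_mul, x2, mul_one, mul_inv_cancel]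
  have c2 : h * (h * x * h⁻¹) * h⁻¹ * (h * (h * x * h⁻¹) * h⁻¹) = 1 := by
    rw [conj_mul, b2, mul_one, mul_inv_cancel]
  have key : ∀ a b c : G, a * a = 1 → b * b = 1 → c * c = 1 → a * b * c = 1 →
      c = a * b ∧ c = b * a ∧ b * c * a = 1 := fun a b c ha hb hc e => by
    have e1 : c = a * b := by rw [← inv_eq_of_mul_eq_one_right hc, eq_inv_of_mul_eq_one_left e]
    refine ⟨e1, ?_, ?_⟩
    · rw [← inv_eq_of_mul_eq_one_right hc, e1, mul_inv_rev, inv_eq_of_mul_eq_one_right ha,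
        inv_eq_of_mul_eq_one_right hb]
    · calc b * c * a = a⁻¹ * (a * b * c) * a := by group
        _ = 1 := by rw [e]; group
  obtain ⟨e1, e2, e3⟩ := key _ _ _ x2 b2 c2 n
  obtain ⟨e4, e5, e6⟩ := key _ _ _ b2 c2 x2 e3
  obtain ⟨e7, e8, -⟩ := key _ _ _ c2 x2 b2 e6
  cases μ <;> cases ν <;> first
    | exact (one_mul _).symm | exact (mul_one _).symm | exact x2.symm | exact b2.symm | exact c2.symm
    | exact e1 | exact e2 | exact e4 | exact e5 | exact e7 | exact e8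

end

namespace Dat

variable {G : Type*} [Group G] [Finite G] {δ : Dat G}

theorem sp2_hh (δ : Dat G) (x : G) : δ.h * (δ.h * x * δ.h⁻¹) * δ.h⁻¹ = δ.h⁻¹ * x * δ.h := by
  calc _ = δ.h⁻¹ * (δ.h * δ.h * δ.h) * x * (δ.h * δ.h * δ.h)⁻¹ * δ.h := by group
    _ = _ := by rw [δ.h_cube]; group

theorem sp2_hh' (δ : Dat G) (x : G) : δ.h⁻¹ * (δ.h⁻¹ * x * δ.h⁻¹⁻¹) * δ.h⁻¹⁻¹ = δ.h * x * δ.h⁻¹ := by
  calc _ = δ.h * (δ.h * δ.h * δ.h)⁻¹ * x * (δ.h * δ.h * δ.h) * δ.h⁻¹ := by group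
    _ = _ := by rw [δ.h_cube]; group

theorem sp2_h3 (δ : Dat G) : δ.h⁻¹ * δ.h⁻¹ * δ.h⁻¹ = 1 := by
  rw [← mul_inv_rev, ← mul_inv_rev, ← mul_assoc, δ.h_cube, inv_one]

theorem sp2_U (δ : Dat G) (μ : F) : sp2 δ.h μ (δ.U 1 0 0) = δ.U μ 0 0 := by
  cases μ
  · exact δ.U_zero.symm
  · rfl
  · simp only [sp2, h_U, mul_zero, mul_one]
  · simp only [sp2, h_U, mul_zero, mul_one]; rfl

theorem sp2_C (δ : Dat G) (μ c : F) : sp2 δ.h⁻¹ μ (δ.C c) = δ.C (μ * c) := by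
  cases μ
  · exact δ.C_zero.symm.trans (congrArg δ.C (zero_mul c).symm)
  · exact congrArg δ.C (one_mul c).symm
  · rw [sp2, inv_inv, ← sp2_hh, h_C, h_C]
    congr 1; revert c; decide
  · rw [sp2, sp2_hh', h_C]; rfl

theorem OK.sp2_Ex (ok : δ.OK) {x : G} {μ σ : F} (h : δ.Ex x μ σ) (ν : F) :
    δ.Ex (sp2 δ.h ν x) (ν * μ) (ν * ν * σ) := by
  have e : ∀ μ : F, F4.o * μ = 0 ∧ F4.o * F4.o * μ = 0 ∧ F4.i * μ = μ ∧ F4.i * F4.i * μ = μ ∧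
      F4.v * μ = ω * (ω * μ) ∧ F4.v * F4.v * μ = ω * ω * (ω * ω * μ) := by decide
  cases ν
  · rw [(e μ).1, (e σ).2.1, sp2, ← δ.U_zero]
    exact ok.Ex_V 0 0
  · rw [(e μ).2.2.1, (e σ).2.2.2.1]
    exact h
  · exact ok.Ex_h h
  · rw [(e μ).2.2.2.2.1, (e σ).2.2.2.2.2]
    exact ok.Ex_h (ok.Ex_h h)

theorem OK.sp2_Wy (ok : δ.OK) {y : G} (h : δ.Wy y 1) (ν : F) : δ.Wy (sp2 δ.h⁻¹ ν y) ν := by
  cases ν
  · exact ok.Wy_zero.2 ⟨0, δ.C_zero.symm⟩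
  · exact h
  · rw [sp2, inv_inv, ← sp2_hh, show F4.w = ω * ω * (ω * ω * 1) by decide]
    exact ok.Wy_h (ok.Wy_h h)
  · rw [sp2, sp2_hh', show F4.v = ω * ω * 1 by decide]
    exact ok.Wy_h h

theorem Kk.sp2_addE (k : δ.Kk 0 0) {x : G} {μ σ : F} (h : δ.Ex x μ σ) (a b : F) :
    sp2 δ.h (a + b) x = sp2 δ.h a x * sp2 δ.h b x :=
  sp2_add (k.Ex_sq h) (by rw [sp2_hh]; exact k.Ex_nm h) a b

theorem Kk.sp2_addW (k : δ.Kk 0 0) {y : G} {σ : F} (h : δ.Wy y σ) (a b : F) :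
    sp2 δ.h⁻¹ (a + b) y = sp2 δ.h⁻¹ a y * sp2 δ.h⁻¹ b y := by
  have h' := k.ok.Ex_W h
  refine sp2_add (k.Ex_sq h') ?_ a b
  rw [sp2_hh', inv_inv, ← sp2_hh, mul_assoc,
    ← (k.Ex_comm (k.ok.Ex_h h') (k.ok.Ex_h (k.ok.Ex_h h'))).eq, ← mul_assoc, sp2_hh]
  exact k.Ex_nm h'

theorem Kk.sp2_cm (k : δ.Kk 0 0) {x x' : G} {μ σ μ' σ' : F} (h : δ.Ex x μ σ) (h' : δ.sw.Ex x' μ' σ')
    (a b : F) : ⁅sp2 δ.h a x, sp2 δ.h b x'⁆ = sp2 δ.h⁻¹ (a * b) ⁅x, x'⁆ := by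
  have h1 := k.ok.sw.sp2_Ex h' b
  rw [sw_h] at h1
  have e1 : ⁅x, sp2 δ.h b x'⁆ = sp2 δ.h⁻¹ b ⁅x, x'⁆ := by
    have h2 := k.ok.sw.Ex_h h'
    rw [sw_h] at h2
    cases b
    · exact commutatorElement_one_right _
    · rfl
    · rw [sp2, sp2, (k.bil h h').2, inv_inv]
    · rw [sp2, sp2, (k.bil h h2).2, (k.bil h h').2, inv_inv]
  rw [← sp2_sp2 δ.sp2_h3, ← e1]
  cases a
  · exact commutatorElement_one_left _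
  · rfl
  · rw [sp2, sp2, (k.bil h h1).1, inv_inv]
  · rw [sp2, sp2, (k.bil (k.ok.Ex_h h) h1).1, (k.bil h h1).1, inv_inv]

theorem Kk.sp2_l (k : δ.Kk 0 0) {x y x' : G} {μ σ ν τ μ' σ' : F} (h : δ.Ex x μ σ) (hy : δ.Ex y ν τ)
    (h' : δ.sw.Ex x' μ' σ') : ⁅x * y, x'⁆ = ⁅x, x'⁆ * ⁅y, x'⁆ := by
  obtain ⟨s, hs⟩ := k.cm h h'
  obtain ⟨s', hs'⟩ := k.cm hy h'
  calc ⁅x * y, x'⁆ = x * ⁅y, x'⁆ * x⁻¹ * ⁅x, x'⁆ := by simp only [commutatorElement_def]; group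
    _ = _ := by rw [(k.Ex_comm h (k.ok.Ex_W hs')).eq, mul_inv_cancel_right, (k.ok.Wy_comm hs hs').eq]

theorem Kk.sp2_r (k : δ.Kk 0 0) {x y x' : G} {μ σ ν τ μ' σ' : F} (h : δ.Ex x μ σ)
    (h' : δ.sw.Ex x' μ' σ') (hy : δ.sw.Ex y ν τ) : ⁅x, x' * y⁆ = ⁅x, x'⁆ * ⁅x, y⁆ := by
  obtain ⟨s', hs'⟩ := k.cm h hy
  calc ⁅x, x' * y⁆ = ⁅x, x'⁆ * (x' * ⁅x, y⁆ * x'⁻¹) := by simp only [commutatorElement_def]; group
    _ = _ := by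
      rw [(k.sw.Ex_comm h' (k.ok.sw.Ex_W ((sw_Wy _ _).2 hs'))).eq, mul_inv_cancel_right]

theorem OK.sp2_t (ok : δ.OK) {x : G} {μ σ : F} (h : δ.Tr x μ σ) :
    x * δ.t * x⁻¹ = δ.t * δ.U μ 0 σ ∧ δ.t * x * δ.t⁻¹ = x * δ.U μ 0 σ := by
  have e := h.2 1 (lam_one _)
  rw [one_mul, one_mul] at e
  refine ⟨e, ?_⟩
  have ti : δ.t⁻¹ = δ.t := inv_eq_of_mul_eq_one_right ok.t_sq
  calc δ.t * x * δ.t⁻¹ = δ.t * (x * δ.t⁻¹ * x⁻¹) * x := by group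
    _ = _ := by
      rw [ti, show x * δ.t * x⁻¹ = δ.t * δ.U μ 0 σ from e, ← mul_assoc, ok.t_sq, one_mul, (h.1 μ σ).eq]

theorem Kk.sp2_y (k : δ.Kk 0 0) {x : G} (h : δ.Ex x 1 0) : δ.Wy ⁅x, δ.sw.U 1 0 0⁆ 1 := by
  have ok := k.ok
  obtain ⟨s, hs⟩ := k.cm h (ok.sw.Ex_V 1 0)
  have h1 := ok.Qx_mul h.1 (ok.Qx_U (ok.Qx_inv h.1) 0 1 (0 + 1 * 0))
  have h2 := hs.1.qx
  rw [commutatorElement_def, sw_U, mul_assoc, mul_assoc, ← mul_assoc (δ.U _ _ _)] at h2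
  obtain rfl : s = 1 := (ok.Qx_uniq h2 h1).2.trans (by decide)
  exact hs

/-- coordinates on `E₁` -/
def sp2X (δ : Dat G) (x : G) (α : F × F) : G := δ.U α.1 0 0 * sp2 δ.h α.2 x

theorem OK.sp2X_Ex (ok : δ.OK) {x : G} (h : δ.Ex x 1 0) (α : F × F) : δ.Ex (δ.sp2X x α) α.2 0 := by
  simpa [sp2X] using ok.Ex_mul (ok.Ex_V α.1 0) (ok.sp2_Ex h α.2)

theorem Kk.sp2X_add (k : δ.Kk 0 0) {x : G} (h : δ.Ex x 1 0) (α β : F × F) :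
    δ.sp2X x (α + β) = δ.sp2X x α * δ.sp2X x β := by
  have e : δ.U (α.1 + β.1) 0 0 = δ.U α.1 0 0 * δ.U β.1 0 0 := by simp [U_mul]
  rw [sp2X, sp2X, sp2X, Prod.fst_add, Prod.snd_add, k.sp2_addE h, e,
    ((k.ok.sp2_Ex h α.2).1.1.1 β.1 0).symm.mul_mul_mul_comm]

theorem OK.sp2X_gen (ok : δ.OK) {x : G} (h : δ.Ex x 1 0) {H : Subgroup G} (h1 : ∀ α, δ.sp2X x α ∈ H)
    (h2 : ∀ y σ, δ.Wy y σ → y ∈ H) {x' : G} {μ σ : F} (h' : δ.Ex x' μ σ) : x' ∈ H := by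
  have := ok.Ex_mul (ok.sp2X_Ex h (0, μ)) h'
  rw [SA.two] at this
  obtain ⟨a, y, hy, e⟩ := ok.Ex_zero this
  refine (H.mul_mem_cancel_left (h1 (0, μ))).1 (e ▸ H.mul_mem ?_ (h2 y _ hy))
  simpa [sp2X, sp2_zero] using h1 (a, 0)

theorem Kk.co (k : δ.Kk 0 0) : ∃ (B : F) (X₁ X₂ Y : F × F → G), Co B X₁ X₂ Y ∧
    CoU X₁ X₂ Y = δ.Ug ∧ CoW Y = δ.Wg ∧ (∀ γ, δ.t * Y γ * δ.t⁻¹ = Y (γ.1 + γ.2, γ.2)) := by
  have ok := k.ok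
  have v1 := ok.Ex_V
  have v2 := ok.sw.Ex_V
  obtain ⟨x1, h1⟩ := ok.exists_Ex 1 0
  have hy := k.sp2_y h1
  have zz : ⁅δ.U 1 0 0, δ.sw.U 1 0 0⁆ = δ.C 1 := by
    rw [commutatorElement_def, sw_U, U_conj, U_inv, U_mul, Dat.C]
    congr 1
  have zc : ∀ a b, ⁅δ.U a 0 0, δ.sw.U b 0 0⁆ = δ.C (a * b) := fun a b => by
    rw [← sp2_U, ← δ.sw.sp2_U, sw_h, k.sp2_cm (v1 1 0) (v2 1 0), zz, sp2_C, mul_one]
  obtain ⟨x2, h2, e2⟩ : ∃ x2, δ.sw.Ex x2 1 0 ∧ ⁅δ.U 1 0 0, x2⁆ = ⁅x1, δ.sw.U 1 0 0⁆ := by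
    obtain ⟨x2, h2⟩ := ok.sw.exists_Ex 1 0
    have h3 := ok.Wy_inv ((sw_Wy _ _).1 (k.sw.sp2_y h2))
    rw [sw_sw, commutatorElement_inv] at h3
    have h4 := ok.Wy_mul (ok.Wy_inv h3) hy
    rw [SA.two] at h4
    obtain ⟨c, hc⟩ := ok.Wy_zero.1 h4
    refine ⟨x2 * δ.sw.U c 0 0, by simpa using ok.sw.Ex_mul h2 (v2 c 0), ?_⟩
    rw [k.sp2_r (v1 1 0) h2 (v2 c 0), zc, one_mul, ← hc, mul_inv_cancel_left]
  obtain ⟨B, hB⟩ : ∃ B, ⁅x1, x2⁆ = δ.C B * ⁅x1, δ.sw.U 1 0 0⁆ := by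
    obtain ⟨s, hs⟩ := k.cm h1 h2
    have e3 := (ok.sp2_t hs.1.qx.1).2
    rw [conjugate_commutatorElement, (ok.sp2_t h1.1.1).2,
      show δ.t * x2 * δ.t⁻¹ = _ from (ok.sw.sp2_t h2.1.1).2,
      k.sp2_l h1 (v1 1 0) (ok.sw.Ex_mul h2 (v2 1 0)), k.sp2_r h1 h2 (v2 1 0), k.sp2_r (v1 1 0) h2 (v2 1 0),
      e2, zz, mul_assoc, mul_left_cancel_iff, ← mul_assoc, ok.Wy_sq hy, one_mul] at e3
    obtain rfl : 1 = s := ok.C_inj e3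
    have h4 := ok.Wy_mul hs (ok.Wy_inv hy)
    rw [SA.two] at h4
    obtain ⟨c, hc⟩ := ok.Wy_zero.1 h4
    exact ⟨c, by rw [← hc, inv_mul_cancel_right]⟩
  generalize hy' : ⁅x1, δ.sw.U 1 0 0⁆ = y at hy e2 hB
  have wC : ∀ c, δ.Wy (δ.C c) 0 := fun c => ok.Wy_zero.2 ⟨c, rfl⟩
  have wY : ∀ γ : F × F, δ.Wy (δ.C γ.1 * sp2 δ.h⁻¹ γ.2 y) γ.2 := fun γ => by
    simpa using ok.Wy_mul (wC γ.1) (ok.sp2_Wy hy γ.2)
  have ya : ∀ α β : F × F, δ.C (α + β).1 * sp2 δ.h⁻¹ (α + β).2 y =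
      δ.C α.1 * sp2 δ.h⁻¹ α.2 y * (δ.C β.1 * sp2 δ.h⁻¹ β.2 y) := fun α β => by
    rw [Prod.fst_add, Prod.snd_add, C_add, k.sp2_addW hy,
      (ok.Wy_comm (wC β.1) (ok.sp2_Wy hy α.2)).mul_mul_mul_comm]
  have c1 : ∀ (α : F × F) {y σ}, δ.Wy y σ → Commute y (δ.sp2X x1 α) := fun α _ _ h =>
    k.Ex_comm (ok.Ex_W h) (ok.sp2X_Ex h1 α)
  have c2 : ∀ (α : F × F) {y σ}, δ.Wy y σ → Commute y (δ.sw.sp2X x2 α) := fun α _ _ h =>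
    k.sw.Ex_comm (ok.sw.Ex_W ((sw_Wy _ _).2 h)) (ok.sw.sp2X_Ex h2 α)
  have gW : ∀ y' σ, δ.Wy y' σ → ∃ γ : F × F, δ.C γ.1 * sp2 δ.h⁻¹ γ.2 y = y' := fun y' σ h => by
    have h4 := ok.Wy_mul h (ok.Wy_inv (ok.sp2_Wy hy σ))
    rw [SA.two] at h4
    obtain ⟨c, hc⟩ := ok.Wy_zero.1 h4
    exact ⟨(c, σ), by rw [← hc, inv_mul_cancel_right]⟩
  refine ⟨B, δ.sp2X x1, δ.sw.sp2X x2, fun γ => δ.C γ.1 * sp2 δ.h⁻¹ γ.2 y,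
    ⟨k.sp2X_add h1, k.sw.sp2X_add h2, ya, fun α β => ?_, fun α γ => c1 α (wY γ), fun α γ => c2 α (wY γ),
      fun α β γ e => ?_⟩, le_antisymm ((closure_le _).2 ?_) ((closure_le _).2 ?_),
    le_antisymm ((closure_le _).2 ?_) ((closure_le _).2 ?_), fun γ => ?_⟩
  · rw [← ((c2 β (wY _)).mul_right (c1 α (wY _))).eq]
    suffices ⁅δ.sp2X x1 α, δ.sw.sp2X x2 β⁆ = δ.C (ml B α β).1 * sp2 δ.h⁻¹ (ml B α β).2 y by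
      rw [← this, commutatorElement_def]; group
    have s1 := ok.sp2_Ex h1 α.2
    have s2 := ok.sw.sp2_Ex h2 β.2
    have f1 : ⁅δ.U α.1 0 0, sp2 δ.sw.h β.2 x2⁆ = δ.C 0 * sp2 δ.h⁻¹ (α.1 * β.2) y := by
      rw [← sp2_U, sw_h, k.sp2_cm (v1 1 0) h2, e2, C_zero, one_mul]
    have f2 : ⁅sp2 δ.h α.2 x1, δ.sw.U β.1 0 0⁆ = δ.C 0 * sp2 δ.h⁻¹ (α.2 * β.1) y := by
      rw [← δ.sw.sp2_U, sw_h, k.sp2_cm h1 (v2 1 0), hy', C_zero, one_mul]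
    have f3 : ⁅sp2 δ.h α.2 x1, sp2 δ.sw.h β.2 x2⁆ =
        δ.C (α.2 * β.2 * B) * sp2 δ.h⁻¹ (α.2 * β.2) y := by
      rw [sw_h, k.sp2_cm h1 h2, hB, sp2_mul, sp2_C]
    have f4 : ⁅δ.U α.1 0 0, δ.sw.U β.1 0 0⁆ = δ.C (α.1 * β.1) * sp2 δ.h⁻¹ 0 y := by
      rw [zc, sp2_zero, mul_one]
    rw [sp2X, k.sp2_l (v1 _ _) s1 (ok.sw.sp2X_Ex h2 β), sp2X, k.sp2_r (v1 _ _) (v2 _ _) s2,
      k.sp2_r s1 (v2 _ _) s2, f1, f2, f3, f4, ← ya (_, _) (_, _), ← ya (_, _) (_, _), ← ya]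
    congr 2
    · simp [ml, mul_comm]
    · simp [ml, add_assoc]
  · have q1 := (ok.sp2X_Ex h1 α).1
    have q2 := ok.sw.Qx_inv (ok.sw.Ex_mul (ok.sw.sp2X_Ex h2 β) (ok.sw.Ex_W ((sw_Wy _ _).2 (wY γ)))).1
    rw [mul_assoc] at e
    rw [← eq_inv_of_mul_eq_one_left e] at q2
    have e3 := (ok.sp2_t q1.1).1.symm.trans (ok.sw.sp2_t q2.1).1
    rw [sw_U] at e3
    obtain ⟨a1, a2, a3⟩ := ok.U_inj (mul_left_cancel e3)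
    simp only [mul_zero, add_zero, zero_add] at a2 a3
    simp only [sp2X, a1, ← a2, ← a3, sp2_zero, mul_one, sw_U, U_C, U_mul] at e
    obtain ⟨b1, b2, b3⟩ := ok.U_inj (e.trans δ.U_zero.symm)
    simp only [add_zero, zero_add] at b1 b2
    simp only [b1, mul_zero, zero_mul, add_zero, zero_add] at b3
    exact ⟨Prod.ext b1 a1, Prod.ext b2 a2.symm, Prod.ext b3 a3.symm⟩
  · rintro _ ((⟨α, rfl⟩ | ⟨α, rfl⟩) | ⟨γ, rfl⟩)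
    · exact subset_closure ⟨_, _, Or.inl (ok.sp2X_Ex h1 α)⟩
    · exact subset_closure ⟨_, _, Or.inr (ok.sw.sp2X_Ex h2 α)⟩
    · exact subset_closure ⟨_, _, Or.inl (ok.Ex_W (wY γ))⟩
  · rintro x ⟨μ, σ, hx | hx⟩
    · exact ok.sp2X_gen h1 (fun α => subset_closure (Or.inl (Or.inl ⟨α, rfl⟩)))
        (fun y' σ h => subset_closure (Or.inr (gW y' σ h))) hx
    · exact ok.sw.sp2X_gen h2 (fun α => subset_closure (Or.inl (Or.inr ⟨α, rfl⟩)))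
        (fun y' σ h => subset_closure (Or.inr (gW y' σ ((sw_Wy _ _).1 h)))) hx
  · rintro _ ⟨γ, rfl⟩
    exact subset_closure ⟨_, wY γ⟩
  · rintro y' ⟨σ, h⟩
    exact subset_closure (gW y' σ h)
  · rw [(ok.sp2_t (wY γ).1.qx.1).2]
    simp only [C_add, mul_assoc, (ok.Wy_comm (wC γ.2) (ok.sp2_Wy hy γ.2)).eq]
    rfl

theorem Kk.U_Ug (k : δ.Kk 0 0) (a b c : F) : δ.U a b c ∈ δ.Ug := by
  have := δ.Ug.mul_mem (subset_closure ⟨_, _, Or.inr (k.ok.sw.Ex_V b 0)⟩)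
    (subset_closure ⟨_, _, Or.inl (k.ok.Ex_V a c)⟩)
  simpa [sw_U, U_mul] using this

theorem Kk.t_Ug (k : δ.Kk 0 0) : δ.t ∈ normalizer (δ.Ug : Set G) := by
  refine mem_normalizer_fintype fun x hx => ?_
  refine (closure_le (δ.Ug.comap (MulAut.conj δ.t).toMonoidHom)).2 ?_ hx
  rintro x ⟨μ, σ, h | h⟩
  · change δ.t * x * δ.t⁻¹ ∈ δ.Ug
    rw [(k.ok.sp2_t h.1.1).2]
    exact δ.Ug.mul_mem (subset_closure ⟨_, _, Or.inl h⟩) (k.U_Ug _ _ _)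
  · change δ.sw.t * x * δ.sw.t⁻¹ ∈ δ.Ug
    rw [(k.ok.sw.sp2_t h.1.1).2, sw_U]
    exact δ.Ug.mul_mem (subset_closure ⟨_, _, Or.inr h⟩) (k.U_Ug _ _ _)

end Dat

end Cfsg.Agent.LS
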