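import Cfsg.Agent.LS.Gam2

set_option autoImplicit false
set_option linter.unusedSectionVars false

namespace Cfsg.Agent.LS

open Subgroup H29
open scoped commutatorElement

namespace Dat

variable {G : Type*} [Group G] [Finite G] {δ : Dat G}

theorem CI.z1a (h : δ.CI) {y : G} (hZ : δ.NZ y) {v : V4} (hD : δ.InD (y * δ.t * y⁻¹) v) : δ.ND y := by
  have ok := h.ok
  obtain ⟨m, -, mZ, mD, e⟩ := h.G2 hD ((h.DV_iff hD).1 (ok.DD_t.conj y))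
  have n : δ.ND (m⁻¹ * y) := h.ns (mZ.inv.nz.mul hZ) (c := 0) (by
    rw [C_zero, mul_one]
    calc m⁻¹ * y * δ.t * (m⁻¹ * y)⁻¹ = m⁻¹ * (y * δ.t * y⁻¹) * m := by group
      _ = δ.t := by rw [e]; group)
  have := mD.mul n
  rwa [mul_inv_cancel_left] at this

theorem OK.z1C (ok : δ.OK) {y : G} (hZ : δ.NZ y) (c : F) : ∃ c', δ.C c = y * δ.C c' * y⁻¹ := by
  obtain ⟨c', e⟩ := ok.NZ_inv hZ c
  exact ⟨c', by rw [← e]; group⟩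

theorem OK.z1cz (ok : δ.OK) {y n : G} (hZ : δ.NZ y) (hn : δ.CZ n) : δ.CZ (y * n * y⁻¹) := fun c => by
  obtain ⟨c', e⟩ := ok.z1C hZ c
  rw [e, cm_cj]; exact hn c'

theorem OK.z1t (ok : δ.OK) : δ.CZ δ.t := fun c => ok.r_C 1 c

theorem CI.z1sq (h : δ.CI) {s : G} {f : V4 → V4} (hs : δ.Ac s f) {c : F} (e : s * s = δ.C c) (v : V4) :
    f (f v) = v := by
  have := hs.mul hs
  rw [e] at this
  exact h.ok.Ac_uniq this (h.ok.InD_ac (h.ok.InD_C c)) (h.lam _)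

theorem CI.z1cj (h : δ.CI) {m s : G} {j : Ix} {f f' : V4 → V4} (hm : δ.Ac m (ev j)) (hs : δ.Ac s f)
    (e : ∀ v, ev j (f v) = f' (ev j v)) : δ.Ac (m * s * m⁻¹) f' := by
  obtain ⟨j', e1, e2⟩ := ev_inv j
  exact ((hm.mul hs).mul (h.ok.Ac_inv hm e1)).congr fun v => by
    simp only [Function.comp]; rw [e, e2]

theorem H0.z1b {g : G} (h : δ.H0 g) {y : G} (hZ : δ.NZ y) {μ c' : F} (h0 : μ ≠ 0)
    (e : y * δ.t * y⁻¹ = g * δ.r μ * g⁻¹ * δ.C c') : False := by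
  have ok := h.ci.ok
  obtain ⟨b', c'', e1⟩ := h.onto 0 c'
  obtain ⟨x, hx⟩ := ok.sw.exists_Qx (μ⁻¹ * b') (μ⁻¹ * c'')
  have xV : ∀ b c, Commute x (δ.U 0 b c) := fun b c => by
    have := hx.1.1 b c
    rwa [sw_U, mul_zero, add_zero] at this
  have xr : x * δ.r μ * x⁻¹ = δ.r μ * δ.U 0 b' c'' := by
    have := hx.1.2 μ (h.ci.lam μ)
    rwa [sw_U, mul_zero, add_zero, mul_inv_cancel_left₀ h0, mul_inv_cancel_left₀ h0] at this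
  have e2 : y * δ.t * y⁻¹ = g * x * δ.r μ * (g * x)⁻¹ := by
    rw [e, cj_mul, xr, cj_dist, ← e1]; rfl
  have k1 : y * δ.t * y⁻¹ ∈ Kc (LS.cj y δ.ι) := by
    rw [mem_Kc_cj]; simpa [mul_assoc, t] using ok.rK 1
  have k2 : y * δ.t * y⁻¹ ∈ Kc (LS.cj (g * x) δ.ι) := by
    rw [e2, mem_Kc_cj]
    have : (g * x)⁻¹ * (g * x * δ.r μ * (g * x)⁻¹) * (g * x) = δ.r μ := by group
    rw [this]; exact ok.rK μ
  have sm := (ok.hy.fr (Fr.cj δ.ι y)).same ((Fr.cj δ.ι y).symm.trans (Fr.cj δ.ι (g * x))) k1 k2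
    (by rw [← cj_dist, ok.t_sq]; group) (fun e => ok.t_ne (by simpa using e))
  have mem : g * x * δ.U 1 0 0 * (g * x)⁻¹ ∈ (LS.cj y δ.ι).range := sm ▸ ⟨u 1 0 0, rfl⟩
  obtain ⟨p, hp⟩ := mem
  rw [cj_apply] at hp
  have gz : g * x * δ.z * (g * x)⁻¹ = δ.z := cj_of (h.gz.mul_left (xV 0 1))
  obtain ⟨c0, e0⟩ := ok.z1C hZ 1
  have c00 : c0 ≠ 0 := by
    rintro rfl
    rw [C_zero] at e0
    exact ok.z_ne (by simpa [z] using e0)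
  have cp : Commute (δ.ι p) (δ.C c0) := by
    rw [← cm_cj y, ← e0, hp]
    change Commute _ δ.z
    rw [← gz, cm_cj]
    exact (δ.C_U 1 0 0 1).symm
  have cp' : Commute p (u 0 0 c0) := ok.hy.inj (by rw [map_mul, map_mul]; exact cp.eq)
  obtain ⟨a1, b1, d1, rfl⟩ := B24.cent_c c00 cp'
  obtain ⟨b, c, b0, e3⟩ := h.cw
  obtain ⟨c1, e4⟩ := ok.z1C hZ ω
  have : Commute (g * x * δ.U 1 0 0 * (g * x)⁻¹) (g * x * δ.U 0 b c * (g * x)⁻¹) := by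
    rw [← hp, cj_mul g x (δ.U 0 b c), cj_of (xV b c), ← e3, e4, cm_cj]
    exact (δ.C_U a1 b1 d1 c1).symm
  rw [cm_cj, ok.U_comm] at this
  exact b0 (by simpa using this)

theorem CI.z1c (h : δ.CI) {y : G} (hZ : δ.NZ y) (ac : δ.Ac (y * δ.t * y⁻¹) swp) : δ.ND y := by
  have ok := h.ok
  have hy := h.cj y
  have oky := hy.ok
  have sZ := ok.z1cz hZ ok.z1t
  have czy : ∀ {n}, δ.CZ n → (δ.cj y).CZ n := fun hn c => by
    obtain ⟨c', e⟩ := hZ c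
    rw [cj_C, e]; exact hn c'
  have rZ : ∀ ρ, δ.CZ (δ.r ρ) := fun ρ c => ok.r_C ρ c
  have rs : ∀ ρ, ∃ c, δ.r ρ * (δ.cj y).t * (δ.r ρ)⁻¹ = (δ.cj y).t * (δ.cj y).C c := fun ρ => by
    obtain ⟨c, e⟩ := ok.InD_diff (ok.InD_r (h.lam ρ)) (ac _ _ (ok.InD_r (h.lam ρ)))
    obtain ⟨c', e'⟩ := ok.z1C hZ c
    refine ⟨c', ?_⟩
    rw [cj_t, cj_C, ← e']
    have c1 := (sZ c).eq
    have r2 := ok.r_sq (h.lam ρ)
    generalize y * δ.t * y⁻¹ = s at *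
    have ri : (δ.r ρ)⁻¹ = δ.r ρ := inv_eq_of_mul_eq_one_right r2
    calc δ.r ρ * s * (δ.r ρ)⁻¹ = δ.r ρ * (s * δ.r ρ * s⁻¹) * s := by rw [ri]; group
      _ = s * δ.C c := by rw [e, ← mul_assoc, r2, one_mul, c1]
  have rD : ∀ ρ, (δ.cj y).ND (δ.r ρ) := fun ρ => by
    obtain ⟨c, e⟩ := rs ρ
    exact hy.ns (czy (rZ ρ)).nz e
  obtain ⟨ρ, h0, j, a⟩ : ∃ ρ, ρ ≠ 0 ∧ ∃ j, (δ.cj y).Ac (δ.r ρ) (ev j) := by
    obtain ⟨i, a | a⟩ := hy.cls (czy (rZ 1)) (rD 1)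
    · exact ⟨1, one_ne_zero, i, a⟩
    obtain ⟨i', a' | a'⟩ := hy.cls (czy (rZ ω)) (rD ω)
    · exact ⟨ω, by decide, i', a'⟩
    obtain ⟨j, e⟩ := swp_ev i'
    obtain ⟨k, e'⟩ := ev_mul i j
    refine ⟨1 + ω, by decide, k, ?_⟩
    rw [ok.radd 1 ω (h.lam _) (h.lam _)]
    exact (a.mul a').congr fun v => by simp only [Function.comp]; rw [e, e']
  have fx : ev j (0, 0, 1, 0) = (0, 0, 1, 0) := by
    obtain ⟨c, e⟩ := rs ρ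
    have := a _ _ oky.InD_t
    rw [e] at this
    exact oky.InD_uniq this (oky.InD_mulC oky.InD_t c)
  obtain ⟨v, hv⟩ := oky.ker2 (czy (rZ ρ)) (a.congr (ev_reg (by decide) fx)) (k := 1)
    (by rw [pow_one, pow_two, ok.r_sq (h.lam ρ)])
  obtain ⟨m, -, mZ, mD, e⟩ := hy.G2 hv ((hy.DV_iff hv).1 ((δ.DD_cj y _).2 (ok.DD_r (h.lam ρ) h0)))
  have mZ' : δ.CZ m := fun c => by
    obtain ⟨c', e'⟩ := ok.z1C hZ c
    rw [e']; exact mZ c'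
  have n1 : δ.ND (m * y) := h.z1a (mZ'.nz.mul hZ) (v := (0, 0, ρ, 0)) (by
    rw [cj_mul, ← cj_t, ← e]; exact ok.InD_r (h.lam ρ))
  obtain ⟨m', rfl⟩ := sur_cj y m
  rw [cj_ND] at mD
  have := n1.mul mD.inv
  rwa [show y * m' * y⁻¹ * y * m'⁻¹ = y by group] at this

theorem H0.z1 {g : G} (h : δ.H0 g) {y : G} (hZ : δ.NZ y) (hD : δ.ND (y * δ.t * y⁻¹)) : δ.ND y := by
  have ok := h.ci.ok
  have sZ := ok.z1cz hZ ok.z1t
  have s2 : y * δ.t * y⁻¹ * (y * δ.t * y⁻¹) = δ.C 0 := by rw [← cj_dist, ok.t_sq, C_zero]; group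
  obtain ⟨i, a | a⟩ := h.ci.cls sZ hD
  · rcases ev_invol (h.ci.z1sq a s2) with e | ⟨j, μ, h0, e⟩
    · obtain ⟨v, hv⟩ := ok.ker2 sZ (a.congr e) (k := 1) (by rw [pow_one, pow_two, s2, C_zero])
      exact h.ci.z1a hZ hv
    · obtain ⟨m, -, mZ, ma⟩ := h.ci.G1 j
      obtain ⟨m2, v, c', hm2, e2⟩ := h.z4 (ok.z1cz mZ.nz sZ) h0 (h.ci.z1cj ma a e) (c := 0)
        (by rw [← cj_dist, s2, C_zero]; group)
      refine (h.z1b (y := m2⁻¹ * (m * y)) ((ok.InD_cz hm2).inv.nz.mul (mZ.nz.mul hZ)) h0 (c' := c') ?_).elim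
      rw [cj_mul, cj_mul, e2]; group
  · obtain ⟨j, e⟩ := ev_refl (h.ci.z1sq a s2)
    obtain ⟨m, -, mZ, ma⟩ := h.ci.G1 j
    have := ma.nd.inv.mul (h.ci.z1c (mZ.nz.mul hZ) (by rw [cj_mul]; exact h.ci.z1cj ma a e))
    rwa [inv_mul_cancel_left] at this

end Dat

end Cfsg.Agent.LS
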