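import Cfsg.Agent.LS.Z1
import Cfsg.Agent.LS.FP

set_option autoImplicit false
set_option linter.unusedSectionVars false

namespace Cfsg.Agent.LS

open Subgroup H29
open scoped commutatorElement

namespace Dat

variable {G : Type*} [Group G] [Finite G] {δ : Dat G}

def z2Z (δ : Dat G) : Subgroup G where
  carrier := {x | ∃ c, x = δ.C c}
  mul_mem' := by rintro _ _ ⟨c, rfl⟩ ⟨c', rfl⟩; exact ⟨c + c', (δ.C_add c c').symm⟩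
  one_mem' := ⟨0, δ.C_zero.symm⟩
  inv_mem' := by rintro _ ⟨c, rfl⟩; exact ⟨c, δ.C_inv c⟩

def z2Y (δ : Dat G) : Subgroup G where
  carrier := {x | δ.CZ x}
  mul_mem' := CZ.mul
  one_mem' := fun _ => Commute.one_left _
  inv_mem' := CZ.inv

theorem H0.z2fix {g : G} (h : δ.H0 g) {s y : G} {v : V4} (hs : δ.InD s v) (hv : DV v) (hy : δ.CZ y)
    (e : δ.ND (y * s * y⁻¹)) : δ.ND y := by
  obtain ⟨m, -, mZ, mD, rfl⟩ := h.ci.G2 hs hv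
  have := (h.z1 (hy.mul mZ).nz (by rwa [cj_mul])).mul mD.inv
  rwa [mul_inv_cancel_right] at this

theorem H0.z2c {g : G} (h : δ.H0 g) {n : G} (hZ : δ.CZ n) : δ.ND n := by
  have ok := h.ci.ok
  have mH : ∀ {x}, x ∈ δ.z2Y ⊓ normalizer (δ.Dg : Set G) ↔ δ.CZ x ∧ δ.ND x := fun {x} => by
    rw [mem_inf, ok.ND_iff]; rfl
  by_contra hn
  obtain ⟨R, hZR, hRA, hS, tr⟩ := FP (Y := δ.z2Y) (H := δ.z2Y ⊓ normalizer (δ.Dg : Set G)) (A := δ.Dg)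
    (Z := δ.z2Z) (by rintro _ ⟨c, rfl⟩; exact ok.mem_Dg.2 ⟨_, ok.InD_C c⟩)
    (fun d hd => by
      obtain ⟨v, hv⟩ := ok.mem_Dg.1 hd
      exact mH.2 ⟨ok.InD_cz hv, (ok.InD_ac hv).nd⟩) inf_le_left
    (by rintro y hy _ ⟨c, rfl⟩; exact hy c)
    (fun n hn a ha => by
      obtain ⟨v, hv⟩ := ok.mem_Dg.1 ha
      exact ok.mem_Dg.2 ((mH.1 hn).2 a v hv))
    (fun a ha => by
      obtain ⟨v, hv⟩ := ok.mem_Dg.1 ha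
      exact ⟨_, ok.InD_sq hv⟩)
    {d | ∃ v, δ.InD d v ∧ DV v} (fun s ⟨v, hv, _⟩ => ok.mem_Dg.2 ⟨v, hv⟩)
    (fun s ⟨v, hv, dv⟩ y hy e => mH.2 ⟨hy, h.z2fix hv dv hy (mH.1 e).2⟩)
    (fun a ha y hy e => by
      obtain ⟨v, hv⟩ := ok.mem_Dg.1 ha
      obtain ⟨aZ, aD⟩ := mH.1 e
      have sq : y * a * y⁻¹ * (y * a * y⁻¹) = δ.C (q4 v) := by
        rw [← cj_dist, ok.InD_sq hv, cj_of (hy _)]
      obtain ⟨i, ac | ac⟩ := h.ci.cls aZ aD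
      · rcases h.inv_ev aZ ac sq with ⟨v', hv'⟩ | ⟨dd, -⟩
        · refine Or.inl ⟨δ.t, ⟨_, ok.InD_t, by decide⟩, b4 (0, 0, 1, 0) v', ?_⟩
          rw [commutatorElement_def, ok.InD_comm ok.InD_t hv', cj_of (aZ _)]
        · exact Or.inr fun y' hy' e' => mH.2 ⟨hy', h.z2fix hv
            ((h.ci.DV_iff hv).1 ((dd_cj y a).1 dd)) hy' (mH.1 e').2⟩
      · obtain ⟨j, e1⟩ := ev_refl (h.ci.z1sq ac sq)
        obtain ⟨m, -, mZ, ma⟩ := h.ci.G1 j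
        obtain ⟨j', e2, -⟩ := ev_inv j
        have a2 := h.ci.z1cj ma ac e1
        obtain ⟨c, e3⟩ := ok.InD_diff ok.InD_t (a2 _ _ ok.InD_t)
        refine Or.inl ⟨m⁻¹ * δ.t * m⁻¹⁻¹, ⟨_, ok.Ac_inv ma e2 _ _ ok.InD_t,
          (DV_ev _ _).2 (by decide)⟩, c, ?_⟩
        generalize y * a * y⁻¹ = a' at *
        calc ⁅m⁻¹ * δ.t * m⁻¹⁻¹, a'⁆
            = m⁻¹ * (δ.t * (m * a' * m⁻¹ * δ.t * (m * a' * m⁻¹)⁻¹)⁻¹) * m⁻¹⁻¹ := by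
              rw [commutatorElement_def]; group
          _ = δ.C c := by
              rw [e3, mul_inv_rev, ← mul_assoc δ.t, C_inv, cj_of (ok.z1t c), cj_of (mZ.inv c)])
    (fun le => hn (mH.1 (le hZ)).2)
  let M : AddSubgroup V4 :=
    { carrier := {v | ∃ d ∈ R, δ.InD d v}
      add_mem' := fun ⟨d, hd, e⟩ ⟨d', hd', e'⟩ => ⟨d * d', R.mul_mem hd hd', ok.InD_mul e e'⟩
      zero_mem' := ⟨δ.C 0, hZR ⟨0, rfl⟩, ok.InD_C 0⟩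
      neg_mem' := fun {v} hv => by rwa [neg_eq_of_add_eq_zero_right (V4_two v)] }
  refine cover M (fun v ⟨d, hd, e⟩ dv => hS d ⟨v, e, dv⟩ hd) fun v w hv hw => ?_
  obtain ⟨a, ha⟩ := ok.exists_InD (v := v) (h.ci.lam _)
  obtain ⟨b, hb⟩ := ok.exists_InD (v := w) (h.ci.lam _)
  obtain ⟨x, hx, -, e⟩ := tr a (ok.mem_Dg.2 ⟨v, ha⟩) b (ok.mem_Dg.2 ⟨w, hb⟩)
    (fun r => hv ⟨a, r, ha⟩) fun r => hw ⟨b, r, hb⟩
  obtain ⟨i, ac | ac⟩ := h.ci.cls (mH.1 hx).1 (mH.1 hx).2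
  · exact ⟨i, Or.inl ⟨_, e, ok.InD_mul (ac _ _ ha) (ok.InD_inv hb)⟩⟩
  · exact ⟨i, Or.inr ⟨_, e, ok.InD_mul (ac _ _ ha) (ok.InD_inv hb)⟩⟩

theorem CI.z2eq (h : δ.CI) {x y x' y' : G} {f g f' g' : V4 → V4} (a : δ.Ac x f) (b : δ.Ac y g)
    (a' : δ.Ac x' f') (b' : δ.Ac y' g') (e : x * y = x' * y') (v : V4) : f (g v) = f' (g' v) :=
  h.ok.Ac_uniq (v := v) (f' := f' ∘ g') (a.mul b) (by rw [e]; exact a'.mul b') (h.lam _)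

theorem H0.z2 {g : G} (h : δ.H0 g) {n : G} (hZ : δ.NZ n) : δ.ND n := h.z1 hZ (h.z2c (h.ci.ok.z1cz hZ h.ci.ok.z1t))

theorem H0.exists_tau {g : G} (h : δ.H0 g) : ∃ τ, δ.Hp g τ := by
  have ok := h.ci.ok
  obtain ⟨b, c, b0, e⟩ := h.cw
  obtain ⟨τ, hτ⟩ : ∃ τ, τ = g * δ.U b⁻¹ 0 0 * g⁻¹ := ⟨_, rfl⟩
  have t1 : τ * δ.C 1 * τ⁻¹ = δ.C 1 := by
    refine cj_of ?_
    have : δ.C 1 = g * δ.C 1 * g⁻¹ := (cj_of h.gz).symm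
    rw [hτ, this, cm_cj]
    exact (δ.C_U _ _ _ _).symm
  have tω : τ * δ.C ω * τ⁻¹ = δ.C ω * δ.C 1 := by
    have : δ.C 1 = g * δ.C 1 * g⁻¹ := (cj_of h.gz).symm
    rw [this, e, hτ, ← cj_dist g (δ.U 0 b c), U_C]
    calc _ = g * (δ.U b⁻¹ 0 0 * δ.U 0 b c * (δ.U b⁻¹ 0 0)⁻¹) * g⁻¹ := by group
      _ = _ := by rw [U_conj, inv_mul_cancel₀ b0, mul_zero, add_zero]
  have tC : ∀ c, τ * δ.C c * τ⁻¹ = δ.C (c * c) := fun c => by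
    rcases F4c c with rfl | rfl | rfl | rfl
    · rw [mul_zero, C_zero]; group
    · rw [mul_one, t1]
    · rw [tω, ← C_add]; congr 1
    · rw [C_add, cj_dist, tω, t1, ← C_add, ← C_add]; congr 1
  have tZ : δ.NZ τ := fun c => ⟨_, tC c⟩
  obtain ⟨f, ac⟩ := ok.exists_ac (h.z2 tZ)
  have x4 : ∀ x : F, x * x * (x * x) = x := by decide
  obtain ⟨i, hi⟩ := lin_cls (fun v => sg (f v)) (fun v w => by rw [ok.Ac_add h.ci.2 ac, sg_add])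
    (fun v w => by rw [b4_sg, ok.Ac_b4 h.ci.2 ac tC, x4])
    (fun v => by rw [q4_sg, ok.Ac_q4 h.ci.2 ac tC, x4]) fun v hv => NV_sg (h.ci.Ac_NV ac tZ hv)
  have ar : ∀ ρ, δ.Ac (g * δ.r ρ * g⁻¹) (f1 1 ρ) := fun ρ => h.ci.1.a1 _ _ _ (h.gr ρ)
  have sf : ∀ ρ v, sg (f1 1 ρ v) = f1 1 ρ (sg v) := fun ρ v => by rw [← ev_f1, ← ev_f1, sg_ev]
  obtain ⟨μ, hμ⟩ := cent_V4 hi fun ρ v => by
    rw [← sf, h.ci.z2eq ac (ar ρ) (ar ρ) ac (by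
      rw [hτ]; exact ((cm_cj _ _ _).2 (ok.r_U ρ _ _ _).symm).eq) v]
  have hf : ∀ v, f v = sg (f1 1 μ v) := fun v => by rw [← hμ, sg_sg]
  obtain ⟨x, xK, -, -, xr⟩ := h.ci.x3
  have xZ : δ.CZ (g * x * g⁻¹) := fun c => by
    obtain ⟨b, c', e⟩ := h.onto 0 c
    rw [C, e, cm_cj]; exact K_U xK _ _ _
  obtain ⟨π, aπ, πs, πo⟩ : ∃ π, δ.Ac (g * x * g⁻¹) π ∧ (∀ v, sg (π v) = π (sg v)) ∧
      ∀ w, ∃ v, π v = w := by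
    obtain ⟨j, a | a⟩ := h.ci.cls xZ (h.z2 xZ.nz)
    · obtain ⟨j', -, e2⟩ := ev_inv j
      exact ⟨_, a, sg_ev j, fun w => ⟨_, e2 w⟩⟩
    · obtain ⟨j', -, e2⟩ := ev_inv j
      exact ⟨_, a, fun v => by simp only [Function.comp]; rw [sg_ev, sg_swp],
        fun w => ⟨swp (ev j' w), e2 w⟩⟩
  obtain ⟨v, hv⟩ := πo (0, 1, 0, 0)
  have e1 := h.ci.z2eq aπ ac ac aπ (by rw [hτ]; exact ((cm_cj _ _ _).2 (K_U xK _ _ _)).eq) v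
  have e2 := h.ci.z2eq aπ (ar μ) (ar (ω * μ)) aπ (by rw [← xr]; group) v
  rw [hf, hf, ← πs, e2, hv] at e1
  have μ0 : μ = 0 := by
    clear * - e1; revert μ; decide
  refine ⟨τ, h, ⟨_, hτ⟩, tC, ac.congr fun v => ?_⟩
  rw [hf, μ0]; congr 1; revert v; decide +kernel

end Dat

end Cfsg.Agent.LS
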